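import Cfsg.Agent.Lib.Jordan.Symplectic

/-! The centraliser of a unipotent matrix of given Jordan type. -/

set_option autoImplicit false
set_option linter.unusedSectionVars false

namespace Cfsg.Agent.Lib.Jordan

open Module Matrix

variable {F : Type*} [Field F] {t : ℕ} (d : Fin t → ℕ)

/-- The index set of the model space. -/
abbrev Idx : Type := (k : Fin t) × Fin (d k)

/-- The nilpotent part. -/
noncomputable abbrev nmat (F : Type*) [Field F] : Matrix (Idx d) (Idx d) F := Cfsg.jordanTypeMatrix d F - 1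

theorem nmat_apply (l k : Fin t) (i : Fin (d l)) (j : Fin (d k)) :
    nmat d F ⟨l, i⟩ ⟨k, j⟩ = if l = k ∧ (i : ℕ) = (j : ℕ) + 1 then 1 else 0 := by
  simp only [nmat, Matrix.sub_apply, Cfsg.jordanTypeMatrix]
  by_cases h : l = k
  · subst h
    rw [Matrix.blockDiagonal'_apply_eq, Matrix.one_apply, jordanBlock_eq]
    simp only [low, Matrix.add_apply, Matrix.one_apply, Matrix.of_apply, Sigma.mk.injEq, heq_eq_eq, true_and]
    ring
  · rw [Matrix.blockDiagonal'_apply_ne _ _ _ h, Matrix.one_apply_ne (fun e => h (congrArg Sigma.fst e)),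
      if_neg (fun e => h e.1), sub_zero]

theorem nmat_mulVec (x : Idx d → F) (l : Fin t) (i : Fin (d l)) :
    (nmat d F *ᵥ x) ⟨l, i⟩ = if h : (i : ℕ) = 0 then 0 else x ⟨l, ⟨(i : ℕ) - 1, by omega⟩⟩ := by
  rw [Matrix.mulVec, dotProduct]
  by_cases h : (i : ℕ) = 0
  · rw [dif_pos h]
    refine Finset.sum_eq_zero fun ⟨k, j⟩ _ => ?_
    rw [nmat_apply, if_neg (fun e => by omega), zero_mul]
  · rw [dif_neg h, Finset.sum_eq_single ⟨l, ⟨(i : ℕ) - 1, by omega⟩⟩]
    · rw [nmat_apply, if_pos ⟨rfl, by simp; omega⟩, one_mul]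
    · rintro ⟨k, j⟩ _ hne
      rw [nmat_apply, if_neg (fun e => hne ?_), zero_mul]
      obtain ⟨rfl, e⟩ := e
      exact Sigma.ext rfl (heq_of_eq (Fin.ext (by simp; omega)))
    · simp

/-- Free parameters of the commutant. -/
abbrev Par : Type := {z : (_ : Fin t) × Idx d // d z.2.1 ≤ (z.2.2 : ℕ) + d z.1}

/-- A parameter, extended by zero. -/
def cext (c : Par d → F) (k : Fin t) (x : Idx d) : F :=
  if h : d x.1 ≤ (x.2 : ℕ) + d k then c ⟨⟨k, x⟩, h⟩ else 0

/-- The commuting matrix with the given parameters. -/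
def cmat (c : Par d → F) : Matrix (Idx d) (Idx d) F := Matrix.of fun a b =>
  if (b.2 : ℕ) ≤ (a.2 : ℕ) then cext d c b.1 ⟨a.1, ⟨(a.2 : ℕ) - (b.2 : ℕ), by have := a.2.2; omega⟩⟩ else 0

theorem commute_iff (A : Matrix (Idx d) (Idx d) F) : A * nmat d F = nmat d F * A ↔
    (∀ (l k : Fin t) (i : Fin (d l)) (j : Fin (d k)) (h : (j : ℕ) + 1 < d k),
      A ⟨l, i⟩ ⟨k, ⟨j + 1, h⟩⟩ = if h0 : (i : ℕ) = 0 then 0 else A ⟨l, ⟨(i : ℕ) - 1, by omega⟩⟩ ⟨k, j⟩) ∧
    (∀ (l k : Fin t) (i : Fin (d l)) (j : Fin (d k)), (j : ℕ) + 1 = d k → (i : ℕ) + 1 < d l → A ⟨l, i⟩ ⟨k, j⟩ = 0) := by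
  have hL : ∀ (l k : Fin t) (i : Fin (d l)) (j : Fin (d k)), (A * nmat d F) ⟨l, i⟩ ⟨k, j⟩ =
      if h : (j : ℕ) + 1 < d k then A ⟨l, i⟩ ⟨k, ⟨j + 1, h⟩⟩ else 0 := by
    intro l k i j
    rw [Matrix.mul_apply]
    by_cases h : (j : ℕ) + 1 < d k
    · rw [dif_pos h, Finset.sum_eq_single ⟨k, ⟨(j : ℕ) + 1, h⟩⟩]
      · rw [nmat_apply, if_pos ⟨rfl, rfl⟩, mul_one]
      · rintro ⟨k', j'⟩ _ hne
        rw [nmat_apply, if_neg (fun e => hne ?_), mul_zero]
        obtain ⟨rfl, e⟩ := e
        exact Sigma.ext rfl (heq_of_eq (Fin.ext e))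
      · simp
    · rw [dif_neg h]
      refine Finset.sum_eq_zero fun ⟨k', j'⟩ _ => ?_
      rw [nmat_apply, if_neg, mul_zero]
      rintro ⟨rfl, e⟩
      have := j'.2; omega
  have hR : ∀ (l k : Fin t) (i : Fin (d l)) (j : Fin (d k)), (nmat d F * A) ⟨l, i⟩ ⟨k, j⟩ =
      if h0 : (i : ℕ) = 0 then 0 else A ⟨l, ⟨(i : ℕ) - 1, by omega⟩⟩ ⟨k, j⟩ :=
    fun l k i j => nmat_mulVec d (fun x => A x ⟨k, j⟩) l i
  constructor
  · intro hA
    refine ⟨fun l k i j h => ?_, fun l k i j hj hi => ?_⟩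
    · have := congrFun (congrFun hA ⟨l, i⟩) ⟨k, j⟩
      rwa [hL, hR, dif_pos h] at this
    · have := congrFun (congrFun hA ⟨l, ⟨(i : ℕ) + 1, hi⟩⟩) ⟨k, j⟩
      rw [hL, hR, dif_neg (by omega), dif_neg (by simp)] at this
      simpa using this.symm
  · rintro ⟨h1, h2⟩
    ext ⟨l, i⟩ ⟨k, j⟩
    rw [hL, hR]
    by_cases h : (j : ℕ) + 1 < d k
    · rw [dif_pos h, h1 l k i j h]
    · rw [dif_neg h]
      split
      · rfl
      · exact (h2 l k _ j (by have := j.2; omega) (by have := i.2; simp; omega)).symm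

theorem cmat_commute (c : Par d → F) : cmat d c * nmat d F = nmat d F * cmat d c := by
  rw [commute_iff]
  refine ⟨fun l k i j h => ?_, fun l k i j hj hi => ?_⟩
  · simp only [cmat, Matrix.of_apply]
    by_cases h0 : (i : ℕ) = 0
    · rw [dif_pos h0, if_neg (by omega)]
    · rw [dif_neg h0]
      by_cases hle : (j : ℕ) + 1 ≤ (i : ℕ)
      · rw [if_pos hle, if_pos (show (j : ℕ) ≤ (i : ℕ) - 1 by omega)]
        congr 3
        omega
      · rw [if_neg hle, if_neg (show ¬ (j : ℕ) ≤ (i : ℕ) - 1 by omega)]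
  · simp only [cmat, Matrix.of_apply, cext]
    split
    · rw [dif_neg (by omega)]
    · rfl

/-- The commutant is parametrised. -/
noncomputable def commEquiv :
    (Par d → F) ≃ {A : Matrix (Idx d) (Idx d) F // A * nmat d F = nmat d F * A} where
  toFun c := ⟨cmat d c, cmat_commute d c⟩
  invFun A z := A.1 z.1.2 ⟨z.1.1, ⟨0, by have := z.2; have := z.1.2.2.2; omega⟩⟩
  left_inv c := by
    funext ⟨⟨k, l, i⟩, hz⟩
    simp only [cmat, Matrix.of_apply, cext, Nat.zero_le, if_true, Nat.sub_zero, Fin.eta]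
    rw [dif_pos hz]
  right_inv A := by
    obtain ⟨A, hA⟩ := A
    obtain ⟨h1, h2⟩ := (commute_iff d A).mp hA
    refine Subtype.ext (Matrix.ext fun ⟨l, i⟩ ⟨k, j⟩ => ?_)
    have key : ∀ (n : ℕ) (hn : n < d k) (i : Fin (d l)), A ⟨l, i⟩ ⟨k, ⟨n, hn⟩⟩ =
        if n ≤ (i : ℕ) then A ⟨l, ⟨(i : ℕ) - n, by omega⟩⟩ ⟨k, ⟨0, by omega⟩⟩ else 0 := by
      intro n
      induction n with
      | zero => intro hn i; simp
      | succ n ih =>
        intro hn i
        rw [h1 l k i ⟨n, by omega⟩ hn]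
        by_cases h0 : (i : ℕ) = 0
        · rw [dif_pos h0, if_neg (by omega)]
        · rw [dif_neg h0, ih (by omega)]
          by_cases hle : n + 1 ≤ (i : ℕ)
          · rw [if_pos hle, if_pos (show n ≤ (i : ℕ) - 1 by omega)]
            congr 3
            simp only
            omega
          · rw [if_neg hle, if_neg (show ¬ n ≤ (i : ℕ) - 1 by omega)]
    show cmat d (fun z : Par d => A z.1.2 ⟨z.1.1, ⟨0, by have := z.2; have := z.1.2.2.2; omega⟩⟩) ⟨l, i⟩ ⟨k, j⟩ = A ⟨l, i⟩ ⟨k, j⟩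
    rw [show A ⟨l, i⟩ ⟨k, j⟩ = A ⟨l, i⟩ ⟨k, ⟨j, j.2⟩⟩ from rfl, key j j.2 i]
    simp only [cmat, Matrix.of_apply, cext]
    split
    · rename_i hle
      split
      · rfl
      · rename_i hlt
        have hk : 1 ≤ d k := by have := j.2; omega
        have hi := i.2
        have e := key (d k - 1) (by omega) ⟨(i : ℕ) - (j : ℕ) + (d k - 1), by omega⟩
        rw [h2 l k _ _ (by simp; omega) (by simp; omega), if_pos (by simp)] at e
        refine e.trans ?_
        congr 3
        simp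
    · rfl

/-- The action on the kernel. -/
def mlead (c : Par d → F) : Matrix (Fin t) (Fin t) F := Matrix.of fun k l =>
  if h : d k ≤ d l ∧ 1 ≤ d k then cext d c k ⟨l, ⟨d l - d k, by omega⟩⟩ else 0

theorem isUnit_cmat_iff (hd : ∀ k, 1 ≤ d k) (c : Par d → F) :
    IsUnit (cmat d c) ↔ (mlead d c).det ≠ 0 := by
  classical
  let emb : (Fin t → F) → Idx d → F := fun β x => if (x.2 : ℕ) + 1 = d x.1 then β x.1 else 0
  have hAemb : ∀ β : Fin t → F, cmat d c *ᵥ emb β = emb ((mlead d c)ᵀ *ᵥ β) := by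
    intro β
    funext ⟨l, i⟩
    rw [Matrix.mulVec, dotProduct, Fintype.sum_sigma]
    have hk : ∀ k : Fin t, ∑ j : Fin (d k), cmat d c ⟨l, i⟩ ⟨k, j⟩ * emb β ⟨k, j⟩ =
        (if (i : ℕ) + 1 = d l then mlead d c k l else 0) * β k := by
      intro k
      have hk1 := hd k
      rw [Finset.sum_eq_single ⟨d k - 1, by omega⟩]
      · have hi := i.2
        simp only [emb, cmat, Matrix.of_apply, mlead]
        rw [if_pos (show d k - 1 + 1 = d k by omega)]
        congr 1
        by_cases hle : d k - 1 ≤ (i : ℕ)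
        · rw [if_pos hle]
          by_cases hil : (i : ℕ) + 1 = d l
          · rw [if_pos hil, dif_pos ⟨by omega, hk1⟩]
            congr 3
            omega
          · rw [if_neg hil, cext, dif_neg (by simp; omega)]
        · rw [if_neg hle]
          split
          · rw [dif_neg (by omega)]
          · rfl
      · intro j _ hj
        have : (j : ℕ) + 1 ≠ d k := fun e => hj (Fin.ext (by simp; omega))
        simp [emb, this]
      · simp
    rw [Finset.sum_congr rfl fun k _ => hk k]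
    simp only [emb]
    by_cases hil : (i : ℕ) + 1 = d l
    · rw [if_pos hil]; simp [hil, Matrix.mulVec, dotProduct]
    · rw [if_neg hil]; simp [hil]
  constructor
  · intro hu hdet
    have hdet' : (mlead d c)ᵀ.det = 0 := by rw [Matrix.det_transpose]; exact hdet
    obtain ⟨β, hβ, hβ0⟩ := Matrix.exists_mulVec_eq_zero_iff.mpr hdet'
    have h1 : cmat d c *ᵥ emb β = cmat d c *ᵥ 0 := by
      rw [hAemb, hβ0, Matrix.mulVec_zero]
      funext x; simp [emb]
    have h2 := Matrix.mulVec_injective_iff_isUnit.mpr hu h1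
    refine hβ (funext fun k => ?_)
    have := congrFun h2 ⟨k, ⟨d k - 1, by have := hd k; omega⟩⟩
    simpa [emb, Nat.sub_add_cancel (hd k)] using this
  · intro hdet
    rw [← Matrix.mulVec_injective_iff_isUnit]
    intro x y hxy
    by_contra hne
    have hz : cmat d c *ᵥ (x - y) = 0 := by rw [Matrix.mulVec_sub]; exact sub_eq_zero.mpr hxy
    set z := x - y with hz'
    have hz0 : z ≠ 0 := sub_ne_zero.mpr hne
    obtain ⟨n, hn⟩ := (mtype_jordan (F := F) d hd).isNilpotent
    have hex : ∃ j, (nmat d F) ^ j *ᵥ z = 0 := ⟨n, by rw [nmat, hn, Matrix.zero_mulVec]⟩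
    have hj0 : Nat.find hex ≠ 0 := fun h => hz0 (by
      have := Nat.find_spec hex
      rwa [h, pow_zero, Matrix.one_mulVec] at this)
    set w := (nmat d F) ^ (Nat.find hex - 1) *ᵥ z with hw
    have hw0 : w ≠ 0 := Nat.find_min hex (by omega)
    have hNw : nmat d F *ᵥ w = 0 := by
      rw [hw, Matrix.mulVec_mulVec, ← pow_succ', Nat.sub_add_cancel (by omega)]
      exact Nat.find_spec hex
    have hAw : cmat d c *ᵥ w = 0 := by
      have hc : Commute (cmat d c) (nmat d F) := cmat_commute d c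
      rw [hw, Matrix.mulVec_mulVec, (hc.pow_right _).eq, ← Matrix.mulVec_mulVec, hz, Matrix.mulVec_zero]
    let β : Fin t → F := fun k => w ⟨k, ⟨d k - 1, by have := hd k; omega⟩⟩
    have hwe : w = emb β := by
      funext ⟨k, j⟩
      simp only [emb, β]
      by_cases hj : (j : ℕ) + 1 = d k
      · rw [if_pos hj]; congr 2; exact Fin.ext (by simp; omega)
      · rw [if_neg hj]
        have := congrFun hNw ⟨k, ⟨(j : ℕ) + 1, by have := j.2; omega⟩⟩
        rw [nmat_mulVec, dif_neg (by simp)] at this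
        simpa using this
    rw [hwe, hAemb] at hAw
    have hMβ : (mlead d c)ᵀ *ᵥ β = 0 := funext fun k => by
      have := congrFun hAw ⟨k, ⟨d k - 1, by have := hd k; omega⟩⟩
      simpa [emb, Nat.sub_add_cancel (hd k)] using this
    have hMu : IsUnit (mlead d c)ᵀ := by
      rw [Matrix.isUnit_iff_isUnit_det, Matrix.det_transpose]; exact isUnit_iff_ne_zero.mpr hdet
    have hβ := Matrix.mulVec_injective_iff_isUnit.mpr hMu (hMβ.trans (Matrix.mulVec_zero _).symm)
    exact hw0 (by rw [hwe, hβ]; funext x; simp [emb])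

/-- The multiplicity of a block size. -/
abbrev mult (i : ℕ) : ℕ := (Finset.univ.filter fun k : Fin t => d k = i).card

theorem gamma_eq (hd : ∀ k, 1 ≤ d k) :
    Fintype.card (Par d) = 2 * (∑ i ∈ Finset.range (Finset.univ.sup d + 1),
        ∑ j ∈ Finset.range (Finset.univ.sup d + 1), if i < j then i * mult d i * mult d j else 0) +
      (∑ i ∈ Finset.range (Finset.univ.sup d + 1), (i - 1) * mult d i ^ 2) +
      ∑ i ∈ Finset.range (Finset.univ.sup d + 1), mult d i ^ 2 := by
  classical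
  set R := Finset.range (Finset.univ.sup d + 1) with hR
  have hmem : ∀ k ∈ (Finset.univ : Finset (Fin t)), d k ∈ R := fun k _ =>
    Finset.mem_range.mpr (Nat.lt_succ_of_le (Finset.le_sup (Finset.mem_univ k)))
  have h1 : Fintype.card (Par d) = ∑ k : Fin t, ∑ l : Fin t, min (d k) (d l) := by
    rw [Fintype.card_congr (show Par d ≃ ((k : Fin t) × (l : Fin t) × {i : Fin (d l) // d l ≤ (i : ℕ) + d k}) from
      ⟨fun z => ⟨z.1.1, z.1.2.1, z.1.2.2, z.2⟩, fun z => ⟨⟨z.1, z.2.1, z.2.2.1⟩, z.2.2.2⟩,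
        fun _ => rfl, fun _ => rfl⟩), Fintype.card_sigma]
    refine Finset.sum_congr rfl fun k _ => ?_
    rw [Fintype.card_sigma]
    refine Finset.sum_congr rfl fun l _ => ?_
    have hk := hd k
    have hl := hd l
    rw [Fintype.card_subtype, show (Finset.univ.filter fun i : Fin (d l) => d l ≤ (i : ℕ) + d k) =
      Finset.Ici (⟨d l - d k, by omega⟩ : Fin (d l)) by ext i; simp [Fin.le_def], Fin.card_Ici]
    simp only
    omega
  have h2 : ∀ g : ℕ → ℕ, ∑ k : Fin t, g (d k) = ∑ i ∈ R, mult d i * g i := by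
    intro g
    rw [← Finset.sum_fiberwise_of_maps_to hmem]
    refine Finset.sum_congr rfl fun i _ => ?_
    rw [Finset.sum_congr rfl (fun k hk => by rw [(Finset.mem_filter.mp hk).2]), Finset.sum_const, smul_eq_mul]
  have h3 : Fintype.card (Par d) = ∑ i ∈ R, ∑ j ∈ R, mult d i * mult d j * min i j := by
    rw [h1, h2 fun a => ∑ l : Fin t, min a (d l)]
    refine Finset.sum_congr rfl fun i _ => ?_
    rw [h2 fun b => min i b, Finset.mul_sum]
    exact Finset.sum_congr rfl fun j _ => (mul_assoc _ _ _).symm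
  have h4 : ∀ i j : ℕ, mult d i * mult d j * min i j = (if i < j then i * mult d i * mult d j else 0) +
      (if j < i then j * mult d j * mult d i else 0) + (if i = j then i * mult d i ^ 2 else 0) := by
    intro i j
    rcases Nat.lt_trichotomy i j with h | rfl | h
    · rw [if_pos h, if_neg (by omega), if_neg (by omega), min_eq_left h.le]; ring
    · rw [if_neg (lt_irrefl _), if_pos rfl, min_self]; ring
    · rw [if_neg (by omega), if_pos h, if_neg (by omega), min_eq_right h.le]; ring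
  rw [h3, Finset.sum_congr rfl fun i _ => Finset.sum_congr rfl fun j _ => h4 i j]
  simp only [Finset.sum_add_distrib, Finset.sum_ite_eq, Finset.sum_ite_mem, Finset.inter_self]
  rw [Finset.sum_comm (f := fun i j => if j < i then j * mult d j * mult d i else 0)]
  have h5 : ∑ i ∈ R, i * mult d i ^ 2 = (∑ i ∈ R, (i - 1) * mult d i ^ 2) + ∑ i ∈ R, mult d i ^ 2 := by
    rw [← Finset.sum_add_distrib]
    refine Finset.sum_congr rfl fun i _ => ?_
    rcases i with _ | i
    · have : mult d 0 = 0 := Finset.card_eq_zero.mpr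
        (Finset.filter_eq_empty_iff.mpr fun k _ e => by have := hd k; omega)
      rw [this]; simp
    · rw [Nat.add_sub_cancel]; ring
  rw [h5]
  ring

/-- The order of the centraliser. -/
theorem card_centralizer [Fintype F] (hd : ∀ k, 1 ≤ d k) :
    Nat.card {g : GL (Idx d) F // (g : Matrix (Idx d) (Idx d) F) * Cfsg.jordanTypeMatrix d F =
        Cfsg.jordanTypeMatrix d F * (g : Matrix (Idx d) (Idx d) F)} =
      Fintype.card F ^ (2 * (∑ i ∈ Finset.range (Finset.univ.sup d + 1),
          ∑ j ∈ Finset.range (Finset.univ.sup d + 1), if i < j then i * mult d i * mult d j else 0) +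
        ∑ i ∈ Finset.range (Finset.univ.sup d + 1), (i - 1) * mult d i ^ 2) *
      ∏ i ∈ Finset.range (Finset.univ.sup d + 1),
        ∏ j : Fin (mult d i), (Fintype.card F ^ mult d i - Fintype.card F ^ (j : ℕ)) := by
  classical
  set R := Finset.range (Finset.univ.sup d + 1) with hR
  have hiff : ∀ A : Matrix (Idx d) (Idx d) F, A * Cfsg.jordanTypeMatrix d F = Cfsg.jordanTypeMatrix d F * A ↔
      A * nmat d F = nmat d F * A := fun A => by
    rw [nmat, Matrix.mul_sub, Matrix.sub_mul, Matrix.mul_one, Matrix.one_mul, sub_left_inj]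
  have hmemR : ∀ k : Fin t, d k ∈ R := fun k =>
    Finset.mem_range.mpr (Nat.lt_succ_of_le (Finset.le_sup (Finset.mem_univ k)))
  -- step 1: invertible parameters
  have e1 : Nat.card {g : GL (Idx d) F // (g : Matrix (Idx d) (Idx d) F) * Cfsg.jordanTypeMatrix d F =
      Cfsg.jordanTypeMatrix d F * (g : Matrix (Idx d) (Idx d) F)} =
      Nat.card {c : Par d → F // IsUnit (cmat d c)} := by
    refine Nat.card_congr ⟨fun g => ⟨(commEquiv d).symm ⟨_, (hiff _).mp g.2⟩, ?_⟩,
      fun c => ⟨c.2.unit, (hiff _).mpr (cmat_commute d c.1)⟩, fun g => ?_, fun c => ?_⟩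
    · have h := congrArg Subtype.val ((commEquiv d).apply_symm_apply ⟨_, (hiff _).mp g.2⟩)
      rw [show cmat d ((commEquiv d).symm ⟨_, (hiff _).mp g.2⟩) = (g.1 : Matrix _ _ F) from h]
      exact g.1.isUnit
    · refine Subtype.ext (Units.ext ?_)
      exact congrArg Subtype.val ((commEquiv d).apply_symm_apply ⟨_, (hiff _).mp g.2⟩)
    · refine Subtype.ext ?_
      exact (commEquiv d).symm_apply_apply c.1
  -- step 2: the leading blocks
  let Dg : Par d → Prop := fun z => d z.1.2.1 = d z.1.1 ∧ (z.1.2.2 : ℕ) = 0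
  let σ : {z // Dg z} ≃ ((i : {i // i ∈ R}) × ({k : Fin t // d k = i} × {k : Fin t // d k = i})) :=
    { toFun := fun z => ⟨⟨d z.1.1.1, hmemR _⟩, ⟨z.1.1.1, rfl⟩, ⟨z.1.1.2.1, z.2.1⟩⟩
      invFun := fun w => ⟨⟨⟨w.2.1.1, w.2.2.1, ⟨0, hd _⟩⟩, by
        show d (w.2.2 : Fin t) ≤ 0 + d (w.2.1 : Fin t); rw [w.2.1.2, w.2.2.2]; omega⟩,
        by show d (w.2.2 : Fin t) = d (w.2.1 : Fin t); rw [w.2.1.2, w.2.2.2], rfl⟩
      left_inv := by
        rintro ⟨⟨⟨k, l, i⟩, hz⟩, h1, h2⟩
        refine Subtype.ext (Subtype.ext ?_)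
        exact Sigma.ext rfl (heq_of_eq (Sigma.ext rfl (heq_of_eq (Fin.ext h2.symm))))
      right_inv := by
        rintro ⟨⟨i, hi⟩, ⟨k, hk⟩, ⟨l, hl⟩⟩
        obtain rfl : i = d k := hk.symm
        rfl }
  let blocks : ({z // Dg z} → F) ≃ ((i : {i // i ∈ R}) → Matrix {k : Fin t // d k = i} {k : Fin t // d k = i} F) :=
    { toFun := fun f i => Matrix.of fun a b => f (σ.symm ⟨i, a, b⟩)
      invFun := fun m z => m (σ z).1 (σ z).2.1 (σ z).2.2
      left_inv := fun f => funext fun z => by simp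
      right_inv := fun m => funext fun i => Matrix.ext fun a b => by
        simp only [Matrix.of_apply]
        rw [σ.apply_symm_apply] }
  have htri : ∀ c : Par d → F, (mlead d c).BlockTriangular d := fun c k l h => by
    simp only [mlead, Matrix.of_apply]
    rw [dif_neg (by omega)]
  have hdet : ∀ c : Par d → F, (mlead d c).det ≠ 0 ↔
      ∀ i : {i // i ∈ R}, (blocks (fun z => c z.1) i).det ≠ 0 := by
    intro c
    have hblk : ∀ i : {i // i ∈ R}, (mlead d c).toSquareBlock d i = blocks (fun z => c z.1) i := by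
      rintro ⟨i, hi⟩
      refine Matrix.ext fun ⟨k, hk⟩ ⟨l, hl⟩ => ?_
      change mlead d c k l = _
      simp only [blocks, σ, Equiv.coe_fn_mk, Equiv.coe_fn_symm_mk, Matrix.of_apply, mlead]
      have := hd k
      rw [dif_pos ⟨by omega, this⟩, cext, dif_pos (by simp; omega)]
      congr 1
      refine Subtype.ext ?_
      exact Sigma.ext rfl (heq_of_eq (Sigma.ext rfl (heq_of_eq (Fin.ext (by simp; omega)))))
    rw [(htri c).det, Finset.prod_ne_zero_iff]
    constructor
    · intro h i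
      by_cases hex : (i : ℕ) ∈ Finset.univ.image d
      · rw [← hblk]; exact h i hex
      · haveI : IsEmpty {k : Fin t // d k = i} := ⟨fun k => hex (Finset.mem_image.mpr ⟨k, Finset.mem_univ _, k.2⟩)⟩
        rw [Matrix.det_isEmpty]; exact one_ne_zero
    · intro h i hi
      obtain ⟨k, -, rfl⟩ := Finset.mem_image.mp hi
      rw [hblk ⟨d k, hmemR k⟩]
      exact h _
  let split : (Par d → F) ≃ ({z // Dg z} → F) × ({z // ¬ Dg z} → F) := Equiv.piEquivPiSubtypeProd Dg _
  have e2 : Nat.card {c : Par d → F // IsUnit (cmat d c)} =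
      (∏ i : {i // i ∈ R}, Nat.card (GL {k : Fin t // d k = i} F)) * Nat.card ({z // ¬ Dg z} → F) := by
    rw [← Nat.card_pi, ← Nat.card_prod]
    refine Nat.card_congr ⟨fun c => (fun i => Matrix.GeneralLinearGroup.mkOfDetNeZero (blocks (split c.1).1 i)
        ((hdet c.1).mp ((isUnit_cmat_iff d hd c.1).mp c.2) i), (split c.1).2),
      fun m => ⟨split.symm (blocks.symm fun i => (m.1 i : Matrix _ _ F), m.2),
        (isUnit_cmat_iff d hd _).mpr ((hdet _).mpr fun i => ?_)⟩, fun c => ?_, fun m => ?_⟩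
    · let a0 : {z // Dg z} → F := blocks.symm fun j => Units.val (m.1 j)
      have : (fun z : {z // Dg z} => split.symm (a0, m.2) z.1) = a0 :=
        congrArg Prod.fst (split.apply_symm_apply (a0, m.2))
      rw [this, Equiv.apply_symm_apply]
      exact Matrix.GeneralLinearGroup.det_ne_zero _
    · refine Subtype.ext ?_
      show split.symm (blocks.symm (blocks (split c.1).1), (split c.1).2) = c.1
      rw [Equiv.symm_apply_apply]
      exact split.symm_apply_apply c.1
    · refine Prod.ext (funext fun i => Units.ext ?_) ?_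
      · show blocks (split (split.symm (blocks.symm (fun i => (m.1 i : Matrix _ _ F)), m.2))).1 i = _
        rw [split.apply_symm_apply, Equiv.apply_symm_apply]
      · show (split (split.symm _)).2 = _
        rw [split.apply_symm_apply]
  have e3 : ∀ i : {i // i ∈ R}, Nat.card (GL {k : Fin t // d k = i} F) =
      ∏ j : Fin (mult d i), (Fintype.card F ^ mult d i - Fintype.card F ^ (j : ℕ)) := by
    intro i
    rw [← Matrix.card_GL_field]
    let e := Fintype.equivFinOfCardEq (show Fintype.card {k : Fin t // d k = i} = mult d i from Fintype.card_subtype _)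
    exact Nat.card_congr (Units.mapEquiv (Matrix.reindexAlgEquiv F F e).toMulEquiv).toEquiv
  have e4 : Fintype.card {z // ¬ Dg z} = 2 * (∑ i ∈ R, ∑ j ∈ R, if i < j then i * mult d i * mult d j else 0) +
      ∑ i ∈ R, (i - 1) * mult d i ^ 2 := by
    rw [Fintype.card_subtype_compl, gamma_eq d hd, Fintype.card_congr σ, Fintype.card_sigma]
    have : ∑ i : {i // i ∈ R}, Fintype.card ({k : Fin t // d k = i} × {k : Fin t // d k = i}) = ∑ i ∈ R, mult d i ^ 2 := by
      rw [← Finset.sum_coe_sort R fun i => mult d i ^ 2]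
      refine Finset.sum_congr rfl fun i _ => ?_
      rw [Fintype.card_prod, Fintype.card_subtype, sq]
    rw [this, ← hR, Nat.add_sub_cancel]
  rw [e1, e2, Finset.prod_congr rfl fun i _ => e3 i,
    Finset.prod_coe_sort R fun i => ∏ j : Fin (mult d i), (Fintype.card F ^ mult d i - Fintype.card F ^ (j : ℕ)),
    Nat.card_eq_fintype_card, Fintype.card_fun, e4, mul_comm]

end Cfsg.Agent.Lib.Jordan
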