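import Cfsg.Agent.Lib.Jordan.SympInvolClasses
import Cfsg.Agent.Lib.Forms.WittQuad
import Cfsg.Agent.Lib.Classical.QuadOmega.Apply

/-! Involutions of orthogonal groups in characteristic two, through the symplectic group of the polar form. -/

set_option autoImplicit false
set_option linter.unusedSectionVars false

namespace Cfsg.Agent.Lib.Jordan.OrthInvol

open Matrix QuadraticMap SymmTwo SympInvol

variable {F : Type*} [Field F] [CharP F 2] {m : ℕ}

local notation "nn" => (Fin m ⊕ Fin m)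
local notation "JJ" => Matrix.J (Fin m) F
local notation "Sp" => Matrix.symplecticGroup (Fin m) F

/-- The polar form is the standard alternating form. -/
def StdPolar (Q : QuadraticForm F (Fin m ⊕ Fin m → F)) : Prop :=
  ∀ u v, polar Q u v = u ⬝ᵥ Matrix.J (Fin m) F *ᵥ v

/-- The values of `Q` on the frame are prescribed by the symmetric matrix. -/
def QF {σ : Type} [Fintype σ] [DecidableEq σ] (Q : QuadraticForm F (Fin m ⊕ Fin m → F))
    (U : Matrix (Fin m ⊕ Fin m) σ F) (S : Matrix σ σ F) : Prop :=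
  Frame U ∧ ∀ w, Q (U *ᵥ (S *ᵥ w)) = w ⬝ᵥ S *ᵥ w

variable {Q : QuadraticForm F (Fin m ⊕ Fin m → F)}

set_option quotPrecheck false in
local notation "OQ" => Cfsg.isometryGroup F (DFunLike.coe Q)

theorem quad_eq (g : OQ) (v : nn → F) : Q (((g : GL nn F) : Matrix nn nn F) *ᵥ v) = Q v := g.2 v v

theorem mem_sp (hQ : StdPolar Q) (g : OQ) : ((g : GL nn F) : Matrix nn nn F) ∈ Sp := by
  set G := ((g : GL nn F) : Matrix nn nn F) with hG
  refine SymplecticGroup.mem_iff'.mpr (Matrix.ext fun i j => ?_)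
  have h : polar Q (G *ᵥ Pi.single i 1) (G *ᵥ Pi.single j 1) = polar Q (Pi.single i 1) (Pi.single j 1) := by
    simp only [polar, ← Matrix.mulVec_add, hG, quad_eq g]
  rw [hQ, hQ] at h
  have e : ∀ M : Matrix nn nn F, Pi.single i 1 ⬝ᵥ M *ᵥ Pi.single j 1 = M i j := fun M => by
    rw [single_dotProduct, one_mul, Matrix.mulVec_single_one]; rfl
  rw [← e (JJ), ← h, ← e (Gᵀ * JJ * G), ← Matrix.mulVec_mulVec, ← Matrix.mulVec_mulVec,
    Matrix.dotProduct_mulVec _ Gᵀ, Matrix.vecMul_transpose]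

/-- The inclusion in the symplectic group. -/
def toSp (hQ : StdPolar Q) : Cfsg.isometryGroup F ⇑Q →* Matrix.symplecticGroup (Fin m) F where
  toFun g := ⟨_, mem_sp hQ g⟩
  map_one' := rfl
  map_mul' _ _ := rfl

theorem toSp_val (hQ : StdPolar Q) (g : OQ) :
    ((toSp hQ g : Sp) : Matrix nn nn F) = ((g : GL nn F) : Matrix nn nn F) := rfl

theorem toSp_injective (hQ : StdPolar Q) : Function.Injective (toSp hQ) := fun _ _ h =>
  Subtype.ext (Units.ext (congrArg (fun z : Sp => (z : Matrix nn nn F)) h))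

theorem exists_toSp (hQ : StdPolar Q) (g : Sp) (hg : ∀ v, Q ((g : Matrix nn nn F) *ᵥ v) = Q v) :
    ∃ h : OQ, toSp hQ h = g := by
  let G : GL nn F := ⟨g, (g⁻¹ : Sp), by rw [← Submonoid.coe_mul, mul_inv_cancel]; rfl,
    by rw [← Submonoid.coe_mul, inv_mul_cancel]; rfl⟩
  exact ⟨⟨G, fun u _ => hg u⟩, Subtype.ext rfl⟩

theorem polarBilin_nondeg (hQ : StdPolar Q) : (polarBilin Q).Nondegenerate := by
  have e : polarBilin Q = Cfsg.Agent.Lib.Forms.stdB m F := LinearMap.ext fun u => LinearMap.ext fun v => by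
    rw [polarBilin_apply_apply, hQ, Cfsg.Agent.Lib.Forms.stdB, Matrix.toBilin'_apply']
  rw [e]; exact Cfsg.Agent.Lib.Forms.stdB_nondegenerate m

variable {σ : Type} [Fintype σ] [DecidableEq σ]

/-- An element built on a frame is orthogonal exactly for prescribed values of `Q`. -/
theorem qf_iff (hQ : StdPolar Q) {U : Matrix nn σ F} (hU : Frame U) (S : Matrix σ σ F) :
    (∀ v, Q (elt U S *ᵥ v) = Q v) ↔ QF Q U S := by
  obtain ⟨-, V, hV⟩ := id hU
  have hVt : Uᵀ * Vᵀ = 1 := by rw [← Matrix.transpose_mul, hV, Matrix.transpose_one]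
  have key : ∀ v, Q (elt U S *ᵥ v) = Q v + Q (U *ᵥ (S *ᵥ ((Uᵀ * JJ) *ᵥ v))) +
      ((Uᵀ * JJ) *ᵥ v) ⬝ᵥ S *ᵥ ((Uᵀ * JJ) *ᵥ v) := fun v => by
    have e : elt U S *ᵥ v = v + U *ᵥ (S *ᵥ ((Uᵀ * JJ) *ᵥ v)) := by
      rw [elt, Matrix.add_mulVec, Matrix.one_mulVec]
      simp only [← Matrix.mulVec_mulVec]
    rw [e, QuadraticMap.map_add ⇑Q, hQ]
    congr 1
    rw [← Matrix.mulVec_mulVec v Uᵀ, Matrix.dotProduct_mulVec v (JJ), ← Matrix.mulVec_transpose, J_symm,
      Matrix.dotProduct_mulVec (JJ *ᵥ v) U, ← Matrix.mulVec_transpose]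
  refine ⟨fun h => ⟨hU, fun w => ?_⟩, fun h v => ?_⟩
  · have := key (JJ *ᵥ (Vᵀ *ᵥ w))
    rw [h, show (Uᵀ * JJ) *ᵥ (JJ *ᵥ (Vᵀ *ᵥ w)) = w by
      rw [Matrix.mulVec_mulVec, Matrix.mulVec_mulVec, Matrix.mul_assoc Uᵀ, J_mul_J, Matrix.mul_one, hVt,
        Matrix.one_mulVec], add_assoc, left_eq_add, CharTwo.add_eq_zero] at this
    exact this
  · rw [key, h.2, add_assoc, CharTwo.add_self_eq_zero, add_zero]

/-- The three shapes inside the orthogonal group. -/
theorem exists_shape [Finite F] (hQ : StdPolar Q) (x : OQ) (hx : x * x = 1) :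
    ∃ r : ℕ, (∃ U, QF Q U (SA F r) ∧ ((x : GL nn F) : Matrix nn nn F) = elt U (SA F r)) ∨
      (∃ U, QF Q U (SO F r) ∧ ((x : GL nn F) : Matrix nn nn F) = elt U (SO F r)) ∨
      (∃ U, QF Q U (SE F r) ∧ ((x : GL nn F) : Matrix nn nn F) = elt U (SE F r)) := by
  obtain ⟨r, ⟨U, hU, he⟩ | ⟨U, hU, he⟩ | ⟨U, hU, he⟩⟩ :=
    SympInvol.exists_shape (toSp hQ x) (by rw [← map_mul, hx, map_one]) <;> refine ⟨r, ?_⟩ <;>
    have hqf := (qf_iff hQ hU _).mp (fun v => by rw [← he]; exact quad_eq x v)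
  · exact Or.inl ⟨U, hqf, he⟩
  · exact Or.inr (Or.inl ⟨U, hqf, he⟩)
  · exact Or.inr (Or.inr ⟨U, hqf, he⟩)

/-- Witt for frames with prescribed values. -/
theorem exists_map (hQ : StdPolar Q) {U U' : Matrix nn σ F} {S : Matrix σ σ F} (hS : IsUnit S.det)
    (hU : QF Q U S) (hU' : QF Q U' S) : ∃ g : OQ, ((g : GL nn F) : Matrix nn nn F) * U = U' := by
  classical
  obtain ⟨⟨-, V, hV⟩, hq⟩ := hU
  obtain ⟨⟨-, V', hV'⟩, hq'⟩ := hU'
  let X : Submodule F (nn → F) := LinearMap.range (Matrix.mulVecLin U)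
  let φ : X →ₗ[F] (nn → F) := ((Matrix.mulVecLin U').comp (Matrix.mulVecLin V)).comp X.subtype
  have hφ : ∀ (a : σ → F) (h : U *ᵥ a ∈ X), φ ⟨U *ᵥ a, h⟩ = U' *ᵥ a := fun a h => by
    simp [φ, hV]
  have hinj : Function.Injective φ := by
    rintro ⟨_, a, rfl⟩ ⟨_, b, rfl⟩ h
    simp only [Matrix.mulVecLin_apply] at h ⊢
    rw [hφ, hφ] at h
    simp [injective_of_leftInv hV' h]
  obtain ⟨γ, hγQ, hγ⟩ := Cfsg.Agent.Lib.Forms.witt_extension (Q := Q) (polarBilin_nondeg hQ)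
    (Module.finrank F X) X rfl φ hinj (by
      rintro ⟨_, a, rfl⟩
      simp only [Matrix.mulVecLin_apply]
      obtain ⟨w, rfl⟩ := Matrix.mulVec_surjective_iff_isUnit.mpr ((Matrix.isUnit_iff_isUnit_det S).mpr hS) a
      rw [hφ, hq, hq'])
  refine ⟨(Cfsg.Agent.Lib.Classical.QuadOmega.isoEquiv (Q := Q) ⇑Q (LinearEquiv.refl F _) fun _ => rfl).symm
    ⟨γ, hγQ⟩, ?_⟩
  set g := (Cfsg.Agent.Lib.Classical.QuadOmega.isoEquiv (Q := Q) ⇑Q (LinearEquiv.refl F _) fun _ => rfl).symm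
    ⟨γ, hγQ⟩
  have hg : ∀ v, ((g : GL nn F) : Matrix nn nn F) *ᵥ v = γ v := fun v => by
    have := Cfsg.Agent.Lib.Classical.QuadOmega.isoEquiv_apply ⇑Q (LinearEquiv.refl F _) (fun _ => rfl) g v
    rw [MulEquiv.apply_symm_apply] at this
    exact this.symm
  refine Matrix.ext_of_mulVec_single fun s => ?_
  rw [← Matrix.mulVec_mulVec, hg]
  exact (hγ ⟨_, Pi.single s 1, rfl⟩).trans (hφ _ _)

/-- Conjugacy by the rank and the alternating property. -/
theorem isConj_of_same [Finite F] (hQ : StdPolar Q) (a b : OQ) (ha : a * a = 1) (hb : b * b = 1)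
    (hr : (((a : GL nn F) : Matrix nn nn F) - 1).rank = (((b : GL nn F) : Matrix nn nn F) - 1).rank)
    (halt : (∀ v, v ⬝ᵥ JJ *ᵥ (((a : GL nn F) : Matrix nn nn F) *ᵥ v) = 0) ↔
      (∀ v, v ⬝ᵥ JJ *ᵥ (((b : GL nn F) : Matrix nn nn F) *ᵥ v) = 0)) : IsConj a b := by
  classical
  have key : ∀ {σ : Type} [Fintype σ] [DecidableEq σ] (S : Matrix σ σ F) (U U' : Matrix nn σ F),
      IsUnit S.det → QF Q U S → QF Q U' S → ((a : GL nn F) : Matrix nn nn F) = elt U S →
      ((b : GL nn F) : Matrix nn nn F) = elt U' S → IsConj a b := by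
    intro σ _ _ S U U' hS hU hU' e e'
    obtain ⟨g, hg⟩ := exists_map hQ hS hU hU'
    refine isConj_iff.mpr ⟨g, mul_inv_eq_iff_eq_mul.mpr (toSp_injective hQ (Subtype.ext ?_))⟩
    show ((g : GL nn F) : Matrix nn nn F) * ((a : GL nn F) : Matrix nn nn F) =
      ((b : GL nn F) : Matrix nn nn F) * ((g : GL nn F) : Matrix nn nn F)
    rw [e, e', ← hg]
    exact (elt_mul (toSp hQ g) U S).symm
  obtain ⟨r, hA⟩ := exists_shape hQ a ha
  obtain ⟨r', hB⟩ := exists_shape hQ b hb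
  rcases hA with ⟨U, hU, e⟩ | ⟨U, hU, e⟩ | ⟨U, hU, e⟩ <;>
    rcases hB with ⟨U', hU', e'⟩ | ⟨U', hU', e'⟩ | ⟨U', hU', e'⟩ <;>
    rw [e, e'] at hr halt
  · rw [(elt_facts hU.1 (SA_det r)).1, (elt_facts hU'.1 (SA_det r')).1] at hr
    simp at hr
    obtain rfl : r = r' := by omega
    exact key _ U U' (SA_det r) hU hU' e e'
  · exact absurd ((elt_facts hU'.1 (SO_det r')).2.mp (halt.mp ((elt_facts hU.1 (SA_det r)).2.mpr (SA_alt r))))
      (SO_not_alt r')
  · exact absurd ((elt_facts hU'.1 (SE_det r')).2.mp (halt.mp ((elt_facts hU.1 (SA_det r)).2.mpr (SA_alt r))))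
      (SE_not_alt r')
  · exact absurd ((elt_facts hU.1 (SO_det r)).2.mp (halt.mpr ((elt_facts hU'.1 (SA_det r')).2.mpr (SA_alt r'))))
      (SO_not_alt r)
  · rw [(elt_facts hU.1 (SO_det r)).1, (elt_facts hU'.1 (SO_det r')).1] at hr
    simp at hr
    obtain rfl : r = r' := by omega
    exact key _ U U' (SO_det r) hU hU' e e'
  · rw [(elt_facts hU.1 (SO_det r)).1, (elt_facts hU'.1 (SE_det r')).1] at hr
    simp at hr
    omega
  · exact absurd ((elt_facts hU.1 (SE_det r)).2.mp (halt.mpr ((elt_facts hU'.1 (SA_det r')).2.mpr (SA_alt r'))))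
      (SE_not_alt r)
  · rw [(elt_facts hU.1 (SE_det r)).1, (elt_facts hU'.1 (SO_det r')).1] at hr
    simp at hr
    omega
  · rw [(elt_facts hU.1 (SE_det r)).1, (elt_facts hU'.1 (SE_det r')).1] at hr
    simp at hr
    obtain rfl : r = r' := by omega
    exact key _ U U' (SE_det r) hU hU' e e'

/-- The invariants of a symplectically conjugate pair agree. -/
theorem inv_of_sp_conj {a b : Matrix nn nn F} (g : Sp)
    (h : (g : Matrix nn nn F) * a = b * (g : Matrix nn nn F)) :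
    (a - 1).rank = (b - 1).rank ∧
      ((∀ v, v ⬝ᵥ JJ *ᵥ (a *ᵥ v) = 0) ↔ (∀ v, v ⬝ᵥ JJ *ᵥ (b *ᵥ v) = 0)) := by
  have hu : IsUnit (g : Matrix nn nn F).det := SymplecticGroup.symplectic_det g.2
  refine ⟨?_, ?_⟩
  · have e1 : (g : Matrix nn nn F) * (a - 1) = (b - 1) * (g : Matrix nn nn F) := by
      rw [mul_sub, sub_mul, mul_one, one_mul, h]
    rw [← Matrix.rank_mul_eq_right_of_isUnit_det _ (a - 1) hu, e1, Matrix.rank_mul_eq_left_of_isUnit_det _ _ hu]
  · have hform : ∀ v, ((g : Matrix nn nn F) *ᵥ v) ⬝ᵥ JJ *ᵥ (b *ᵥ ((g : Matrix nn nn F) *ᵥ v)) =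
        v ⬝ᵥ JJ *ᵥ (a *ᵥ v) := by
      intro v
      rw [Matrix.mulVec_mulVec v b, ← h, ← Matrix.mulVec_mulVec]
      conv_rhs => rw [← SymplecticGroup.mem_iff'.mp g.2, ← Matrix.mulVec_mulVec, ← Matrix.mulVec_mulVec,
        Matrix.dotProduct_mulVec v, Matrix.vecMul_transpose]
    refine ⟨fun H v => ?_, fun H v => by rw [← hform]; exact H _⟩
    obtain ⟨w, rfl⟩ := Matrix.mulVec_surjective_iff_isUnit.mpr ((Matrix.isUnit_iff_isUnit_det _).mpr hu) v
    rw [hform]; exact H w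

/-- The values of a symmetric matrix are those of its diagonal. -/
theorem quad_diag [Finite F] {M : Matrix σ σ F} (hM : Mᵀ = M) (v : σ → F) :
    v ⬝ᵥ M *ᵥ v = ∑ i, v i ^ 2 * M i i := by
  obtain ⟨r, hr⟩ := exists_root hM
  have hd : ∀ i, M i i = r i ^ 2 := fun i => by
    have := hr (Pi.single i 1)
    rw [single_dotProduct, one_mul, Matrix.mulVec_single_one, dotProduct_single, mul_one] at this
    exact this
  rw [hr, dotProduct, CharTwo.sum_sq]
  exact Finset.sum_congr rfl fun i _ => by rw [hd, mul_pow, mul_comm]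

/-- A frame from an orthogonal family with the diagonal values of the inverse. -/
theorem qf_of_family [Finite F] (hQ : StdPolar Q) {S : Matrix σ σ F} (hsym : Sᵀ = S) (hS : IsUnit S.det)
    (p : σ → (nn → F)) (hind : LinearIndependent F p) (horth : ∀ i j, i ≠ j → polar Q (p i) (p j) = 0)
    (hval : ∀ i, Q (p i) = S⁻¹ i i) : QF Q (Matrix.of fun a i => p i a) S := by
  classical
  set U : Matrix nn σ F := Matrix.of fun a i => p i a with hU
  have hcol : ∀ i, U.col i = p i := fun i => rfl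
  have hframe : Frame U := by
    refine ⟨?_, exists_leftInv (Matrix.mulVec_injective_iff.mpr hind)⟩
    ext i j
    rw [Matrix.mul_assoc, Matrix.mul_apply', Matrix.zero_apply]
    rcases eq_or_ne i j with rfl | hij
    · show p i ⬝ᵥ JJ *ᵥ p i = 0
      exact SA_alt m (p i)
    · have := horth i j hij
      rw [hQ] at this
      exact this
  refine ⟨hframe, fun w => ?_⟩
  have hlin : ∀ y : σ → F, ∀ s : Finset σ, Q (∑ i ∈ s, y i • p i) = ∑ i ∈ s, y i ^ 2 * S⁻¹ i i := by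
    intro y s
    induction s using Finset.induction with
    | empty => simp
    | insert i s hi ih =>
      have e0 : polar Q (y i • p i) (∑ j ∈ s, y j • p j) = 0 := by
        rw [← polarBilin_apply_apply, map_sum]
        refine Finset.sum_eq_zero fun j hj => ?_
        rw [polarBilin_apply_apply, polar_smul_left, polar_smul_right, horth i j (fun e => hi (e ▸ hj)),
          smul_zero, smul_zero]
      rw [Finset.sum_insert hi, Finset.sum_insert hi, QuadraticMap.map_add ⇑Q, ih, QuadraticMap.map_smul, hval,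
        e0, add_zero, smul_eq_mul, _root_.sq]
  have e : U *ᵥ (S *ᵥ w) = ∑ i, (S *ᵥ w) i • p i := by
    ext a
    simp [Matrix.mulVec, dotProduct, hU, mul_comm]
  have hsi : (S⁻¹)ᵀ = S⁻¹ := by rw [Matrix.transpose_nonsing_inv, hsym]
  rw [e, hlin, ← quad_diag hsi, Matrix.mulVec_mulVec, Matrix.nonsing_inv_mul _ hS, Matrix.one_mulVec,
    dotProduct_comm]

/-- Every shape with an orthogonal frame occurs. -/
theorem exists_inv [Finite F] (hQ : StdPolar Q) {S : Matrix σ σ F} (hsym : Sᵀ = S) (hS : IsUnit S.det)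
    {U : Matrix nn σ F} (hU : QF Q U S) : ∃ x : OQ, x * x = 1 ∧ ((x : GL nn F) : Matrix nn nn F) = elt U S := by
  obtain ⟨hm, hsq⟩ := elt_mem hU.1 hsym
  obtain ⟨x, hx⟩ := exists_toSp hQ ⟨_, hm⟩ ((qf_iff hQ hU.1 S).mpr hU)
  exact ⟨x, toSp_injective hQ (by rw [map_mul, map_one, hx]; exact Subtype.ext hsq),
    congrArg (fun z : Sp => (z : Matrix nn nn F)) hx⟩

/-- The orbit-stabiliser count for the orthogonal centraliser. -/
theorem card_centralizer [Fintype F] (hQ : StdPolar Q) {U : Matrix nn σ F} {S : Matrix σ σ F}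
    (hS : IsUnit S.det) (hU : QF Q U S) (x : OQ) (hx : ((x : GL nn F) : Matrix nn nn F) = elt U S) :
    Nat.card (Subgroup.centralizer ({x} : Set OQ)) * Nat.card {W : Matrix nn σ F // QF Q W S} =
      Nat.card OQ * Nat.card {A : Matrix σ σ F // A * S * Aᵀ = S} := by
  classical
  letI act : MulAction OQ (Matrix nn σ F) :=
    { smul := fun g W => ((g : GL nn F) : Matrix nn nn F) * W
      one_smul := fun W => Matrix.one_mul W
      mul_smul := fun g h W => Matrix.mul_assoc _ _ W }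
  have hmul : ∀ (g : OQ) (W : Matrix nn σ F), QF Q W S → QF Q (((g : GL nn F) : Matrix nn nn F) * W) S :=
    fun g W hW => ⟨frame_mul (toSp hQ g) hW.1, fun w => by rw [← Matrix.mulVec_mulVec, quad_eq, hW.2]⟩
  have horbit : MulAction.orbit OQ U = {W | QF Q W S} := by
    ext W
    refine ⟨?_, fun hW => exists_map hQ hS hU hW⟩
    rintro ⟨g, rfl⟩
    exact hmul g U hU
  set C := Subgroup.centralizer ({x} : Set OQ) with hC
  have hCmem : ∀ g : OQ, g ∈ C ↔ elt (((g : GL nn F) : Matrix nn nn F) * U) S = elt U S := by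
    intro g
    rw [hC, Subgroup.mem_centralizer_singleton_iff, ← (toSp_injective hQ).eq_iff, map_mul, map_mul,
      Subtype.ext_iff, Submonoid.coe_mul, Submonoid.coe_mul, toSp_val hQ x, hx, ← elt_mul (toSp hQ g) U S,
      toSp_val]
    refine ⟨fun h => ?_, fun h => by rw [h]⟩
    have := congrArg (· * ((toSp hQ g⁻¹ : Sp) : Matrix nn nn F)) h
    simp only [Matrix.mul_assoc, ← toSp_val hQ g, ← Submonoid.coe_mul, ← map_mul, mul_inv_cancel, map_one,
      Submonoid.coe_one, Matrix.mul_one] at this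
    exact this
  have hstab : MulAction.stabilizer OQ U ≤ C := fun g hg => (hCmem g).mpr (by
    rw [show ((g : GL nn F) : Matrix nn nn F) * U = U from hg])
  have hxe : ∀ v, Q (elt U S *ᵥ v) = Q v := fun v => by rw [← hx]; exact quad_eq x v
  have horbC : MulAction.orbit C U = {W | Frame W ∧ elt W S = elt U S} := by
    ext W
    refine ⟨?_, fun ⟨hW, hWe⟩ => ?_⟩
    · rintro ⟨g, rfl⟩
      exact ⟨(hmul g.1 U hU).1, (hCmem g.1).mp g.2⟩
    · obtain ⟨g, hg⟩ := exists_map hQ hS hU ((qf_iff hQ hW S).mp (by rw [hWe]; exact hxe))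
      exact ⟨⟨g, (hCmem g).mpr (by rw [hg]; exact hWe)⟩, hg⟩
  have hstabC : MulAction.stabilizer C U = (MulAction.stabilizer OQ U).subgroupOf C := rfl
  have h1 := (MulAction.stabilizer OQ U).card_mul_index
  have h2 := (MulAction.stabilizer C U).card_mul_index
  rw [MulAction.index_stabilizer, horbit, ← Nat.card_coe_set_eq] at h1
  rw [MulAction.index_stabilizer, horbC, hstabC,
    Nat.card_congr (Subgroup.subgroupOfEquivOfLe hstab).toEquiv, ← Nat.card_coe_set_eq] at h2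
  rw [card_fibre hU.1 hS, ← h1, ← h2]
  simp only [Set.coe_setOf]
  ring

end Cfsg.Agent.Lib.Jordan.OrthInvol
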