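import Cfsg.Agent.Lib.Jordan.OrthInvolOmega
import Cfsg.Agent.S0824
import Mathlib.GroupTheory.SpecificGroups.Alternating.Centralizer

/-! Classes of involutions in the commutator subgroup of an orthogonal group in characteristic two. -/

set_option autoImplicit false
set_option linter.unusedSectionVars false

namespace Cfsg.Agent.Lib.Jordan.OrthInvol

open Matrix QuadraticMap SymmTwo SympInvol Cfsg.Agent.Lib.Classical.QuadOmega Cfsg.Agent.Lib.Classical.Quad
  Cfsg.Agent.Lib.Classical.QuadF2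

variable {F : Type*} [Field F] [CharP F 2] [Fintype F] {m : ℕ} {Q : QuadraticForm F (Fin m ⊕ Fin m → F)}

local notation "nn" => (Fin m ⊕ Fin m)
local notation "JJ" => Matrix.J (Fin m) F
set_option quotPrecheck false in
local notation "OQ" => Cfsg.isometryGroup F (DFunLike.coe Q)

/-- The Dickson invariant cuts out the commutator subgroup of every minus group. -/
theorem mem_omega_minus {k : ℕ} {a b : F} (hab : Aniso a b)
    {Q : QuadraticForm F (Fin (k + 1) ⊕ Fin (k + 1) → F)} (hQ : StdPolar Q)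
    (e : (Fin (k + 1) ⊕ Fin (k + 1) → F) ≃ₗ[F] ((Fin k ⊕ Fin k) ⊕ Fin 2 → F))
    (he : ∀ v, Cfsg.quadFormMinus k F a b (e v) = Q v)
    (g : Cfsg.isometryGroup F (Cfsg.quadFormMinus k F a b)) :
    g ∈ Cfsg.Omega F (Cfsg.quadFormMinus k F a b) ↔ dickO hQ (transEquiv e he g) = 1 := by
  classical
  by_cases hreg : Reg F (Fin (k + 1) ⊕ Fin (k + 1) → F)
  · exact mem_omega_iff_dickO hQ hreg e he g
  rw [Reg, not_or, not_le, not_not, Module.finrank_fintype_fun_eq_card, Fintype.card_sum, Fintype.card_fin] at hreg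
  obtain ⟨hq, hk⟩ := hreg
  obtain rfl : k = 1 := by omega
  have hF : Fintype.card F = 2 := by have := Fintype.one_lt_card (α := F); omega
  have h01 : ∀ x : F, x = 0 ∨ x = 1 := by
    intro x
    by_contra hc
    push Not at hc
    have : ({0, 1, x} : Finset F).card = 3 := by simp [hc.1.symm, hc.2.symm]
    have := Finset.card_le_univ ({0, 1, x} : Finset F)
    omega
  obtain ⟨rfl, rfl⟩ : a = 1 ∧ b = 1 := by
    have hb : b ≠ 0 := fun h => one_ne_zero (hab 0 1 (by rw [h]; ring)).2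
    refine ⟨(h01 a).resolve_left fun h => ?_, (h01 b).resolve_left hb⟩
    exact one_ne_zero (hab 1 1 (by rw [h, (h01 b).resolve_left hb]; linear_combination CharTwo.add_self_eq_zero (1 : F))).2
  set O := Cfsg.isometryGroup F (Cfsg.quadFormMinus 1 F 1 1)
  let d : O →* ℤˣ := (dickO hQ).comp (transEquiv e he).toMonoidHom
  obtain ⟨⟨φ⟩⟩ : Nonempty (Nonempty (O ≃* Equiv.Perm (Fin 5))) := ⟨Cfsg.Agent.S0824.result hF⟩
  have hΩ : (Cfsg.Omega F (Cfsg.quadFormMinus 1 F 1 1)).index = 2 := by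
    rw [← Subgroup.index_map_equiv _ φ]
    have : (commutator O).map (φ : O →* Equiv.Perm (Fin 5)) = commutator (Equiv.Perm (Fin 5)) := by
      rw [commutator_def, commutator_def, Subgroup.map_commutator,
        Subgroup.map_top_of_surjective _ φ.surjective]
    show ((commutator O).map (φ : O →* Equiv.Perm (Fin 5))).index = 2
    rw [this, alternatingGroup.commutator_perm_eq (by simp), alternatingGroup.index_eq_two]
  have hsurj : Function.Surjective d := by
    intro u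
    rcases Int.units_eq_one_or u with rfl | rfl
    · exact ⟨1, map_one d⟩
    · obtain ⟨w, hw⟩ := (nd_of_std hQ).exists_nonsing
      exact ⟨(transEquiv e he).symm ((toIso Q).symm (refl Q w)),
        by simp [d, dickO, dick_refl (nd_of_std hQ) hw]⟩
  have hker : d.ker.index = 2 := by
    rw [Subgroup.index_ker, MonoidHom.range_eq_top.mpr hsurj, Subgroup.card_top]; simp
  have hle : Cfsg.Omega F (Cfsg.quadFormMinus 1 F 1 1) ≤ d.ker := Abelianization.commutator_subset_ker d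
  have heq : Cfsg.Omega F (Cfsg.quadFormMinus 1 F 1 1) = d.ker := by
    refine Subgroup.eq_of_le_of_card_ge hle ?_
    have h1 := (Cfsg.Omega F (Cfsg.quadFormMinus 1 F 1 1)).card_mul_index
    have h2 := d.ker.card_mul_index
    rw [hΩ] at h1
    rw [hker] at h2
    exact le_of_eq (Nat.eq_of_mul_eq_mul_right two_pos (h2.trans h1.symm))
  rw [heq, MonoidHom.mem_ker]
  rfl

/-- The Dickson invariant of an element is the parity of its rank. -/
theorem dickO_eq_one_iff (hQ : StdPolar Q) (x : OQ) :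
    dickO hQ x = 1 ↔ Even (((x : GL nn F) : Matrix nn nn F) - 1).rank := by
  have hfr := finrank_fixS_add_rank (Q := Q) ⇑Q (LinearEquiv.refl F _) (fun _ => rfl) x
  change Module.finrank F (fixS (toIso Q x)) + _ = _ at hfr
  show dick (nd_of_std hQ) (toIso Q x) = 1 ↔ _
  rw [dick_eq, Module.finrank_fintype_fun_eq_card, ← hfr]
  set a := Module.finrank F (fixS (toIso Q x))
  set r := (((x : GL nn F) : Matrix nn nn F) - 1).rank
  rcases Nat.even_or_odd r with hr | hr
  · simp [hr, show a + r + a = r + 2 * a by ring, pow_add, hr.neg_one_pow, pow_mul]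
  · simp [Nat.not_even_iff_odd.2 hr, show a + r + a = r + 2 * a by ring, pow_add, hr.neg_one_pow, pow_mul]

/-- The invariant of an element: rank and whether the associated form alternates. -/
noncomputable def invQ (x : Cfsg.isometryGroup F ⇑Q) : ℕ × Bool :=
  ((((x : GL nn F) : Matrix nn nn F) - 1).rank,
    @decide (∀ v, v ⬝ᵥ JJ *ᵥ (((x : GL nn F) : Matrix nn nn F) *ᵥ v) = 0) (Classical.propDecidable _))

theorem invQ_snd (x : OQ) :
    (invQ x).2 = true ↔ ∀ v, v ⬝ᵥ JJ *ᵥ (((x : GL nn F) : Matrix nn nn F) *ᵥ v) = 0 :=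
  @decide_eq_true_iff _ (Classical.propDecidable _)

theorem invQ_conj (hQ : StdPolar Q) {x y : OQ} (h : IsConj x y) : invQ x = invQ y := by
  classical
  obtain ⟨c, hc⟩ := isConj_iff.1 h
  obtain ⟨h1, h2⟩ := inv_of_sp_conj (toSp hQ c) (a := ((x : GL nn F) : Matrix nn nn F))
    (b := ((y : GL nn F) : Matrix nn nn F))
    (congrArg (fun z : OQ => ((z : GL nn F) : Matrix nn nn F)) (mul_inv_eq_iff_eq_mul.1 hc))
  exact Prod.ext h1 (Bool.eq_iff_iff.mpr (by rw [invQ_snd, invQ_snd]; exact h2))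

theorem isConj_of_invQ (hQ : StdPolar Q) {x y : OQ} (hx : x * x = 1) (hy : y * y = 1) (h : invQ x = invQ y) :
    IsConj x y := by
  classical
  refine isConj_of_same hQ x y hx hy (congrArg Prod.fst h) ?_
  rw [← invQ_snd, ← invQ_snd, h]

/-- The invariants of the even involutions. -/
def evenInvs (m a : ℕ) : Finset (ℕ × Bool) :=
  (Finset.Icc 1 (m / 2)).image (fun r => (2 * r, false)) ∪ (Finset.Icc 1 (a / 2)).image (fun r => (2 * r, true))

theorem card_evenInvs (m a : ℕ) : (evenInvs m a).card = m / 2 + a / 2 := by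
  rw [evenInvs, Finset.card_union_of_disjoint, Finset.card_image_of_injective _
      (fun a b h => Nat.eq_of_mul_eq_mul_left two_pos (congrArg Prod.fst h)),
    Finset.card_image_of_injective _ (fun a b h => Nat.eq_of_mul_eq_mul_left two_pos (congrArg Prod.fst h))]
  · simp
  · rw [Finset.disjoint_left]
    intro x hx hy
    simp only [Finset.mem_image] at hx hy
    obtain ⟨a, -, rfl⟩ := hx
    obtain ⟨b, -, hb⟩ := hy
    exact Bool.noConfusion (congrArg Prod.snd hb)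

/-- Witt index and orthogonal families. -/
structure Families (Q : QuadraticForm F (nn → F)) (a : ℕ) : Prop where
  le : a ≤ m
  sing : ∀ W : Submodule F (nn → F), (∀ v ∈ W, Q v = 0) → Module.finrank F W ≤ a
  fam : ∀ {σ : Type} [Fintype σ] [DecidableEq σ] (c : σ → F),
      Fintype.card σ ≤ a ∨ (Fintype.card σ ≤ m ∧ ∃ i, c i ≠ 0) →
      ∃ p : σ → (nn → F), LinearIndependent F p ∧ (∀ i j, i ≠ j → polar Q (p i) (p j) = 0) ∧ ∀ i, Q (p i) = c i

theorem invQ_mem (hQ : StdPolar Q) {a : ℕ} (hfam : Families Q a) {x : OQ} (hx : x * x = 1) (hx1 : x ≠ 1)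
    (hd : dickO hQ x = 1) : invQ x ∈ evenInvs m a := by
  classical
  have hev := (dickO_eq_one_iff hQ x).1 hd
  have h0 : (((x : GL nn F) : Matrix nn nn F) - 1).rank ≠ 0 := by
    intro h0
    refine hx1 (Subtype.ext (Units.ext (sub_eq_zero.mp (show ((x : GL nn F) : Matrix nn nn F) - 1 = 0 from ?_))))
    have hb : LinearMap.range (((x : GL nn F) : Matrix nn nn F) - 1).mulVecLin = ⊥ :=
      Submodule.finrank_eq_zero.mp h0
    refine Matrix.ext_of_mulVec_single fun i => ?_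
    rw [Matrix.zero_mulVec]
    exact (Submodule.mem_bot F).mp
      (hb ▸ LinearMap.mem_range_self (((x : GL nn F) : Matrix nn nn F) - 1).mulVecLin (Pi.single i 1))
  obtain ⟨t, ht⟩ := hev
  obtain ⟨r, ⟨U, hU, e⟩ | ⟨U, hU, e⟩ | ⟨U, hU, e⟩⟩ := exists_shape hQ x hx
  · obtain ⟨hrk, halt⟩ := elt_facts hU.1 (SA_det (F := F) r)
    rw [← e] at hrk halt
    simp only [Fintype.card_sum, Fintype.card_fin] at hrk
    have hle : 2 * r ≤ a := by rw [← (sing_of_qf hU).1]; exact hfam.sing _ (sing_of_qf hU).2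
    exact Finset.mem_union_right _ (Finset.mem_image.mpr ⟨r, Finset.mem_Icc.mpr ⟨by omega, by omega⟩,
      Prod.ext (show 2 * r = _ by rw [invQ]; dsimp only; omega) ((invQ_snd x).mpr (halt.mpr (SA_alt r))).symm⟩)
  all_goals
    have hle := card_le_of_frame hU.1
  · obtain ⟨hrk, halt⟩ := elt_facts hU.1 (SO_det (F := F) r)
    rw [← e] at hrk halt
    simp only [Fintype.card_sum, Fintype.card_fin, Fintype.card_unit] at hrk hle
    omega
  · obtain ⟨hrk, halt⟩ := elt_facts hU.1 (SE_det (F := F) r)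
    rw [← e] at hrk halt
    simp only [Fintype.card_sum, Fintype.card_fin, Fintype.card_unit] at hrk hle
    exact Finset.mem_union_left _ (Finset.mem_image.mpr ⟨r + 1, Finset.mem_Icc.mpr ⟨by omega, by omega⟩,
      Prod.ext (show 2 * (r + 1) = _ by rw [invQ]; dsimp only; omega)
        (Bool.eq_false_iff.mpr fun h => SE_not_alt r (halt.mp ((invQ_snd x).mp h))).symm⟩)

theorem exists_of_evenInvs (hQ : StdPolar Q) {a : ℕ} (hfam : Families Q a) {p : ℕ × Bool}
    (hp : p ∈ evenInvs m a) : ∃ x : OQ, x * x = 1 ∧ x ≠ 1 ∧ dickO hQ x = 1 ∧ invQ x = p := by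
  classical
  have ha := hfam.le
  have mkel : ∀ {σ : Type} [Fintype σ] [DecidableEq σ] (S0 : Matrix σ σ F), S0ᵀ = S0 → IsUnit S0.det →
      (Fintype.card σ ≤ a ∨ (Fintype.card σ ≤ m ∧ ¬ ∀ u, u ⬝ᵥ S0 *ᵥ u = 0)) → Even (Fintype.card σ) →
      1 ≤ Fintype.card σ → ∃ g : OQ, g * g = 1 ∧ g ≠ 1 ∧ dickO hQ g = 1 ∧
        invQ g = (Fintype.card σ, decide (∀ u, u ⬝ᵥ S0 *ᵥ u = 0)) := by
    intro σ _ _ S0 hsym hdet h2 hev h1
    have hsi : (S0⁻¹)ᵀ = S0⁻¹ := by rw [Matrix.transpose_nonsing_inv, hsym]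
    obtain ⟨p, hp1, hp2, hp3⟩ := hfam.fam (fun i => S0⁻¹ i i) (h2.imp_right fun ⟨h2, hna⟩ => ⟨h2, by
      by_contra hc
      push Not at hc
      refine hna fun u => ?_
      have := quad_diag hsi (S0 *ᵥ u)
      rw [Matrix.mulVec_mulVec, Matrix.nonsing_inv_mul _ hdet, Matrix.one_mulVec, dotProduct_comm] at this
      rw [this]
      simp [hc]⟩)
    have hU := qf_of_family hQ hsym hdet p hp1 hp2 hp3
    obtain ⟨g, hg, he⟩ := exists_inv hQ hsym hdet hU
    obtain ⟨hrk, halt⟩ := elt_facts hU.1 hdet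
    rw [← he] at hrk halt
    refine ⟨g, hg, fun e => ?_, (dickO_eq_one_iff hQ g).2 (hrk ▸ hev), Prod.ext hrk (Bool.eq_iff_iff.mpr (by rw [invQ_snd, decide_eq_true_iff]; exact halt))⟩
    rw [e] at hrk
    simp at hrk
    omega
  simp only [evenInvs, Finset.mem_union, Finset.mem_image, Finset.mem_Icc] at hp
  rcases hp with ⟨r, ⟨h1, h2⟩, rfl⟩ | ⟨r, ⟨h1, h2⟩, rfl⟩
  · obtain ⟨r, rfl⟩ : ∃ r', r = r' + 1 := ⟨r - 1, by omega⟩
    obtain ⟨g, hg, hg1, hd, e⟩ := mkel (SE F r) (SE_symm r) (SE_det r) (Or.inr ⟨by simp; omega, SE_not_alt r⟩)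
      ⟨r + 1, by simp; omega⟩ (by simp; omega)
    exact ⟨g, hg, hg1, hd, e.trans (Prod.ext (by simp; omega) (decide_eq_false (SE_not_alt r)))⟩
  · obtain ⟨g, hg, hg1, hd, e⟩ := mkel (SA F r) (SA_symm r) (SA_det r) (Or.inl (by simp; omega))
      ⟨r, by simp⟩ (by simp; omega)
    exact ⟨g, hg, hg1, hd, e.trans (Prod.ext (by simp; omega) (decide_eq_true (SA_alt r)))⟩

/-- Counting classes of the commutator subgroup by an invariant. -/
theorem card_omega_classes {κ : Type} [Fintype κ] [DecidableEq κ] {f : (κ → F) → F}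
    (hQ : StdPolar Q) (e : (nn → F) ≃ₗ[F] (κ → F)) (he : ∀ v, f (e v) = Q v)
    (hmem : ∀ g : Cfsg.isometryGroup F f, g ∈ Cfsg.Omega F f ↔ dickO hQ (transEquiv e he g) = 1)
    {τ : Type} (T : Finset τ) (inv : OQ → τ)
    (hconj : ∀ c x : OQ, x * x = 1 → dickO hQ x = 1 → dickO hQ c = 1 → inv (c * x * c⁻¹) = inv x)
    (hinj : ∀ x y : OQ, x * x = 1 → y * y = 1 → dickO hQ x = 1 → dickO hQ y = 1 → x ≠ 1 → y ≠ 1 → inv x = inv y →
      ∃ c : OQ, dickO hQ c = 1 ∧ c * x * c⁻¹ = y)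
    (hin : ∀ x : OQ, x * x = 1 → x ≠ 1 → dickO hQ x = 1 → inv x ∈ T)
    (hsurj : ∀ p ∈ T, ∃ x : OQ, x * x = 1 ∧ x ≠ 1 ∧ dickO hQ x = 1 ∧ inv x = p) :
    Nat.card {C : ConjClasses ↥(Cfsg.Omega F f) // ∃ g : ↥(Cfsg.Omega F f), ConjClasses.mk g = C ∧ orderOf g = 2} =
      T.card := by
  classical
  set Φ := transEquiv e he with hΦ
  let ψ : ↥(Cfsg.Omega F f) →* Cfsg.isometryGroup F ⇑Q := Φ.toMonoidHom.comp (Cfsg.Omega F f).subtype
  have hψi : Function.Injective ψ := Φ.injective.comp Subtype.val_injective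
  have hψd : ∀ g, dickO hQ (ψ g) = 1 := fun g => (hmem g.1).1 g.2
  have hlift : ∀ c : OQ, dickO hQ c = 1 → ∃ c' : ↥(Cfsg.Omega F f), ψ c' = c := fun c hc =>
    ⟨⟨Φ.symm c, (hmem _).2 (by rw [MulEquiv.apply_symm_apply]; exact hc)⟩, Φ.apply_symm_apply c⟩
  have h2 : ∀ g : ↥(Cfsg.Omega F f), orderOf g = 2 → ψ g * ψ g = 1 ∧ ψ g ≠ 1 := by
    intro g hg
    refine ⟨?_, fun h => ?_⟩
    · have h := pow_orderOf_eq_one g
      rw [hg, _root_.sq] at h
      rw [← map_mul, h, map_one]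
    · rw [hψi (h.trans (map_one ψ).symm), orderOf_one] at hg
      omega
  rw [← Nat.card_eq_finsetCard T]
  let rep : {C : ConjClasses ↥(Cfsg.Omega F f) //
      ∃ g : ↥(Cfsg.Omega F f), ConjClasses.mk g = C ∧ orderOf g = 2} → ↥(Cfsg.Omega F f) := fun C => C.2.choose
  have hrep : ∀ C, ConjClasses.mk (rep C) = C.1 ∧ orderOf (rep C) = 2 := fun C => C.2.choose_spec
  refine Nat.card_eq_of_bijective (fun C => (⟨inv (ψ (rep C)),
    hin _ (h2 _ (hrep C).2).1 (h2 _ (hrep C).2).2 (hψd _)⟩ : T)) ⟨?_, ?_⟩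
  · intro C C' h
    obtain ⟨c, hc, hcc⟩ := hinj _ _ (h2 _ (hrep C).2).1 (h2 _ (hrep C').2).1 (hψd _) (hψd _)
      (h2 _ (hrep C).2).2 (h2 _ (hrep C').2).2 (congrArg Subtype.val h)
    obtain ⟨c', rfl⟩ := hlift c hc
    refine Subtype.ext ?_
    rw [← (hrep C).1, ← (hrep C').1, ConjClasses.mk_eq_mk_iff_isConj]
    exact isConj_iff.2 ⟨c', hψi (by rw [map_mul, map_mul, map_inv, hcc])⟩
  · rintro ⟨p, hp⟩
    obtain ⟨x, hx, hx1, hxd, rfl⟩ := hsurj p hp
    obtain ⟨g, rfl⟩ := hlift x hxd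
    have hg2 : orderOf g = 2 := orderOf_eq_prime (hψi (by rw [_root_.sq, map_mul, hx, map_one]))
      fun h => hx1 (by rw [h, map_one])
    refine ⟨⟨ConjClasses.mk g, g, rfl, hg2⟩, Subtype.ext ?_⟩
    set C : {C : ConjClasses ↥(Cfsg.Omega F f) // ∃ g : ↥(Cfsg.Omega F f), ConjClasses.mk g = C ∧ orderOf g = 2} :=
      ⟨ConjClasses.mk g, g, rfl, hg2⟩
    obtain ⟨c, hc⟩ := isConj_iff.1 (ConjClasses.mk_eq_mk_iff_isConj.1 (hrep C).1)
    show inv (ψ (rep C)) = inv (ψ g)
    rw [← hconj (ψ c) _ (h2 _ (hrep C).2).1 (hψd _) (hψd c), ← map_inv, ← map_mul, ← map_mul, hc]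

/-- The subspace of first coordinates as an image. -/
theorem parity_conj (hreg : Reg F (nn → F)) (hm : Even m) (g : Cfsg.isometryGroup F ⇑(plusQ m F))
    (X Y : Matrix nn nn F) (hX : (X - 1).rank = m)
    (hXs : ∀ v ∈ LinearMap.range (X - 1).mulVecLin, plusQ m F v = 0)
    (hY : (Y - 1).rank = m) (hYs : ∀ v ∈ LinearMap.range (Y - 1).mulVecLin, plusQ m F v = 0)
    (hg : ((g : GL nn F) : Matrix nn nn F) * X = Y * ((g : GL nn F) : Matrix nn nn F))
    (W : Submodule F (nn → F)) (hW : MaxTS (plusQ m F) W)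
    (h : isoG (plusQ m F)) (hh : imgS h W = LinearMap.range (X - 1).mulVecLin) :
    dickO (plus_std m) g = 1 ↔
      (Even (Module.finrank F ↥(W ⊓ LinearMap.range (X - 1).mulVecLin)) ↔
        Even (Module.finrank F ↥(W ⊓ LinearMap.range (Y - 1).mulVecLin))) := by
  have h1 := dick_eq_parS hreg h hW
  rw [hh] at h1
  have hUX : MaxTS (plusQ m F) (LinearMap.range (X - 1).mulVecLin) :=
    (maxTS_iff m _).2 ⟨hX, fun w hw => (plusQ_apply m w).symm.trans (hXs w hw)⟩
  have hi : imgS (toIso (plusQ m F) g) (LinearMap.range (X - 1).mulVecLin) = LinearMap.range (Y - 1).mulVecLin := by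
    set G := ((g : GL nn F) : Matrix nn nn F) with hG
    have hc : ∀ v, G *ᵥ ((X - 1) *ᵥ v) = (Y - 1) *ᵥ (G *ᵥ v) := fun v => by
      rw [Matrix.mulVec_mulVec, Matrix.mulVec_mulVec, mul_sub, sub_mul, mul_one, one_mul, hg]
    ext y
    rw [mem_imgS]
    constructor
    · rintro ⟨_, ⟨v, rfl⟩, rfl⟩
      exact ⟨G *ᵥ v, by rw [toIso_apply, Matrix.mulVecLin_apply, Matrix.mulVecLin_apply, ← hG, hc]⟩
    · rintro ⟨w, rfl⟩
      obtain ⟨v, rfl⟩ := Matrix.mulVec_surjective_iff_isUnit.mpr ((g : GL nn F)).isUnit w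
      exact ⟨_, ⟨v, rfl⟩, by rw [toIso_apply, Matrix.mulVecLin_apply, Matrix.mulVecLin_apply, ← hG, hc]⟩
  have h2 := dick_eq_parS hreg (toIso (plusQ m F) g * h) hW
  have hcomp : imgS (toIso (plusQ m F) g * h) W = LinearMap.range (Y - 1).mulVecLin := by
    rw [← hi, ← hh]
    ext y
    simp only [mem_imgS, Subgroup.coe_mul, LinearEquiv.mul_apply]
    constructor
    · rintro ⟨w, hw, rfl⟩; exact ⟨_, ⟨w, hw, rfl⟩, rfl⟩
    · rintro ⟨_, ⟨w, hw, rfl⟩, rfl⟩; exact ⟨w, hw, rfl⟩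
  rw [hcomp, map_mul, h1] at h2
  change dickO (plus_std m) g * _ = _ at h2
  rw [parS, parS, hm.neg_one_pow, one_mul, one_mul] at h2
  rcases Nat.even_or_odd (Module.finrank F ↥(W ⊓ LinearMap.range (X - 1).mulVecLin)) with a | a <;>
    rcases Nat.even_or_odd (Module.finrank F ↥(W ⊓ LinearMap.range (Y - 1).mulVecLin)) with b | b <;>
    rw [a.neg_one_pow, b.neg_one_pow] at h2 <;>
    simp only [mul_one, mul_neg] at h2 <;>
    first
      | (simp [a, b, h2]; done)
      | (simp [a, b, Nat.not_even_iff_odd.2, h2]; done)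
      | (rw [neg_eq_iff_eq_neg] at h2; simp [a, b, Nat.not_even_iff_odd.2, h2])

end Cfsg.Agent.Lib.Jordan.OrthInvol
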