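import Cfsg.Agent.Lib.Jordan.OrthInvolClasses

/-! The plus and minus forms: Witt index, families, and conjugacy inside the commutator subgroup. -/

set_option autoImplicit false
set_option linter.unusedSectionVars false

namespace Cfsg.Agent.Lib.Jordan.OrthInvol

open Matrix QuadraticMap SymmTwo SympInvol Cfsg.Agent.Lib.Classical.QuadOmega Cfsg.Agent.Lib.Classical.Quad
  Cfsg.Agent.Lib.Classical.QuadF2

variable {F : Type*} [Field F] [CharP F 2] [Fintype F]

theorem families_plus (m : ℕ) : Families (plusQ m F) m where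
  le := le_rfl
  sing W hW := finrank_le_of_plus m W fun u hu => (plusQ_apply m u).symm.trans (hW u hu)
  fam {σ} _ _ c h := by
    obtain ⟨f⟩ : Nonempty (σ ↪ Fin m) := Function.Embedding.nonempty_of_card_le (by
      rw [Fintype.card_fin]; rcases h with h | ⟨h, -⟩ <;> exact h)
    exact exists_family_plus f c

theorem families_minus {k : ℕ} {a b : F} (hab : Aniso a b)
    {Q : QuadraticForm F (Fin (k + 1) ⊕ Fin (k + 1) → F)}
    (e : (Fin (k + 1) ⊕ Fin (k + 1) → F) ≃ₗ[F] ((Fin k ⊕ Fin k) ⊕ Fin 2 → F))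
    (he : ∀ v, Cfsg.quadFormMinus k F a b (e v) = Q v) : Families Q k where
  le := Nat.le_succ k
  sing W hW := by
    rw [← LinearEquiv.finrank_map_eq e W]
    refine finrank_le_of_minus (F := F) (a := a) (b := b) hab k _ ?_
    rintro _ ⟨w, hw, rfl⟩
    exact (he w).trans (hW w hw)
  fam {σ} _ _ c h := by
    obtain ⟨p, h1, h2, h3⟩ := exists_family_minus (k := k) (a := a) (b := b) hab c h
    refine ⟨fun i => e.symm (p i), h1.map' e.symm.toLinearMap e.symm.ker, fun i j hij => ?_, fun i => ?_⟩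
    · have hh := h2 i j hij
      rw [QuadraticMap.polar, minusQ_apply, minusQ_apply, minusQ_apply] at hh
      simp only [QuadraticMap.polar, ← map_add, ← he, e.apply_symm_apply]
      exact hh
    · rw [← he, e.apply_symm_apply, ← minusQ_apply]; exact h3 i

theorem plus_he (m : ℕ) : ∀ v, Cfsg.quadFormPlus m F ((LinearEquiv.refl F (Fin m ⊕ Fin m → F)) v) = plusQ m F v :=
  fun v => (plusQ_apply m v).symm

/-- An element outside the commutator subgroup. -/
theorem exists_odd {m : ℕ} {Q : QuadraticForm F (Fin m ⊕ Fin m → F)} (hQ : StdPolar Q) (hm : 1 ≤ m) :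
    ∃ r : Cfsg.isometryGroup F ⇑Q, dickO hQ r = -1 := by
  haveI : Nonempty (Fin m) := ⟨⟨0, hm⟩⟩
  obtain ⟨w, hw⟩ := (nd_of_std hQ).exists_nonsing
  exact ⟨(toIso Q).symm (refl Q w), by simp [dickO, dick_refl (nd_of_std hQ) hw]⟩

/-- A maximal totally singular image is the image of the first coordinates. -/
theorem exists_from_xPlane {m : ℕ} (W : Submodule F (Fin m ⊕ Fin m → F)) (hW : Module.finrank F W = m)
    (hWs : ∀ v ∈ W, plusQ m F v = 0) : ∃ h : isoG (plusQ m F), imgS h (xPlane m F) = W := by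
  classical
  obtain ⟨h1, h2⟩ := (maxTS_iff m _).1 (maxTS_xPlane (F := F) m)
  obtain ⟨φ⟩ : Nonempty (xPlane m F ≃ₗ[F] W) :=
    FiniteDimensional.nonempty_linearEquiv_of_finrank_eq (h1.trans hW.symm)
  obtain ⟨γ, hγ, hγx⟩ := Cfsg.Agent.Lib.Forms.witt_extension (Q := plusQ m F) (polarBilin_nondeg (plus_std m))
    _ (xPlane m F) rfl (W.subtype.comp φ.toLinearMap) (W.injective_subtype.comp φ.injective) (fun x => by
      simp only [LinearMap.coe_comp, Function.comp_apply, LinearEquiv.coe_coe, Submodule.coe_subtype]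
      rw [hWs _ (φ x).2, plusQ_apply, h2 _ x.2])
  refine ⟨⟨γ, hγ⟩, ?_⟩
  ext v
  rw [mem_imgS]
  constructor
  · rintro ⟨x, hx, rfl⟩
    show γ x ∈ W
    rw [show γ x = _ from hγx ⟨x, hx⟩]
    exact (φ ⟨x, hx⟩).2
  · intro hv
    refine ⟨_, (φ.symm ⟨v, hv⟩).2, ?_⟩
    show γ _ = v
    rw [hγx]
    simp

end Cfsg.Agent.Lib.Jordan.OrthInvol
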