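import Cfsg.Agent.Lib.Jordan.OrthInvol
import Cfsg.Agent.Lib.Classical.QuadF2
import Cfsg.Agent.Lib.Classical.QuadOmega.SingularPlus

/-! The plus and minus forms as forms with standard polar, and the classes of involutions. -/

set_option autoImplicit false
set_option linter.unusedSectionVars false

namespace Cfsg.Agent.Lib.Jordan.OrthInvol

open Matrix QuadraticMap SymmTwo SympInvol Cfsg.Agent.Lib.Classical.QuadOmega Cfsg.Agent.Lib.Classical.Quad
  Cfsg.Agent.Lib.Classical.QuadF2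

variable {F : Type*} [Field F] [CharP F 2]

theorem plusQ_coe [Fintype F] (m : ℕ) : Cfsg.quadFormPlus m F = ⇑(plusQ m F) := funext fun v => (plusQ_apply m v).symm

theorem plus_std [Fintype F] (m : ℕ) : StdPolar (plusQ m F) := fun u v => by
  rw [polar_plusQ]
  simp [Matrix.J, Matrix.fromBlocks_mulVec, Matrix.neg_mulVec, dotProduct, Fintype.sum_sum_type,
    Matrix.one_mulVec, CharTwo.neg_eq, mul_comm]

section Transport

variable {κ : Type} [Fintype κ] [DecidableEq κ] {m : ℕ}

local notation "nn" => (Fin m ⊕ Fin m)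

/-- A form on other coordinates, seen on the standard ones. -/
noncomputable def transEquiv {f : (κ → F) → F} {Q : QuadraticForm F (nn → F)}
    (e : (nn → F) ≃ₗ[F] (κ → F)) (he : ∀ v, f (e v) = Q v) :
    Cfsg.isometryGroup F f ≃* Cfsg.isometryGroup F ⇑Q :=
  (isoEquiv f e he).trans (isoEquiv (Q := Q) ⇑Q (LinearEquiv.refl F _) fun _ => rfl).symm

theorem transEquiv_mulVec {f : (κ → F) → F} {Q : QuadraticForm F (nn → F)}
    (e : (nn → F) ≃ₗ[F] (κ → F)) (he : ∀ v, f (e v) = Q v) (g : Cfsg.isometryGroup F f) (v : nn → F) :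
    e (((transEquiv e he g : Cfsg.isometryGroup F ⇑Q) : GL nn F).1 *ᵥ v) =
      ((g : GL κ F) : Matrix κ κ F) *ᵥ e v := by
  have h := isoEquiv_apply (Q := Q) ⇑Q (LinearEquiv.refl F _) (fun _ => rfl) (transEquiv e he g) v
  rw [transEquiv, MulEquiv.trans_apply, MulEquiv.apply_symm_apply, isoEquiv_apply] at h
  rw [e.symm_apply_eq] at h
  exact h.symm

theorem transEquiv_rank {f : (κ → F) → F} {Q : QuadraticForm F (nn → F)}
    (e : (nn → F) ≃ₗ[F] (κ → F)) (he : ∀ v, f (e v) = Q v) (g : Cfsg.isometryGroup F f) :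
    (((transEquiv e he g : Cfsg.isometryGroup F ⇑Q) : GL nn F).1 - 1).rank =
      (((g : GL κ F) : Matrix κ κ F) - 1).rank := by
  set A := ((transEquiv e he g : Cfsg.isometryGroup F ⇑Q) : GL nn F).1
  have hc : ∀ v, e ((A - 1) *ᵥ v) = (((g : GL κ F) : Matrix κ κ F) - 1) *ᵥ e v := fun v => by
    rw [Matrix.sub_mulVec, Matrix.sub_mulVec, Matrix.one_mulVec, Matrix.one_mulVec, map_sub, transEquiv_mulVec]
  rw [Matrix.rank, Matrix.rank, ← LinearEquiv.finrank_map_eq e (LinearMap.range (A - 1).mulVecLin)]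
  suffices h : (LinearMap.range (A - 1).mulVecLin).map (e : (nn → F) →ₗ[F] (κ → F)) =
      LinearMap.range (((g : GL κ F) : Matrix κ κ F) - 1).mulVecLin by rw [h]
  ext y
  constructor
  · rintro ⟨_, ⟨v, rfl⟩, rfl⟩
    exact ⟨e v, (hc v).symm⟩
  · rintro ⟨w, rfl⟩
    exact ⟨_, ⟨e.symm w, rfl⟩, by
      show e ((A - 1) *ᵥ e.symm w) = _
      rw [hc, e.apply_symm_apply]; rfl⟩

/-- The minus form on standard coordinates. -/
theorem exists_minus_model [Fintype F] {k : ℕ} {a b : F} (hab : Aniso a b) :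
    ∃ (e : (Fin (k + 1) ⊕ Fin (k + 1) → F) ≃ₗ[F] ((Fin k ⊕ Fin k) ⊕ Fin 2 → F))
      (Q : QuadraticForm F (Fin (k + 1) ⊕ Fin (k + 1) → F)),
      StdPolar Q ∧ ∀ v, Cfsg.quadFormMinus k F a b (e v) = Q v := by
  classical
  set B := polarBilin (minusQ k a b) with hB
  have hA : B.IsAlt := fun x => by
    rw [hB, polarBilin_apply_apply, polar_self, two_nsmul, CharTwo.add_self_eq_zero]
  have hsep : B.SeparatingLeft := fun x hx => nd_minusQ hab k x fun y => hx y
  obtain ⟨e, he⟩ := Cfsg.Agent.Lib.Forms.exists_alt_isometry (Cfsg.Agent.Lib.Forms.stdB (k + 1) F)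
    (Cfsg.Agent.Lib.Forms.stdB_isAlt _) (Cfsg.Agent.Lib.Forms.stdB_nondegenerate _).1 B hA hsep
    (by simp; omega)
  refine ⟨e, (minusQ k a b).comp e.toLinearMap, fun u v => ?_, fun v => (minusQ_apply k a b _).symm⟩
  have := he u v
  rw [hB, polarBilin_apply_apply, Cfsg.Agent.Lib.Forms.stdB, Matrix.toBilin'_apply'] at this
  rw [← this]
  simp [polar, QuadraticMap.comp_apply]

end Transport

section Count

variable {m : ℕ}

local notation "nn" => (Fin m ⊕ Fin m)

/-- The frame of an alternating shape spans a totally singular subspace. -/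
theorem sing_of_qf {Q : QuadraticForm F (nn → F)} {r : ℕ} {U : Matrix nn (Fin r ⊕ Fin r) F}
    (h : QF Q U (SA F r)) :
    Module.finrank F (LinearMap.range U.mulVecLin) = 2 * r ∧ ∀ v ∈ LinearMap.range U.mulVecLin, Q v = 0 := by
  obtain ⟨⟨-, V, hV⟩, hq⟩ := h
  refine ⟨?_, ?_⟩
  · rw [LinearMap.finrank_range_of_inj (injective_of_leftInv hV)]
    simp; omega
  · rintro _ ⟨y, rfl⟩
    obtain ⟨w, rfl⟩ := Matrix.mulVec_surjective_iff_isUnit.mpr
      ((Matrix.isUnit_iff_isUnit_det _).mpr (SA_det (F := F) r)) y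
    rw [Matrix.mulVecLin_apply, hq, SA_alt]

/-- Classes of involutions from the existence of orthogonal families and the Witt index `a`. -/
theorem card_classes [Fintype F] {Q : QuadraticForm F (nn → F)} (hQ : StdPolar Q) {a : ℕ} (ha : a ≤ m)
    (hsing : ∀ W : Submodule F (nn → F), (∀ v ∈ W, Q v = 0) → Module.finrank F W ≤ a)
    (hfam : ∀ {σ : Type} [Fintype σ] [DecidableEq σ] (c : σ → F),
      Fintype.card σ ≤ a ∨ (Fintype.card σ ≤ m ∧ ∃ i, c i ≠ 0) →
      ∃ p : σ → (nn → F), LinearIndependent F p ∧ (∀ i j, i ≠ j → polar Q (p i) (p j) = 0) ∧ ∀ i, Q (p i) = c i) :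
    Nat.card {C : ConjClasses ↥(Cfsg.isometryGroup F ⇑Q) //
      ∃ g : ↥(Cfsg.isometryGroup F ⇑Q), ConjClasses.mk g = C ∧ orderOf g = 2} = m + a / 2 := by
  classical
  set J := Matrix.J (Fin m) F with hJ
  let val : ↥(Cfsg.isometryGroup F ⇑Q) → Matrix nn nn F := fun g => ((g : GL nn F) : Matrix nn nn F)
  let inv : ↥(Cfsg.isometryGroup F ⇑Q) → ℕ × Bool := fun g =>
    ((val g - 1).rank, decide (∀ v, dotProduct v (J *ᵥ ((val g) *ᵥ v)) = 0))
  have hinv : ∀ g h, IsConj g h → inv g = inv h := by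
    intro g h hgh
    obtain ⟨c, hc⟩ := isConj_iff.1 hgh
    have e : val c * val g = val h * val c :=
      congrArg (fun z : ↥(Cfsg.isometryGroup F ⇑Q) => val z) (mul_inv_eq_iff_eq_mul.1 hc)
    obtain ⟨h1, h2⟩ := inv_of_sp_conj (toSp hQ c) (a := val g) (b := val h) e
    exact Prod.ext h1 (decide_eq_decide.mpr h2)
  let f : ConjClasses ↥(Cfsg.isometryGroup F ⇑Q) → ℕ × Bool := Quotient.lift inv hinv
  let S : Finset (ℕ × Bool) := (Finset.Icc 1 m).image (fun s => (s, false)) ∪
    (Finset.Icc 1 (a / 2)).image (fun r => (2 * r, true))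
  have hS : S.card = m + a / 2 := by
    rw [Finset.card_union_of_disjoint, Finset.card_image_of_injective _ (fun a b h => congrArg Prod.fst h),
      Finset.card_image_of_injective _ (fun a b h => Nat.eq_of_mul_eq_mul_left two_pos (congrArg Prod.fst h))]
    · simp
    · rw [Finset.disjoint_left]
      intro x hx hy
      simp only [Finset.mem_image] at hx hy
      obtain ⟨a, -, rfl⟩ := hx
      obtain ⟨b, -, hb⟩ := hy
      exact Bool.noConfusion (congrArg Prod.snd hb)
  have hord : ∀ g : ↥(Cfsg.isometryGroup F ⇑Q), orderOf g = 2 ↔ g * g = 1 ∧ (val g - 1).rank ≠ 0 := by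
    intro g
    constructor
    · intro hg
      refine ⟨by rw [← _root_.sq, ← hg, pow_orderOf_eq_one], fun h0 => ?_⟩
      have hb : LinearMap.range (val g - 1).mulVecLin = ⊥ := Submodule.finrank_eq_zero.mp h0
      have hv : ∀ v, (val g - 1) *ᵥ v = 0 := fun v =>
        (Submodule.mem_bot F).mp (hb ▸ LinearMap.mem_range_self (val g - 1).mulVecLin v)
      have : g = 1 := Subtype.ext (Units.ext (sub_eq_zero.mp (show val g - 1 = 0 from Matrix.ext fun i j => by
        simpa using congrFun (hv (Pi.single j 1)) i)))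
      rw [this, orderOf_one] at hg
      omega
    · rintro ⟨h, h0⟩
      refine orderOf_eq_prime (by rw [_root_.sq]; exact h) fun h1 => h0 ?_
      rw [show val g = 1 from congrArg (fun z : ↥(Cfsg.isometryGroup F ⇑Q) => val z) h1, sub_self,
        Matrix.rank_zero]
  rw [← hS, ← Nat.card_eq_finsetCard]
  have hmemS : ∀ g, orderOf g = 2 → inv g ∈ S := by
    intro g hg
    obtain ⟨h1, h0⟩ := (hord g).1 hg
    obtain ⟨r, ⟨U, hU, e⟩ | ⟨U, hU, e⟩ | ⟨U, hU, e⟩⟩ := exists_shape hQ g h1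
    · obtain ⟨hrk, halt⟩ := elt_facts hU.1 (SA_det (F := F) r)
      rw [← e] at hrk halt
      simp only [Fintype.card_sum, Fintype.card_fin] at hrk
      have hrk' : (val g - 1).rank = r + r := hrk
      have hr : 1 ≤ r := by
        by_contra hc
        exact h0 (hrk.trans (by omega))
      have hle : 2 * r ≤ a := by rw [← (sing_of_qf hU).1]; exact hsing _ (sing_of_qf hU).2
      refine Finset.mem_union_right _ (Finset.mem_image.mpr ⟨r, Finset.mem_Icc.mpr ⟨hr, by omega⟩,
        Prod.ext (show 2 * r = (val g - 1).rank by omega) (decide_eq_true (halt.mpr (SA_alt r))).symm⟩)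
    · obtain ⟨hrk, halt⟩ := elt_facts hU.1 (SO_det (F := F) r)
      rw [← e] at hrk halt
      refine Finset.mem_union_left _ (Finset.mem_image.mpr ⟨_, Finset.mem_Icc.mpr ⟨Fintype.card_pos,
        card_le_of_frame hU.1⟩, Prod.ext hrk.symm (decide_eq_false fun h => SO_not_alt r (halt.mp h)).symm⟩)
    · obtain ⟨hrk, halt⟩ := elt_facts hU.1 (SE_det (F := F) r)
      rw [← e] at hrk halt
      refine Finset.mem_union_left _ (Finset.mem_image.mpr ⟨_, Finset.mem_Icc.mpr ⟨Fintype.card_pos,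
        card_le_of_frame hU.1⟩, Prod.ext hrk.symm (decide_eq_false fun h => SE_not_alt r (halt.mp h)).symm⟩)
  refine Nat.card_eq_of_bijective (fun C => (⟨f C.1, by
    obtain ⟨g, hg, ho⟩ := C.2
    rw [← hg]
    exact hmemS g ho⟩ : S)) ⟨?_, ?_⟩
  · rintro ⟨C, g, hg, ho⟩ ⟨C', g', hg', ho'⟩ h
    subst hg hg'
    have h' : inv g = inv g' := congrArg Subtype.val h
    refine Subtype.ext (ConjClasses.mk_eq_mk_iff_isConj.mpr (isConj_of_same hQ g g'
      ((hord g).1 ho).1 ((hord g').1 ho').1 (congrArg Prod.fst h') ?_))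
    exact decide_eq_decide.mp (congrArg Prod.snd h')
  · rintro ⟨⟨s, b⟩, hx⟩
    have mkel : ∀ {σ : Type} [Fintype σ] [DecidableEq σ] (S0 : Matrix σ σ F), S0ᵀ = S0 → IsUnit S0.det →
        1 ≤ Fintype.card σ →
        (Fintype.card σ ≤ a ∨ (Fintype.card σ ≤ m ∧ ¬ ∀ u, u ⬝ᵥ S0 *ᵥ u = 0)) → ∃ g, orderOf g = 2 ∧
          inv g = (Fintype.card σ, decide (∀ u, u ⬝ᵥ S0 *ᵥ u = 0)) := by
      intro σ _ _ S0 hsym hdet h1 h2
      have hsi : (S0⁻¹)ᵀ = S0⁻¹ := by rw [Matrix.transpose_nonsing_inv, hsym]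
      obtain ⟨p, hp1, hp2, hp3⟩ := hfam (fun i => S0⁻¹ i i) (h2.imp_right fun ⟨h2, hna⟩ => ⟨h2, by
        by_contra hc
        push Not at hc
        refine hna fun u => ?_
        have := quad_diag hsi (S0 *ᵥ u)
        rw [Matrix.mulVec_mulVec, Matrix.nonsing_inv_mul _ hdet, Matrix.one_mulVec, dotProduct_comm] at this
        rw [this]
        simp [hc]⟩)
      have hU := qf_of_family hQ hsym hdet p hp1 hp2 hp3
      obtain ⟨g, hg, he⟩ := exists_inv hQ hsym hdet hU
      obtain ⟨hrk, halt⟩ := elt_facts hU.1 hdet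
      rw [← he] at hrk halt
      refine ⟨g, (hord _).2 ⟨hg, ?_⟩, Prod.ext hrk (decide_eq_decide.mpr halt)⟩
      show (val g - 1).rank ≠ 0
      have : (val g - 1).rank = Fintype.card σ := hrk
      omega
    have : ∃ g, orderOf g = 2 ∧ inv g = (s, b) := by
      simp only [S, Finset.mem_union, Finset.mem_image, Finset.mem_Icc, Prod.mk.injEq] at hx
      rcases hx with ⟨s, ⟨h1, h2⟩, rfl, rfl⟩ | ⟨r, ⟨h1, h2⟩, rfl, rfl⟩
      · obtain ⟨r, rfl | rfl⟩ : ∃ r, s = 2 * r + 1 ∨ s = 2 * r + 2 := ⟨(s - 1) / 2, by omega⟩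
        · obtain ⟨g, hg, e⟩ := mkel (SO F r) (SO_symm r) (SO_det r) (by simp)
            (Or.inr ⟨by simp; omega, SO_not_alt r⟩)
          exact ⟨g, hg, e.trans (Prod.ext (by simp; omega) (decide_eq_false (SO_not_alt r)))⟩
        · obtain ⟨g, hg, e⟩ := mkel (SE F r) (SE_symm r) (SE_det r) (by simp; omega)
            (Or.inr ⟨by simp; omega, SE_not_alt r⟩)
          exact ⟨g, hg, e.trans (Prod.ext (by simp; omega) (decide_eq_false (SE_not_alt r)))⟩
      · obtain ⟨g, hg, e⟩ := mkel (SA F r) (SA_symm r) (SA_det r) (by simp; omega) (Or.inl (by simp; omega))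
        exact ⟨g, hg, e.trans (Prod.ext (by simp; omega) (decide_eq_true (SA_alt r)))⟩
    obtain ⟨g, hg, hgv⟩ := this
    exact ⟨⟨ConjClasses.mk g, g, rfl, hg⟩, Subtype.ext hgv⟩

end Count

section Families

/-- Orthogonal families in the plus form. -/
theorem exists_family_plus [Fintype F] {m : ℕ} {σ : Type} [Fintype σ] (f : σ ↪ Fin m) (c : σ → F) :
    ∃ p : σ → (Fin m ⊕ Fin m → F), LinearIndependent F p ∧
      (∀ i j, i ≠ j → polar (plusQ m F) (p i) (p j) = 0) ∧ ∀ i, plusQ m F (p i) = c i := by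
  classical
  refine ⟨fun i => Sum.elim (Pi.single (f i) 1) (Pi.single (f i) (c i)), ?_, fun i j hij => ?_, fun i => ?_⟩
  · rw [Fintype.linearIndependent_iff]
    intro g hg i
    have := congrFun hg (Sum.inl (f i))
    simpa [Pi.single_apply, f.injective.eq_iff] using this
  · simp [polar_plusQ, Pi.single_apply, f.injective.eq_iff, hij, Ne.symm hij]
  · simp [plusQ_apply, Cfsg.quadFormPlus, Pi.single_apply]

/-- Orthogonal families in the minus form. -/
theorem exists_family_minus [Fintype F] {k : ℕ} {a b : F} (hab : Aniso a b) {σ : Type} [Fintype σ]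
    [DecidableEq σ] (c : σ → F) (h : Fintype.card σ ≤ k ∨ (Fintype.card σ ≤ k + 1 ∧ ∃ i, c i ≠ 0)) :
    ∃ p : σ → ((Fin k ⊕ Fin k) ⊕ Fin 2 → F), LinearIndependent F p ∧
      (∀ i j, i ≠ j → polar (minusQ k a b) (p i) (p j) = 0) ∧ ∀ i, minusQ k a b (p i) = c i := by
  classical
  by_cases hle : Fintype.card σ ≤ k
  · obtain ⟨f⟩ : Nonempty (σ ↪ Fin k) := Function.Embedding.nonempty_of_card_le (by simpa using hle)
    refine ⟨fun i => Sum.elim (Sum.elim (Pi.single (f i) 1) (Pi.single (f i) (c i))) 0, ?_, fun i j hij => ?_,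
      fun i => ?_⟩
    · rw [Fintype.linearIndependent_iff]
      intro g hg i
      have := congrFun hg (Sum.inl (Sum.inl (f i)))
      simpa [Pi.single_apply, f.injective.eq_iff] using this
    · simp [polar_minusQ, Pi.single_apply, f.injective.eq_iff, hij, Ne.symm hij]
    · simp [minusQ_apply, Cfsg.quadFormMinus, Pi.single_apply]
  obtain ⟨hle1, i₀, hi₀⟩ := h.resolve_left hle
  obtain ⟨f⟩ : Nonempty ({i // i ≠ i₀} ↪ Fin k) := Function.Embedding.nonempty_of_card_le (by
    rw [Fintype.card_subtype_compl, Fintype.card_subtype_eq, Fintype.card_fin]; omega)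
  obtain ⟨w, hw⟩ := exists_binQ_eq hab (c i₀)
  rw [binQ_apply] at hw
  let p : σ → ((Fin k ⊕ Fin k) ⊕ Fin 2 → F) := fun i =>
    if h : i = i₀ then Sum.elim 0 w else
      Sum.elim (Sum.elim (Pi.single (f ⟨i, h⟩) 1) (Pi.single (f ⟨i, h⟩) (c i))) 0
  refine ⟨p, ?_, fun i j hij => ?_, fun i => ?_⟩
  · rw [Fintype.linearIndependent_iff]
    intro g hg
    have hne : ∀ i, i ≠ i₀ → g i = 0 := by
      intro i hi
      have h0 := congrFun hg (Sum.inl (Sum.inl (f ⟨i, hi⟩)))
      rw [Finset.sum_apply, Finset.sum_eq_single i] at h0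
      · simpa [p, hi] using h0
      · intro j _ hji
        rcases eq_or_ne j i₀ with rfl | hj
        · simp [p]
        · simp [p, hj, Pi.single_apply, f.injective.eq_iff, Subtype.ext_iff, Ne.symm hji]
      · simp
    intro i
    rcases eq_or_ne i i₀ with rfl | hi
    · rw [Finset.sum_eq_single i (fun j _ hj => by rw [hne j hj, zero_smul]) (by simp)] at hg
      refine (smul_eq_zero.mp hg).resolve_right fun h0 => hi₀ ?_
      have e : w = 0 := funext fun j => by
        have := congrFun h0 (Sum.inr j)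
        simpa [p] using this
      rw [← hw, e]; simp
    · exact hne i hi
  · rcases eq_or_ne i i₀ with rfl | hi
    · simp [p, Ne.symm hij, polar_minusQ]
    rcases eq_or_ne j i₀ with rfl | hj
    · simp [p, hij, polar_minusQ]
    simp [p, hi, hj, polar_minusQ, Pi.single_apply, f.injective.eq_iff, Subtype.ext_iff, hij, Ne.symm hij]
  · rcases eq_or_ne i i₀ with rfl | hi
    · simp [p, minusQ_apply, Cfsg.quadFormMinus, hw]
    · simp [p, hi, minusQ_apply, Cfsg.quadFormMinus, Pi.single_apply]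

end Families

end Cfsg.Agent.Lib.Jordan.OrthInvol
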