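import Cfsg.Agent.Lib.Jordan.OrthInvolModels
import Cfsg.Agent.Lib.Classical.QuadOmega.SingularApply

/-! Involutions and the commutator subgroup of the orthogonal group in characteristic two. -/

set_option autoImplicit false
set_option linter.unusedSectionVars false

namespace Cfsg.Agent.Lib.Jordan.OrthInvol

open Matrix QuadraticMap SymmTwo SympInvol Cfsg.Agent.Lib.Classical.QuadOmega Cfsg.Agent.Lib.Classical.Quad

variable {F : Type*} [Field F] [CharP F 2] [Fintype F] {m : ℕ} {Q : QuadraticForm F (Fin m ⊕ Fin m → F)}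

local notation "nn" => (Fin m ⊕ Fin m)
local notation "JJ" => Matrix.J (Fin m) F
set_option quotPrecheck false in
local notation "OQ" => Cfsg.isometryGroup F (DFunLike.coe Q)

theorem nd_of_std (hQ : StdPolar Q) : Nd Q := nd_of_nondegenerate (polarBilin_nondeg hQ)

/-- The isometries as linear maps. -/
noncomputable def toIso (Q : QuadraticForm F (nn → F)) : Cfsg.isometryGroup F ⇑Q ≃* isoG Q :=
  isoEquiv (Q := Q) ⇑Q (LinearEquiv.refl F _) fun _ => rfl

theorem toIso_apply (g : OQ) (v : nn → F) : (toIso Q g).1 v = ((g : GL nn F) : Matrix nn nn F) *ᵥ v :=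
  isoEquiv_apply (Q := Q) ⇑Q (LinearEquiv.refl F _) (fun _ => rfl) g v

/-- The Dickson invariant on matrices. -/
noncomputable def dickO (hQ : StdPolar Q) : Cfsg.isometryGroup F ⇑Q →* ℤˣ :=
  (dick (nd_of_std hQ)).comp (toIso Q).toMonoidHom

theorem mem_omega_iff_dickO (hQ : StdPolar Q) (hreg : Reg F (nn → F)) {κ : Type} [Fintype κ] [DecidableEq κ]
    {f : (κ → F) → F} (e : (nn → F) ≃ₗ[F] (κ → F)) (he : ∀ v, f (e v) = Q v) (g : Cfsg.isometryGroup F f) :
    g ∈ Cfsg.Omega F f ↔ dickO hQ (transEquiv e he g) = 1 := by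
  rw [mem_omega_iff f e he, mem_commutator_iff_two (nd_of_std hQ) hreg CharTwo.two_eq_zero]
  simp [dickO, toIso, transEquiv]

/-- A fixed non-singular vector gives a commuting element outside the commutator subgroup. -/
theorem exists_odd_comm (hQ : StdPolar Q) (x : OQ) {a : nn → F} (ha : Q a ≠ 0)
    (hfix : ((x : GL nn F) : Matrix nn nn F) *ᵥ a = a) : ∃ r : OQ, dickO hQ r = -1 ∧ r * x = x * r := by
  refine ⟨(toIso Q).symm (refl Q a), ?_, (toIso Q).injective ?_⟩
  · simp [dickO, dick_refl (nd_of_std hQ) ha]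
  · rw [map_mul, map_mul, MulEquiv.apply_symm_apply]
    have := refl_conj ha (toIso Q x)
    rw [toIso_apply, hfix, mul_inv_eq_iff_eq_mul] at this
    exact this.symm

/-- With a commuting element outside, conjugate elements are conjugate by the commutator subgroup. -/
theorem conj_even (hQ : StdPolar Q) {x y : OQ} (hr : ∃ r : OQ, dickO hQ r = -1 ∧ r * x = x * r)
    (h : IsConj x y) : ∃ g : OQ, dickO hQ g = 1 ∧ g * x * g⁻¹ = y := by
  obtain ⟨c, hc⟩ := isConj_iff.1 h
  obtain ⟨r, hr1, hr2⟩ := hr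
  rcases Int.units_eq_one_or (dickO hQ c) with hd | hd
  · exact ⟨c, hd, hc⟩
  · refine ⟨c * r, by rw [map_mul, hd, hr1]; rfl, ?_⟩
    calc c * r * x * (c * r)⁻¹ = c * (r * x * r⁻¹) * c⁻¹ := by group
      _ = y := by rw [hr2, mul_inv_cancel_right, hc]

/-- The fixed non-singular vector of a non-alternating shape. -/
theorem exists_fix_of_not_alt {σ : Type} [Fintype σ] [DecidableEq σ] {U : Matrix nn σ F} {S : Matrix σ σ F}
    (hU : QF Q U S) (hS : ¬ ∀ u, u ⬝ᵥ S *ᵥ u = 0) : ∃ a, Q a ≠ 0 ∧ elt U S *ᵥ a = a := by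
  push Not at hS
  obtain ⟨w, hw⟩ := hS
  refine ⟨U *ᵥ (S *ᵥ w), by rw [hU.2]; exact hw, ?_⟩
  rw [elt, Matrix.add_mulVec, Matrix.one_mulVec, Matrix.mulVec_mulVec _ (U * S * Uᵀ * JJ) U,
    show U * S * Uᵀ * JJ * U = U * S * (Uᵀ * JJ * U) by simp only [Matrix.mul_assoc], hU.1.1, Matrix.mul_zero,
    Matrix.zero_mulVec, add_zero]

/-- A big fixed space contains a non-singular vector. -/
theorem exists_fix_of_rank {a : ℕ} (hsing : ∀ W : Submodule F (nn → F), (∀ v ∈ W, Q v = 0) → Module.finrank F W ≤ a)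
    (X : Matrix nn nn F) {s : ℕ} (hs : (X - 1).rank = s) (has : a + s < 2 * m) :
    ∃ v, Q v ≠ 0 ∧ X *ᵥ v = v := by
  by_contra hc
  push Not at hc
  have hW := hsing (LinearMap.ker (X - 1).mulVecLin) fun v hv => by
    by_contra h0
    rw [LinearMap.mem_ker, Matrix.mulVecLin_apply, Matrix.sub_mulVec, Matrix.one_mulVec, sub_eq_zero] at hv
    exact hc v h0 hv
  have h1 := (X - 1).mulVecLin.finrank_range_add_finrank_ker
  rw [Module.finrank_fintype_fun_eq_card, Fintype.card_sum, Fintype.card_fin] at h1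
  change (X - 1).rank + _ = _ at h1
  omega

/-- Every involution either has a commuting odd element or is of the split type. -/
theorem odd_or_split (hQ : StdPolar Q) {a : ℕ} (ha : a ≤ m)
    (hsing : ∀ W : Submodule F (nn → F), (∀ v ∈ W, Q v = 0) → Module.finrank F W ≤ a)
    (x : OQ) (hx : x * x = 1) :
    (∃ r : OQ, dickO hQ r = -1 ∧ r * x = x * r) ∨
      (a = m ∧ (((x : GL nn F) : Matrix nn nn F) - 1).rank = m ∧
        (∀ v, v ⬝ᵥ JJ *ᵥ (((x : GL nn F) : Matrix nn nn F) *ᵥ v) = 0) ∧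
        ∀ v ∈ LinearMap.range (((x : GL nn F) : Matrix nn nn F) - 1).mulVecLin, Q v = 0) := by
  obtain ⟨r, ⟨U, hU, e⟩ | ⟨U, hU, e⟩ | ⟨U, hU, e⟩⟩ := exists_shape hQ x hx
  · obtain ⟨hrk, halt⟩ := elt_facts hU.1 (SA_det (F := F) r)
    rw [← e] at hrk halt
    have hle : 2 * r ≤ a := by rw [← (sing_of_qf hU).1]; exact hsing _ (sing_of_qf hU).2
    simp only [Fintype.card_sum, Fintype.card_fin] at hrk
    by_cases hlt : a + (r + r) < 2 * m
    · obtain ⟨v, hv, hfix⟩ := exists_fix_of_rank hsing _ hrk hlt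
      exact Or.inl (exists_odd_comm hQ x hv hfix)
    · refine Or.inr ⟨by omega, by omega, halt.mpr (SA_alt r), ?_⟩
      rintro _ ⟨v, rfl⟩
      refine (sing_of_qf hU).2 _ ⟨SA F r *ᵥ (Uᵀ *ᵥ (JJ *ᵥ v)), ?_⟩
      rw [Matrix.mulVecLin_apply, Matrix.mulVecLin_apply, e, elt, add_sub_cancel_left]
      simp only [Matrix.mulVec_mulVec, Matrix.mul_assoc]
  · obtain ⟨v, hv, hfix⟩ := exists_fix_of_not_alt hU (SO_not_alt r)
    exact Or.inl (exists_odd_comm hQ x hv (by rw [e]; exact hfix))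
  · obtain ⟨v, hv, hfix⟩ := exists_fix_of_not_alt hU (SE_not_alt r)
    exact Or.inl (exists_odd_comm hQ x hv (by rw [e]; exact hfix))

/-- The even part of a centraliser has index two as soon as some odd element commutes. -/
theorem card_even_cent (hQ : StdPolar Q) {x : OQ} (hr : ∃ r : OQ, dickO hQ r = -1 ∧ r * x = x * r) :
    2 * Nat.card {g : OQ // g * x = x * g ∧ dickO hQ g = 1} = Nat.card (Subgroup.centralizer ({x} : Set OQ)) := by
  obtain ⟨r, hr1, hr2⟩ := hr
  let φ := (dickO hQ).comp (Subgroup.centralizer ({x} : Set OQ)).subtype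
  have hsurj : Function.Surjective φ := fun u => by
    rcases Int.units_eq_one_or u with rfl | rfl
    · exact ⟨1, map_one φ⟩
    · exact ⟨⟨r, Subgroup.mem_centralizer_singleton_iff.mpr hr2⟩, hr1⟩
  have h1 := φ.ker.card_mul_index
  rw [Subgroup.index_ker, MonoidHom.range_eq_top.mpr hsurj, Subgroup.card_top, Nat.card_eq_fintype_card (α := ℤˣ),
    Fintype.card_units_int] at h1
  rw [← h1, mul_comm]
  refine congrArg (· * 2) (Nat.card_congr
    { toFun := fun g => ⟨⟨g.1, Subgroup.mem_centralizer_singleton_iff.mpr g.2.1⟩, g.2.2⟩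
      invFun := fun g => ⟨g.1.1, Subgroup.mem_centralizer_singleton_iff.mp g.1.2, g.2⟩
      left_inv := fun g => rfl
      right_inv := fun g => rfl })

/-- In the plus form an element moving one image onto another has the parity of the pair. -/
theorem dick_of_image (hreg : Reg F (nn → F)) (X Y : Matrix nn nn F)
    (hX : (X - 1).rank = m) (hXs : ∀ v ∈ LinearMap.range (X - 1).mulVecLin, plusQ m F v = 0)
    (g : Cfsg.isometryGroup F ⇑(plusQ m F))
    (hg : ((g : GL nn F) : Matrix nn nn F) * X = Y * ((g : GL nn F) : Matrix nn nn F)) :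
    dickO (plus_std m) g = (-1) ^ m *
      (-1) ^ Module.finrank F ↥(LinearMap.range (X - 1).mulVecLin ⊓ LinearMap.range (Y - 1).mulVecLin) := by
  have hU : MaxTS (plusQ m F) (LinearMap.range (X - 1).mulVecLin) :=
    (maxTS_iff m _).2 ⟨hX, fun w hw => (plusQ_apply m w).symm.trans (hXs w hw)⟩
  have hd := dick_eq_parS hreg (toIso (plusQ m F) g) hU
  have hi : imgS (toIso (plusQ m F) g) (LinearMap.range (X - 1).mulVecLin) = LinearMap.range (Y - 1).mulVecLin := by
    set G := ((g : GL nn F) : Matrix nn nn F) with hG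
    have hc : ∀ v, G *ᵥ ((X - 1) *ᵥ v) = (Y - 1) *ᵥ (G *ᵥ v) := fun v => by
      rw [Matrix.mulVec_mulVec, Matrix.mulVec_mulVec, mul_sub, sub_mul, mul_one, one_mul, hg]
    ext y
    rw [mem_imgS]
    constructor
    · rintro ⟨_, ⟨v, rfl⟩, rfl⟩
      exact ⟨G *ᵥ v, by rw [toIso_apply, Matrix.mulVecLin_apply, Matrix.mulVecLin_apply, ← hG, hc]⟩
    · rintro ⟨w, rfl⟩
      obtain ⟨v, rfl⟩ := Matrix.mulVec_surjective_iff_isUnit.mpr ((g : GL nn F)).isUnit w
      exact ⟨_, ⟨v, rfl⟩, by rw [toIso_apply, Matrix.mulVecLin_apply, Matrix.mulVecLin_apply, ← hG, hc]⟩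
  rw [hi, parS] at hd
  exact hd

end Cfsg.Agent.Lib.Jordan.OrthInvol
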