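import Cfsg.Agent.Lib.Jordan.Matrix

/-! Square-zero matrices are classified by their rank. -/

set_option autoImplicit false
set_option linter.unusedSectionVars false

namespace Cfsg.Agent.Lib.Jordan

open Module Matrix

theorem ext_of_sums {μ μ' : Multiset ℕ} (h : ∀ a ∈ μ, 0 < a) (h' : ∀ a ∈ μ', 0 < a)
    (e : ∀ i, (μ.map fun a => a - i).sum = (μ'.map fun a => a - i).sum) : μ = μ' := by
  ext a
  rcases a with _ | j
  · rw [Multiset.count_eq_zero.mpr fun e => (lt_irrefl 0 (h 0 e)).elim,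
      Multiset.count_eq_zero.mpr fun e => (lt_irrefl 0 (h' 0 e)).elim]
  have := e j; have := e (j + 1); have := e (j + 1 + 1)
  have := sum_sub_step μ j; have := sum_sub_step μ (j + 1)
  have := sum_sub_step μ' j; have := sum_sub_step μ' (j + 1)
  have := countP_step μ j; have := countP_step μ' j
  omega

theorem conj_of_rank {F : Type*} [Field F] {ι : Type*} [Fintype ι] [DecidableEq ι] {A B : Matrix ι ι F}
    (hA : A ^ 2 = 0) (hB : B ^ 2 = 0) (hr : A.rank = B.rank) :
    ∃ g : GL ι F, (g : Matrix ι ι F) * A = B * g := by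
  obtain ⟨μ, hμ⟩ := MType.exists_of_isNilpotent (M := A) ⟨2, hA⟩
  obtain ⟨ν, hν⟩ := MType.exists_of_isNilpotent (M := B) ⟨2, hB⟩
  suffices h : μ = ν by exact hμ.exists_gl (h ▸ hν)
  refine ext_of_sums (fun _ ha => hμ.pos ha) (fun _ ha => hν.pos ha) fun i => ?_
  have e : ∀ (M : Matrix ι ι F) (ρ : Multiset ℕ), MType M ρ → ∀ i, (M ^ i).rank = (ρ.map fun a => a - i).sum := by
    intro M ρ h i
    rw [← HasType.finrank_range_pow h i, ← Matrix.toLin'_pow, Matrix.toLin'_apply']; rfl
  rw [← e A μ hμ, ← e B ν hν]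
  rcases i with _ | _ | i
  · simp
  · simpa using hr
  · rw [pow_eq_zero_of_le (by omega) hA, pow_eq_zero_of_le (by omega) hB]

end Cfsg.Agent.Lib.Jordan
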