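import Cfsg.Agent.Lib.Forms.Alternating
import Cfsg.Agent.Lib.Classical.SympOrder

/-! Symmetric matrices over perfect fields of characteristic two: normal forms and their isometries. -/

set_option autoImplicit false
set_option linter.unusedSectionVars false

namespace Cfsg.Agent.Lib.Jordan.SymmTwo

open Matrix

variable {F : Type*} [Field F]

/-- The alternating model. -/
abbrev SA (F : Type*) [Field F] (r : ℕ) : Matrix (Fin r ⊕ Fin r) (Fin r ⊕ Fin r) F := Matrix.J (Fin r) F

/-- The non-alternating model of odd size. -/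
abbrev SO (F : Type*) [Field F] (r : ℕ) : Matrix (Unit ⊕ (Fin r ⊕ Fin r)) (Unit ⊕ (Fin r ⊕ Fin r)) F :=
  Matrix.fromBlocks 1 0 0 (SA F r)

/-- The two by two non-alternating block. -/
abbrev H2 (F : Type*) [Field F] : Matrix (Unit ⊕ Unit) (Unit ⊕ Unit) F := Matrix.fromBlocks 0 1 1 1

/-- The non-alternating model of even size. -/
abbrev SE (F : Type*) [Field F] (r : ℕ) :
    Matrix ((Unit ⊕ Unit) ⊕ (Fin r ⊕ Fin r)) ((Unit ⊕ Unit) ⊕ (Fin r ⊕ Fin r)) F :=
  Matrix.fromBlocks (H2 F) 0 0 (SA F r)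

theorem SA_symm [CharP F 2] (r : ℕ) : (SA F r)ᵀ = SA F r := by
  rw [Matrix.J_transpose]; ext i j; exact CharTwo.neg_eq _

theorem H2_symm : (H2 F)ᵀ = H2 F := by
  rw [Matrix.fromBlocks_transpose, Matrix.transpose_zero, Matrix.transpose_one]

theorem SO_symm [CharP F 2] (r : ℕ) : (SO F r)ᵀ = SO F r := by
  rw [Matrix.fromBlocks_transpose, Matrix.transpose_zero, Matrix.transpose_one, SA_symm]
  simp

theorem SE_symm [CharP F 2] (r : ℕ) : (SE F r)ᵀ = SE F r := by
  rw [Matrix.fromBlocks_transpose, H2_symm, SA_symm]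
  simp

theorem SA_det (r : ℕ) : IsUnit (SA F r).det := Matrix.isUnit_det_J (Fin r) F

theorem SO_det (r : ℕ) : IsUnit (SO F r).det := by
  rw [Matrix.det_fromBlocks_zero₂₁, Matrix.det_one, one_mul]; exact SA_det r

theorem SE_det (r : ℕ) : IsUnit (SE F r).det := by
  rw [Matrix.det_fromBlocks_zero₂₁]
  refine IsUnit.mul (Matrix.isUnit_det_of_left_inverse
    (B := Matrix.fromBlocks (-1 : Matrix Unit Unit F) 1 1 0) ?_) (SA_det r)
  rw [Matrix.fromBlocks_multiply]
  simp

theorem SA_alt (r : ℕ) (u : Fin r ⊕ Fin r → F) : u ⬝ᵥ SA F r *ᵥ u = 0 := by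
  simp [SA, Matrix.J, Matrix.fromBlocks_mulVec, Matrix.neg_mulVec, dotProduct, Fintype.sum_sum_type, mul_comm]

theorem SO_not_alt (r : ℕ) : ¬ ∀ u, u ⬝ᵥ SO F r *ᵥ u = 0 := fun h => by
  have := h (Pi.single (Sum.inl ()) 1)
  rw [single_dotProduct, one_mul, Matrix.mulVec_single_one] at this
  simp at this

theorem SE_not_alt (r : ℕ) : ¬ ∀ u, u ⬝ᵥ SE F r *ᵥ u = 0 := fun h => by
  have := h (Pi.single (Sum.inl (Sum.inr ())) 1)
  rw [single_dotProduct, one_mul, Matrix.mulVec_single_one] at this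
  simp at this

section Normal

variable [CharP F 2] {ι : Type*} [Fintype ι] [DecidableEq ι]

theorem split_of_basis {σ : Type*} [Fintype σ] [DecidableEq σ] {k : ℕ} {M : Matrix ι ι F} {S : Matrix σ σ F}
    (b : σ ⊕ Fin k → ι → F) (hspan : Submodule.span F (Set.range b) = ⊤)
    (hcard : Fintype.card (σ ⊕ Fin k) = Fintype.card ι)
    (hS : ∀ i j, b (Sum.inl i) ⬝ᵥ M *ᵥ b (Sum.inl j) = S i j)
    (h0 : ∀ i j, b (Sum.inr i) ⬝ᵥ M *ᵥ b j = 0) (h0' : ∀ i j, b j ⬝ᵥ M *ᵥ b (Sum.inr i) = 0) :
    ∃ W : Matrix ι σ F, (∃ V : Matrix σ ι F, V * W = 1) ∧ M = W * S * Wᵀ := by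
  classical
  have hc : Fintype.card (σ ⊕ Fin k) = Module.finrank F (ι → F) := by
    rw [hcard, Module.finrank_fintype_fun_eq_card]
  let B := basisOfTopLeSpanOfCardEqFinrank b hspan.ge hc
  set P : Matrix ι (σ ⊕ Fin k) F := (Pi.basisFun F ι).toMatrix B with hPdef
  set Q : Matrix (σ ⊕ Fin k) ι F := B.toMatrix (Pi.basisFun F ι) with hQdef
  have hPQ : P * Q = 1 := Module.Basis.toMatrix_mul_toMatrix_flip _ _
  have hQP : Q * P = 1 := Module.Basis.toMatrix_mul_toMatrix_flip _ _
  have hP : ∀ i j, P i j = b j i := fun i j => by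
    simp [hPdef, Module.Basis.toMatrix_apply, B]
  have hG : Pᵀ * M * P = Matrix.fromBlocks S 0 0 0 := by
    ext i j
    have e : (Pᵀ * M * P) i j = b i ⬝ᵥ M *ᵥ b j := by
      rw [Matrix.mul_assoc, Matrix.mul_apply']
      have e1 : (Pᵀ i) = b i := funext fun a => hP a i
      have e2 : (fun a => (M * P) a j) = M *ᵥ b j := funext fun a => by
        rw [Matrix.mul_apply, Matrix.mulVec, dotProduct]
        simp [hP]
      exact congrArg₂ (· ⬝ᵥ ·) e1 e2
    rw [e]
    rcases i with i | i <;> rcases j with j | j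
    · exact hS i j
    · exact h0' j _
    · exact h0 i _
    · exact h0 i _
  refine ⟨(Q.submatrix Sum.inl id)ᵀ, ⟨(P.submatrix id Sum.inl)ᵀ, ?_⟩, ?_⟩
  · rw [← Matrix.transpose_mul, ← Matrix.transpose_one]
    congr 1
    ext i j
    have := congrFun (congrFun hQP (Sum.inl i)) (Sum.inl j)
    simp [Matrix.mul_apply, Matrix.one_apply] at this ⊢
    exact this
  · have e : M = Qᵀ * (Pᵀ * M * P) * Q := by
      have h1 : Qᵀ * Pᵀ = 1 := by rw [← Matrix.transpose_mul, hPQ, Matrix.transpose_one]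
      calc M = (Qᵀ * Pᵀ) * M * (P * Q) := by rw [h1, hPQ, Matrix.one_mul, Matrix.mul_one]
        _ = _ := by simp only [Matrix.mul_assoc]
    rw [hG] at e
    rw [e]
    ext i j
    simp only [Matrix.mul_apply, Fintype.sum_sum_type, Matrix.fromBlocks_apply₁₁, Matrix.fromBlocks_apply₁₂,
      Matrix.fromBlocks_apply₂₁, Matrix.fromBlocks_apply₂₂, Matrix.zero_apply, mul_zero, zero_mul,
      Finset.sum_const_zero, add_zero, Matrix.transpose_apply, Matrix.submatrix_apply, id_eq]

/-- The quadratic function of a symmetric matrix is the square of a linear one. -/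
theorem exists_root [Finite F] {M : Matrix ι ι F} (hM : Mᵀ = M) :
    ∃ r : ι → F, ∀ v, v ⬝ᵥ M *ᵥ v = (r ⬝ᵥ v) ^ 2 := by
  classical
  haveI : Fintype F := Fintype.ofFinite F
  choose r hr using fun i => FiniteField.isSquare_of_char_two (ringChar.eq F 2) (M i i)
  refine ⟨r, fun v => ?_⟩
  let f : (ι → F) →+ F :=
    { toFun := fun v => v ⬝ᵥ M *ᵥ v
      map_zero' := by simp
      map_add' := fun a b => by
        rw [Matrix.mulVec_add, add_dotProduct, dotProduct_add, dotProduct_add,
          show b ⬝ᵥ M *ᵥ a = a ⬝ᵥ M *ᵥ b by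
            rw [Matrix.dotProduct_mulVec, ← Matrix.mulVec_transpose, hM, dotProduct_comm]]
        linear_combination CharTwo.add_self_eq_zero (a ⬝ᵥ M *ᵥ b) }
  show f v = _
  conv_lhs => rw [← Finset.univ_sum_single v]
  rw [map_sum, dotProduct, CharTwo.sum_sq]
  refine Finset.sum_congr rfl fun i _ => ?_
  show Pi.single i (v i) ⬝ᵥ M *ᵥ Pi.single i (v i) = _
  rw [single_dotProduct, Matrix.mulVec, dotProduct_single, mul_pow, show r i ^ 2 = M i i by rw [sq]; exact (hr i).symm]
  ring

/-- Every symmetric matrix comes from one of the three models. -/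
theorem normal_form [Finite F] {M : Matrix ι ι F} (hM : Mᵀ = M) :
    ∃ r : ℕ, (∃ W : Matrix ι (Fin r ⊕ Fin r) F, (∃ V : Matrix (Fin r ⊕ Fin r) ι F, V * W = 1) ∧ M = W * SA F r * Wᵀ) ∨
      (∃ W : Matrix ι (Unit ⊕ (Fin r ⊕ Fin r)) F, (∃ V : Matrix (Unit ⊕ (Fin r ⊕ Fin r)) ι F, V * W = 1) ∧ M = W * SO F r * Wᵀ) ∨
      (∃ W : Matrix ι ((Unit ⊕ Unit) ⊕ (Fin r ⊕ Fin r)) F, (∃ V : Matrix ((Unit ⊕ Unit) ⊕ (Fin r ⊕ Fin r)) ι F, V * W = 1) ∧ M = W * SE F r * Wᵀ) := by
  classical
  obtain ⟨r, hr⟩ := exists_root hM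
  let B : LinearMap.BilinForm F (ι → F) := Matrix.toBilin' M
  have hB : ∀ a b, B a b = a ⬝ᵥ M *ᵥ b := fun a b => Matrix.toBilin'_apply' M a b
  have hBs : ∀ a b, B a b = B b a := fun a b => by
    rw [hB, hB, Matrix.dotProduct_mulVec, ← Matrix.mulVec_transpose, hM, dotProduct_comm]
  -- a family for the form on a subspace where it alternates
  have fam : ∀ T : Submodule F (ι → F), (∀ v ∈ T, B v v = 0) → ∃ (p k : ℕ) (b : (Fin p ⊕ Fin p) ⊕ Fin k → (ι → F)),
      2 * p + k = Module.finrank F T ∧ (∀ i, b i ∈ T) ∧ T ≤ Submodule.span F (Set.range b) ∧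
      (∀ i j, B (b (Sum.inl i)) (b (Sum.inl j)) = SA F p i j) ∧
      (∀ j, ∀ v ∈ T, B (b (Sum.inr j)) v = 0) := by
    intro T hT
    obtain ⟨p, k, b, hc, hs, e1, e2, e3, e4⟩ :=
      Cfsg.Agent.Lib.Forms.exists_altFamily _ T (B.restrict T) (fun x => hT x x.2) rfl
    refine ⟨p, k, fun i => (b i : ι → F), hc, fun i => (b i).2, ?_, fun i j => ?_,
      fun j v hv => e4 j ⟨v, hv⟩⟩
    · intro v hv
      have hv' : (⟨v, hv⟩ : T) ∈ Submodule.span F (Set.range b) := hs ▸ Submodule.mem_top
      have := Submodule.mem_map_of_mem (f := T.subtype) hv'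
      rw [Submodule.map_span, ← Set.range_comp] at this
      exact this
    · rcases i with i | i <;> rcases j with j | j
      · exact (e2 i j).trans (by simp [SA, Matrix.J])
      · exact (e1 i j).trans (by simp [SA, Matrix.J, Matrix.one_apply, CharTwo.neg_eq])
      · exact ((hBs _ _).trans (e1 j i)).trans (by simp [SA, Matrix.J, Matrix.one_apply, eq_comm])
      · exact (e3 i j).trans (by simp [SA, Matrix.J])
  by_cases h0 : r = 0
  · obtain ⟨p, k, b, hc, -, hs, hS, hR⟩ := fam ⊤ fun v _ => by rw [hB, hr, h0, zero_dotProduct]; ring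
    refine ⟨p, Or.inl (split_of_basis b (top_le_iff.mp hs) ?_ (fun i j => by rw [← hB]; exact hS i j)
      (fun i j => by rw [← hB]; exact hR i _ trivial) (fun i j => by rw [← hB, hBs]; exact hR i _ trivial))⟩
    rw [finrank_top, Module.finrank_fintype_fun_eq_card] at hc
    simp; omega
  -- the vector representing the linear function
  obtain ⟨z, hz⟩ : ∃ z, M *ᵥ z = r := by
    by_contra hno
    obtain ⟨φ, hφr, hφ⟩ := Submodule.exists_dual_map_eq_bot_of_notMem (p := LinearMap.range (Matrix.mulVecLin M))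
      (x := r) (fun ⟨z, hz⟩ => hno ⟨z, hz⟩) inferInstance
    obtain ⟨c, rfl⟩ := (dotProductEquiv F ι).surjective φ
    simp only [dotProductEquiv_apply_apply] at hφr
    have hc : ∀ v, c ⬝ᵥ M *ᵥ v = 0 := fun v => by
      have := Submodule.mem_map_of_mem (f := dotProductEquiv F ι c)
        (LinearMap.mem_range_self (Matrix.mulVecLin M) v)
      rw [hφ, Submodule.mem_bot] at this
      simpa using this
    have := hr c
    rw [hc, eq_comm, pow_eq_zero_iff two_ne_zero, dotProduct_comm] at this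
    exact hφr this
  have hzv : ∀ v, B z v = r ⬝ᵥ v := fun v => by
    rw [hB, Matrix.dotProduct_mulVec, ← Matrix.mulVec_transpose, hM, hz]
  have hvv : ∀ v, B v v = (B z v) ^ 2 := fun v => by rw [hzv, hB, hr]
  by_cases hzz : B z z = 0
  · obtain ⟨i₀, hi₀⟩ : ∃ i, r i ≠ 0 := Function.ne_iff.mp h0
    set f : ι → F := Pi.single i₀ (r i₀)⁻¹ with hf
    have hzf : B z f = 1 := by rw [hzv, hf, dotProduct_single, mul_inv_cancel₀ hi₀]
    have hff : B f f = 1 := by rw [hvv, hzf, one_pow]
    let L : (ι → F) →ₗ[F] F × F := (B z).prod (B f)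
    have hL : Function.Surjective L := fun ⟨a, c⟩ => ⟨(c + a) • z + a • f, by
      refine Prod.ext ?_ ?_ <;> simp [L, hzz, hzf, hBs f z, hff]
      linear_combination CharTwo.add_self_eq_zero a⟩
    obtain ⟨p, k, b, hc, hbT, hs, hS, hR⟩ := fam (LinearMap.ker L) fun v hv => by
      rw [LinearMap.mem_ker] at hv
      rw [hvv, show B z v = 0 from congrArg Prod.fst hv, zero_pow two_ne_zero]
    have hT : ∀ i, B z (b i) = 0 ∧ B f (b i) = 0 := fun i =>
      ⟨congrArg Prod.fst (LinearMap.mem_ker.mp (hbT i)), congrArg Prod.snd (LinearMap.mem_ker.mp (hbT i))⟩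
    let e : ((Unit ⊕ Unit) ⊕ (Fin p ⊕ Fin p)) ⊕ Fin k → (ι → F) :=
      Sum.elim (Sum.elim (Sum.elim (fun _ => z) (fun _ => f)) (b ∘ Sum.inl)) (b ∘ Sum.inr)
    have hrk : Module.finrank F (LinearMap.ker L) + 2 = Fintype.card ι := by
      have := L.finrank_range_add_finrank_ker
      rw [LinearMap.range_eq_top.mpr hL, finrank_top, Module.finrank_prod, Module.finrank_self,
        Module.finrank_fintype_fun_eq_card] at this
      omega
    refine ⟨p, Or.inr (Or.inr (split_of_basis e ?_ (by simp; omega) ?_ ?_ ?_))⟩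
    · rw [eq_top_iff]
      intro v _
      have hv : v - ((B f v + B z v) • z + B z v • f) ∈ LinearMap.ker L := by
        rw [LinearMap.mem_ker]
        simp only [L, LinearMap.prod_apply, Function.prod_apply, map_sub, map_add, map_smul, hzz, hzf, hBs f z,
          hff, smul_eq_mul, mul_zero, mul_one, zero_add, add_assoc, CharTwo.add_self_eq_zero, add_zero, sub_self]
        refine Prod.ext ?_ ?_ <;> simp
        linear_combination -CharTwo.add_self_eq_zero (B z v)
      have hsub : Submodule.span F (Set.range b) ≤ Submodule.span F (Set.range e) := Submodule.span_mono (by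
        rintro _ ⟨i | i, rfl⟩
        exacts [⟨Sum.inl (Sum.inr i), rfl⟩, ⟨Sum.inr i, rfl⟩])
      have := Submodule.add_mem _ (hsub (hs hv)) (Submodule.add_mem _
        (Submodule.smul_mem _ (B f v + B z v) (Submodule.subset_span ⟨Sum.inl (Sum.inl (Sum.inl ())), rfl⟩))
        (Submodule.smul_mem _ (B z v) (Submodule.subset_span ⟨Sum.inl (Sum.inl (Sum.inr ())), rfl⟩)))
      simpa [e] using this
    · intro i j
      rw [← hB]
      rcases i with (i | i) | i <;> rcases j with (j | j) | j <;>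
        simp [e, hzz, hzf, hBs f z, hff, hT, hBs _ z, hBs _ f, hS]
    · intro i j
      rw [← hB]
      rcases j with ((j | j) | j) | j <;>
        simp [e, hBs _ z, hBs _ f, hT, hR i _ (hbT _)]
    · intro i j
      rw [← hB, hBs]
      rcases j with ((j | j) | j) | j <;>
        simp [e, hBs _ z, hBs _ f, hT, hR i _ (hbT _)]
  · have hz1 : B z z = 1 := mul_left_cancel₀ hzz (by rw [mul_one, ← sq, ← hvv])
    obtain ⟨p, k, b, hc, hbT, hs, hS, hR⟩ := fam (LinearMap.ker (B z)) fun v hv => by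
      rw [hvv, show B z v = 0 from hv, zero_pow two_ne_zero]
    have hT : ∀ i, B z (b i) = 0 := fun i => hbT i
    let e : (Unit ⊕ (Fin p ⊕ Fin p)) ⊕ Fin k → (ι → F) :=
      Sum.elim (Sum.elim (fun _ => z) (b ∘ Sum.inl)) (b ∘ Sum.inr)
    have hrk : Module.finrank F (LinearMap.ker (B z)) + 1 = Fintype.card ι := by
      have := (B z).finrank_range_add_finrank_ker
      rw [LinearMap.range_eq_top.mpr (fun a => ⟨a • z, by rw [map_smul, hz1, smul_eq_mul, mul_one]⟩), finrank_top,
        Module.finrank_self, Module.finrank_fintype_fun_eq_card] at this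
      omega
    refine ⟨p, Or.inr (Or.inl (split_of_basis e ?_ (by simp; omega) ?_ ?_ ?_))⟩
    · rw [eq_top_iff]
      intro v _
      have hv : v - B z v • z ∈ LinearMap.ker (B z) := by
        rw [LinearMap.mem_ker, map_sub, map_smul, hz1, smul_eq_mul, mul_one, sub_self]
      have hsub : Submodule.span F (Set.range b) ≤ Submodule.span F (Set.range e) := Submodule.span_mono (by
        rintro _ ⟨i | i, rfl⟩
        exacts [⟨Sum.inl (Sum.inr i), rfl⟩, ⟨Sum.inr i, rfl⟩])
      have := Submodule.add_mem _ (hsub (hs hv))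
        (Submodule.smul_mem _ (B z v) (Submodule.subset_span ⟨Sum.inl (Sum.inl ()), rfl⟩))
      simpa [e] using this
    · intro i j
      rw [← hB]
      rcases i with i | i <;> rcases j with j | j <;>
        simp [e, hz1, hT, hBs _ z, hS]
    · intro i j
      rw [← hB]
      rcases j with (j | j) | j <;> simp [e, hBs _ z, hT, hR i _ (hbT _)]
    · intro i j
      rw [← hB, hBs]
      rcases j with (j | j) | j <;> simp [e, hBs _ z, hT, hR i _ (hbT _)]

end Normal

section Count

variable [CharP F 2]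

theorem mulJ_eq_zero {r : ℕ} {σ : Type*} {b : Matrix σ (Fin r ⊕ Fin r) F}
    (D : Matrix.symplecticGroup (Fin r) F)
    (h : b * SA F r * (D : Matrix (Fin r ⊕ Fin r) (Fin r ⊕ Fin r) F)ᵀ = 0) : b = 0 := by
  have hu : IsUnit (SA F r * (D : Matrix (Fin r ⊕ Fin r) (Fin r ⊕ Fin r) F)ᵀ).det := by
    rw [Matrix.det_mul, Matrix.det_transpose]
    exact (SA_det r).mul (SymplecticGroup.symplectic_det D.2)
  have := congrArg (· * (SA F r * (D : Matrix (Fin r ⊕ Fin r) (Fin r ⊕ Fin r) F)ᵀ)⁻¹) h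
  rwa [Matrix.mul_assoc b, Matrix.mul_assoc, Matrix.mul_nonsing_inv _ hu, Matrix.mul_one, Matrix.zero_mul] at this

theorem diag_JJ {r : ℕ} {σ : Type*} (b : Matrix σ (Fin r ⊕ Fin r) F) (i : σ) :
    (b * SA F r * bᵀ) i i = 0 := by
  rw [Matrix.mul_assoc, Matrix.mul_apply']
  have : (fun a => (SA F r * bᵀ) a i) = SA F r *ᵥ b i := funext fun a => rfl
  exact (congrArg (b i ⬝ᵥ ·) this).trans (SA_alt r (b i))

theorem card_isom_SA [Fintype F] (r : ℕ) :
    Nat.card {A : Matrix (Fin r ⊕ Fin r) (Fin r ⊕ Fin r) F // A * SA F r * Aᵀ = SA F r} =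
      Nat.card (Matrix.symplecticGroup (Fin r) F) :=
  Nat.card_congr (Equiv.subtypeEquivRight fun _ => Iff.rfl)

theorem card_isom_SO [Fintype F] (r : ℕ) :
    Nat.card {A : Matrix (Unit ⊕ (Fin r ⊕ Fin r)) (Unit ⊕ (Fin r ⊕ Fin r)) F //
      A * SO F r * Aᵀ = SO F r} = Nat.card (Matrix.symplecticGroup (Fin r) F) := by
  classical
  have hmem : ∀ D : Matrix.symplecticGroup (Fin r) F, Matrix.fromBlocks (1 : Matrix Unit Unit F) 0 0
      (D : Matrix (Fin r ⊕ Fin r) (Fin r ⊕ Fin r) F) * SO F r * (Matrix.fromBlocks (1 : Matrix Unit Unit F) 0 0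
      (D : Matrix (Fin r ⊕ Fin r) (Fin r ⊕ Fin r) F))ᵀ = SO F r := fun D => by
    rw [Matrix.fromBlocks_transpose, Matrix.fromBlocks_multiply, Matrix.fromBlocks_multiply]
    simp [SymplecticGroup.mem_iff.mp D.2]
  refine (Nat.card_eq_of_bijective (fun D => ⟨_, hmem D⟩) ⟨?_, ?_⟩).symm
  · intro D D' h
    exact Subtype.ext (Matrix.fromBlocks_inj.mp (congrArg Subtype.val h)).2.2.2
  · rintro ⟨A, hA⟩
    rw [← Matrix.fromBlocks_toBlocks A] at hA
    rw [Matrix.fromBlocks_transpose, Matrix.fromBlocks_multiply, Matrix.fromBlocks_multiply,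
      Matrix.fromBlocks_inj] at hA
    simp only [Matrix.mul_one, Matrix.mul_zero, Matrix.zero_mul, add_zero, zero_add] at hA
    obtain ⟨h11, h12, -, h22⟩ := hA
    have hc : A.toBlocks₂₁ = 0 := by
      ext i u
      have := congrFun (congrFun h22 i) i
      rw [Matrix.add_apply, diag_JJ, add_zero, Matrix.mul_apply] at this
      simp only [Finset.univ_unique, Finset.sum_singleton, Matrix.transpose_apply] at this
      have hd : SA F r i i = 0 := by rcases i with i | i <;> simp [SA, Matrix.J]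
      rw [hd] at this
      cases u
      exact mul_self_eq_zero.mp this
    rw [hc] at h22 h12
    rw [Matrix.zero_mul, zero_add] at h22
    let D : Matrix.symplecticGroup (Fin r) F := ⟨A.toBlocks₂₂, SymplecticGroup.mem_iff.mpr h22⟩
    have hb : A.toBlocks₁₂ = 0 := mulJ_eq_zero D (by simpa using h12)
    have ha : A.toBlocks₁₁ = 1 := by
      rw [hb, Matrix.zero_mul, Matrix.zero_mul, add_zero] at h11
      ext u v
      have := congrFun (congrFun h11 u) v
      rw [Matrix.mul_apply] at this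
      cases u; cases v
      simp only [Finset.univ_unique, Finset.sum_singleton, Matrix.transpose_apply] at this
      simp only [Matrix.one_apply_eq] at this ⊢
      exact CharTwo.sq_injective (by simpa [sq] using this)
    refine ⟨D, Subtype.ext ?_⟩
    show Matrix.fromBlocks 1 0 0 A.toBlocks₂₂ = A
    conv_rhs => rw [← Matrix.fromBlocks_toBlocks A, hc, hb, ha]

theorem card_isom_SE [Fintype F] (r : ℕ) :
    Nat.card {A : Matrix ((Unit ⊕ Unit) ⊕ (Fin r ⊕ Fin r)) ((Unit ⊕ Unit) ⊕ (Fin r ⊕ Fin r)) F //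
      A * SE F r * Aᵀ = SE F r} =
      Fintype.card F ^ (2 * r + 1) * Nat.card (Matrix.symplecticGroup (Fin r) F) := by
  classical
  let bI : (Fin r ⊕ Fin r → F) → Matrix (Unit ⊕ Unit) (Fin r ⊕ Fin r) F := fun y =>
    Matrix.of fun i j => Sum.elim (fun _ => 0) (fun _ => y j) i
  let cI : Matrix.symplecticGroup (Fin r) F → (Fin r ⊕ Fin r → F) → Matrix (Fin r ⊕ Fin r) (Unit ⊕ Unit) F :=
    fun D y => Matrix.of fun i u =>
      Sum.elim (fun _ => (((D : Matrix (Fin r ⊕ Fin r) (Fin r ⊕ Fin r) F) * SA F r) *ᵥ y) i) (fun _ => 0) u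
  let aI : F → Matrix (Unit ⊕ Unit) (Unit ⊕ Unit) F := fun x => Matrix.fromBlocks 1 0 (Matrix.of fun _ _ => x) 1
  have hdot : ∀ (D : Matrix (Fin r ⊕ Fin r) (Fin r ⊕ Fin r) F) (y : Fin r ⊕ Fin r → F)
      (b : Matrix (Unit ⊕ Unit) (Fin r ⊕ Fin r) F) (u : Unit ⊕ Unit) (i : Fin r ⊕ Fin r),
      b u = y → (b * SA F r * Dᵀ) u i = ((D * SA F r) *ᵥ y) i := by
    intro D y b u i hb
    have e : ((D * SA F r) *ᵥ y) = D *ᵥ (SA F r *ᵥ y) := (Matrix.mulVec_mulVec _ _ _).symm
    rw [← Matrix.transpose_apply (b * SA F r * Dᵀ), Matrix.transpose_mul, Matrix.transpose_mul,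
      Matrix.transpose_transpose, SA_symm, ← Matrix.mul_assoc, Matrix.mul_apply']
    show ((D * SA F r) i ⬝ᵥ b u) = _
    rw [hb]; rfl
  refine (Nat.card_eq_of_bijective
    (fun p : (F × (Fin r ⊕ Fin r → F)) × Matrix.symplecticGroup (Fin r) F =>
      (⟨Matrix.fromBlocks (aI p.1.1) (bI p.1.2) (cI p.2 p.1.2)
        (p.2 : Matrix (Fin r ⊕ Fin r) (Fin r ⊕ Fin r) F), ?_⟩ :
        {A : Matrix ((Unit ⊕ Unit) ⊕ (Fin r ⊕ Fin r)) ((Unit ⊕ Unit) ⊕ (Fin r ⊕ Fin r)) F //
          A * SE F r * Aᵀ = SE F r})) ⟨?_, ?_⟩).symm.trans ?_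
  · obtain ⟨⟨x, y⟩, D⟩ := p
    rw [Matrix.fromBlocks_transpose, Matrix.fromBlocks_multiply, Matrix.fromBlocks_multiply]
    simp only [Matrix.mul_zero, add_zero, zero_add]
    have hcH : ∀ (i : Fin r ⊕ Fin r) (u : Unit ⊕ Unit), (cI D y * H2 F) i u =
        Sum.elim (fun _ => 0) (fun _ => (((D : Matrix (Fin r ⊕ Fin r) (Fin r ⊕ Fin r) F) * SA F r) *ᵥ y) i) u := by
      intro i u
      rcases u with u | u <;>
        simp [Matrix.mul_apply, Fintype.sum_sum_type, cI]
    have h12 : aI x * H2 F * (cI D y)ᵀ + bI y * SA F r * (D : Matrix (Fin r ⊕ Fin r) (Fin r ⊕ Fin r) F)ᵀ = 0 := by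
      ext u i
      rw [Matrix.add_apply, Matrix.zero_apply]
      rcases u with u | u
      · rw [hdot _ 0 _ _ _ (funext fun j => rfl), Matrix.mulVec_zero, Pi.zero_apply, add_zero]
        simp [Matrix.mul_apply, Fintype.sum_sum_type, cI, aI]
      · rw [hdot _ y _ _ _ (funext fun j => rfl)]
        simp [Matrix.mul_apply, Fintype.sum_sum_type, cI, aI, CharTwo.add_self_eq_zero]
    congr 1
    · ext u v
      rw [Matrix.add_apply]
      have hb : (bI y * SA F r * (bI y)ᵀ) u v = 0 := by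
        rcases u with u | u <;> rcases v with v | v
        · exact diag_JJ _ _
        · rw [Matrix.mul_assoc, Matrix.mul_apply]; simp [bI]
        · rw [Matrix.mul_apply]; simp [bI]
        · exact diag_JJ _ _
      rw [hb, add_zero]
      rcases u with u | u <;> rcases v with v | v <;>
        simp [Matrix.mul_apply, Fintype.sum_sum_type, aI, CharTwo.add_self_eq_zero, add_comm x, add_assoc]
    · have := congrArg Matrix.transpose h12
      simpa only [Matrix.transpose_add, Matrix.transpose_mul, Matrix.transpose_transpose, SA_symm, H2_symm,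
        Matrix.transpose_zero, Matrix.mul_assoc] using this
    · rw [SymplecticGroup.mem_iff.mp D.2]
      have : cI D y * H2 F * (cI D y)ᵀ = 0 := by
        ext i j
        rw [Matrix.mul_apply, Fintype.sum_sum_type]
        simp [hcH, cI]
      rw [this, zero_add]
  · rintro ⟨⟨x, y⟩, D⟩ ⟨⟨x', y'⟩, D'⟩ h
    obtain ⟨ha, hb, -, hD⟩ := Matrix.fromBlocks_inj.mp (congrArg Subtype.val h)
    have hx : x = x' := by
      have := congrFun (congrFun ha (Sum.inr ())) (Sum.inl ())
      simpa [aI] using this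
    have hy : y = y' := funext fun j => by
      have := congrFun (congrFun hb (Sum.inr ())) j
      simpa [bI] using this
    rw [hx, hy, show D = D' from Subtype.ext hD]
  · rintro ⟨A, hA⟩
    rw [← Matrix.fromBlocks_toBlocks A] at hA
    rw [Matrix.fromBlocks_transpose, Matrix.fromBlocks_multiply, Matrix.fromBlocks_multiply,
      Matrix.fromBlocks_inj] at hA
    simp only [Matrix.mul_zero, add_zero, zero_add] at hA
    set a := A.toBlocks₁₁ with ha'
    set b := A.toBlocks₁₂ with hb'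
    set c := A.toBlocks₂₁ with hc'
    set d := A.toBlocks₂₂ with hd'
    obtain ⟨h11, h12, -, h22⟩ := hA
    have hH : ∀ {κ κ' : Type} (w : Matrix κ (Unit ⊕ Unit) F) (w' : Matrix κ' (Unit ⊕ Unit) F) (i : κ) (j : κ'), (w * H2 F * w'ᵀ) i j =
        w i (Sum.inr ()) * w' j (Sum.inl ()) +
          (w i (Sum.inl ()) + w i (Sum.inr ())) * w' j (Sum.inr ()) := by
      intro κ κ' w w' i j
      simp [Matrix.mul_apply, Fintype.sum_sum_type]
    have hcf : ∀ i, c i (Sum.inr ()) = 0 := by
      intro i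
      have := congrFun (congrFun h22 i) i
      rw [Matrix.add_apply, diag_JJ, add_zero, hH] at this
      have hd : SA F r i i = 0 := by rcases i with i | i <;> simp [SA, Matrix.J]
      rw [hd] at this
      refine mul_self_eq_zero.mp ?_
      linear_combination this - CharTwo.add_self_eq_zero (c i (Sum.inr ()) * c i (Sum.inl ()))
    have hcc : c * H2 F * cᵀ = 0 := by
      ext i j; rw [hH, hcf, hcf]; simp
    rw [hcc, zero_add] at h22
    let D : Matrix.symplecticGroup (Fin r) F := ⟨d, SymplecticGroup.mem_iff.mpr h22⟩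
    have haef : a (Sum.inl ()) (Sum.inr ()) = 0 := by
      have := congrFun (congrFun h11 (Sum.inl ())) (Sum.inl ())
      rw [Matrix.add_apply, diag_JJ, add_zero, hH] at this
      simp at this
      refine mul_self_eq_zero.mp ?_
      linear_combination this -
        CharTwo.add_self_eq_zero (a (Sum.inl ()) (Sum.inr ()) * a (Sum.inl ()) (Sum.inl ()))
    have haff : a (Sum.inr ()) (Sum.inr ()) = 1 := by
      have := congrFun (congrFun h11 (Sum.inr ())) (Sum.inr ())
      rw [Matrix.add_apply, diag_JJ, add_zero, hH] at this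
      simp at this
      refine CharTwo.sq_injective ?_
      show _ ^ 2 = (1 : F) ^ 2
      linear_combination this -
        CharTwo.add_self_eq_zero (a (Sum.inr ()) (Sum.inr ()) * a (Sum.inr ()) (Sum.inl ()))
    have hbe : b (Sum.inl ()) = 0 := by
      let be : Matrix Unit (Fin r ⊕ Fin r) F := Matrix.of fun _ => b (Sum.inl ())
      have hb0 : be = 0 := mulJ_eq_zero D (by
        ext u i
        have := congrFun (congrFun h12 (Sum.inl ())) i
        rw [Matrix.add_apply, hH, haef, hcf] at this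
        simpa [be, Matrix.mul_apply] using this)
      exact congrFun hb0 ()
    have haee : a (Sum.inl ()) (Sum.inl ()) = 1 := by
      have := congrFun (congrFun h11 (Sum.inl ())) (Sum.inr ())
      rw [Matrix.add_apply, hH, haef, haff] at this
      simpa [Matrix.mul_apply, hbe] using this
    have hce : ∀ i, c i (Sum.inl ()) = ((d * SA F r) *ᵥ b (Sum.inr ())) i := by
      intro i
      have := congrFun (congrFun h12 (Sum.inr ())) i
      rw [Matrix.add_apply, hH, haff, hcf, hdot d _ b _ i rfl, Matrix.zero_apply, mul_zero, add_zero, one_mul] at this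
      exact CharTwo.add_eq_zero.mp this
    refine ⟨⟨⟨a (Sum.inr ()) (Sum.inl ()), b (Sum.inr ())⟩, D⟩, Subtype.ext ?_⟩
    show Matrix.fromBlocks _ _ _ d = A
    conv_rhs => rw [← Matrix.fromBlocks_toBlocks A]
    congr 1
    · ext u v
      rcases u with u | u <;> rcases v with v | v <;> simp [aI, ← ha', haef, haff, haee]
    · ext u j
      rcases u with u | u <;> simp [bI, ← hb', hbe]
    · ext i u
      rcases u with u | u <;> simp [cI, ← hc', hcf, hce, D]
  · rw [Nat.card_prod, Nat.card_prod, Nat.card_fun, Nat.card_eq_fintype_card (α := F),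
      Nat.card_eq_fintype_card (α := Fin r ⊕ Fin r), Fintype.card_sum, Fintype.card_fin]
    ring

end Count

end Cfsg.Agent.Lib.Jordan.SymmTwo
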