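import Cfsg.Agent.Lib.Jordan.UnitaryCentralizer
import Cfsg.Agent.Lib.Jordan.Symplectic
import Cfsg.Agent.Lib.AutPSL.Congruence

/-!
Conjugacy classes of unipotent elements of symplectic groups in odd characteristic.

For a unipotent Jordan matrix `J` the alternating forms fixed by `J` are classified up to the centraliser
of `J` by the forms they induce on the leading spaces: these are symmetric for even block sizes and
alternating for odd ones.
-/

set_option autoImplicit false
set_option linter.unusedSectionVars false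

namespace Cfsg.Agent.Lib.Jordan.SpC

open Matrix Cfsg.Agent.Lib.Jordan

universe u
variable {F : Type u} [Field F] [Fintype F] {t : ℕ} (d : Fin t → ℕ)

/-- A form is fixed by the Jordan matrix. -/
def Inv (X : Matrix (Idx d) (Idx d) F) : Prop :=
  (Cfsg.jordanTypeMatrix d F)ᵀ * X * Cfsg.jordanTypeMatrix d F = X

/-- The inverse of the Jordan matrix. -/
noncomputable def ji (F : Type u) [Field F] : Matrix (Idx d) (Idx d) F := (Cfsg.jordanTypeMatrix d F)⁻¹

/-- The top vector of a block. -/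
def top (F : Type u) [Field F] (k : Fin t) : Idx d → F := fun x => if x.1 = k ∧ (x.2 : ℕ) = 0 then 1 else 0

variable {d}

theorem npow_mulVec (a : ℕ) (v : Idx d → F) (l : Fin t) (i : Fin (d l)) :
    ((nmat d F) ^ a *ᵥ v) ⟨l, i⟩ =
      if a ≤ (i : ℕ) then v ⟨l, ⟨(i : ℕ) - a, lt_of_le_of_lt (Nat.sub_le _ _) i.2⟩⟩ else 0 := by
  induction a generalizing i with
  | zero => simp
  | succ a ih =>
    rw [pow_succ', ← Matrix.mulVec_mulVec, nmat_mulVec]
    by_cases h0 : (i : ℕ) = 0
    · rw [dif_pos h0, if_neg (by omega)]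
    · rw [dif_neg h0, ih]
      by_cases ha : a + 1 ≤ (i : ℕ)
      · rw [if_pos (show a ≤ (i : ℕ) - 1 by omega), if_pos ha]
        exact congrArg v (Sigma.ext rfl (heq_of_eq (Fin.ext (by simp; omega))))
      · rw [if_neg (show ¬ a ≤ (i : ℕ) - 1 by omega), if_neg ha]

theorem single_eq (k : Fin t) (s : Fin (d k)) :
    (Pi.single (⟨k, s⟩ : Idx d) (1 : F) : Idx d → F) = (nmat d F) ^ (s : ℕ) *ᵥ top d F k := by
  funext ⟨l, i⟩
  rw [npow_mulVec, Pi.single_apply]
  simp only [top]
  by_cases h : l = k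
  · subst h
    simp only [Sigma.mk.injEq, heq_eq_eq, true_and, Fin.ext_iff]
    split_ifs <;> first | rfl | (exfalso; omega)
  · rw [if_neg (fun e => h (congrArg Sigma.fst e))]
    simp [h]

theorem npow_top_eq_zero (k : Fin t) {a : ℕ} (ha : d k ≤ a) : (nmat d F) ^ a *ᵥ top d F k = 0 := by
  funext ⟨l, i⟩
  rw [npow_mulVec]
  simp only [top, Pi.zero_apply]
  by_cases h : l = k
  · subst h
    have := i.2
    rw [if_neg (by omega)]
  · simp [h]

theorem col_eq (A : Matrix (Idx d) (Idx d) F) (v : Idx d → F) :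
    A *ᵥ v = ∑ x : Idx d, (A *ᵥ v) x • ((nmat d F) ^ (x.2 : ℕ) *ᵥ top d F x.1) := by
  conv_lhs => rw [pi_eq_sum_univ' (A *ᵥ v)]
  refine Finset.sum_congr rfl fun x _ => ?_
  rw [← single_eq x.1 x.2]

theorem bf_comp (P X Q : Matrix (Idx d) (Idx d) F) (u v : Idx d → F) :
    Matrix.toBilin' (Pᵀ * X * Q) u v = Matrix.toBilin' X (P *ᵥ u) (Q *ᵥ v) := by
  rw [Matrix.toBilin'_apply', Matrix.toBilin'_apply', ← Matrix.mulVec_mulVec, ← Matrix.mulVec_mulVec,
    Matrix.dotProduct_mulVec, Matrix.vecMul_transpose]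

theorem bf_transpose (X : Matrix (Idx d) (Idx d) F) (u v : Idx d → F) :
    Matrix.toBilin' Xᵀ u v = Matrix.toBilin' X v u := by
  rw [Matrix.toBilin'_apply', Matrix.toBilin'_apply', Matrix.dotProduct_mulVec, Matrix.vecMul_transpose,
    dotProduct_comm]

variable (hd : ∀ k, 1 ≤ d k)

include hd in
theorem det_jordan : IsUnit (Cfsg.jordanTypeMatrix d F).det := by
  have h := (mtype_jordan (F := F) d hd).isNilpotent.isUnit_one_add
  rw [add_sub_cancel] at h
  exact (Matrix.isUnit_iff_isUnit_det _).mp h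

include hd in
theorem jordan_ji : Cfsg.jordanTypeMatrix d F * ji d F = 1 := Matrix.mul_nonsing_inv _ (det_jordan hd)

include hd in
theorem ji_jordan : ji d F * Cfsg.jordanTypeMatrix d F = 1 := Matrix.nonsing_inv_mul _ (det_jordan hd)

include hd in
theorem commute_ji : Commute (nmat d F) (ji d F) := by
  show _ * _ = _ * _
  rw [nmat, Matrix.sub_mul, Matrix.mul_sub, jordan_ji hd, ji_jordan hd, one_mul, mul_one]

theorem Inv.transpose {X : Matrix (Idx d) (Idx d) F} (h : Inv d X) : Inv d Xᵀ := by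
  show _ * _ * _ = _
  conv_rhs => rw [← (h : _ * _ * _ = X)]
  rw [Matrix.transpose_mul, Matrix.transpose_mul, Matrix.transpose_transpose, mul_assoc]

include hd in
theorem nmat_transpose_mul {X : Matrix (Idx d) (Idx d) F} (h : Inv d X) :
    (nmat d F)ᵀ * X = X * -(nmat d F * ji d F) := by
  have h' : (Cfsg.jordanTypeMatrix d F)ᵀ * X = X * ji d F := by
    calc (Cfsg.jordanTypeMatrix d F)ᵀ * X
        = (Cfsg.jordanTypeMatrix d F)ᵀ * X * Cfsg.jordanTypeMatrix d F * ji d F := by
          rw [mul_assoc _ _ (ji d F), jordan_ji hd, mul_one]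
      _ = X * ji d F := by rw [(h : _ * _ * _ = X)]
  have e : nmat d F * ji d F = 1 - ji d F := by rw [nmat, Matrix.sub_mul, jordan_ji hd, one_mul]
  rw [e, neg_sub, Matrix.mul_sub, mul_one, nmat, Matrix.transpose_sub, Matrix.transpose_one, Matrix.sub_mul, h', one_mul]

include hd in
theorem bf_npow {X : Matrix (Idx d) (Idx d) F} (h : Inv d X) (a : ℕ) (u v : Idx d → F) :
    Matrix.toBilin' X ((nmat d F) ^ a *ᵥ u) v =
      (-1) ^ a * Matrix.toBilin' X u ((ji d F) ^ a *ᵥ ((nmat d F) ^ a *ᵥ v)) := by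
  have h1 : SemiconjBy X (-(nmat d F * ji d F)) (nmat d F)ᵀ := (nmat_transpose_mul hd h).symm
  have e := (h1.pow_right a).eq
  have key : Matrix.toBilin' (((nmat d F)ᵀ) ^ a * X * 1) u v =
      Matrix.toBilin' ((1 : Matrix (Idx d) (Idx d) F)ᵀ * X * (-(nmat d F * ji d F)) ^ a) u v := by
    rw [mul_one, Matrix.transpose_one, one_mul, e]
  rw [← Matrix.transpose_pow, bf_comp, bf_comp, Matrix.one_mulVec, Matrix.one_mulVec] at key
  rw [key, neg_pow, (commute_ji hd).mul_pow, ← (commute_ji hd).pow_pow a a |>.eq.symm]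
  rw [show ((-1 : Matrix (Idx d) (Idx d) F)) ^ a * ((ji d F) ^ a * (nmat d F) ^ a) =
    ((-1 : F) ^ a) • ((ji d F) ^ a * (nmat d F) ^ a) by
      rw [show (-1 : Matrix (Idx d) (Idx d) F) = (-1 : F) • 1 by rw [neg_one_smul], smul_pow, one_pow, Matrix.smul_mul, one_mul]]
  rw [Matrix.smul_mulVec, map_smul, smul_eq_mul, Matrix.mulVec_mulVec]

include hd in
theorem bf_zero_right {X : Matrix (Idx d) (Idx d) F} (h : Inv d X) (a b : ℕ) (u v : Idx d → F)
    (hv : (nmat d F) ^ (a + b) *ᵥ v = 0) :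
    Matrix.toBilin' X ((nmat d F) ^ a *ᵥ u) ((nmat d F) ^ b *ᵥ v) = 0 := by
  rw [bf_npow hd h, Matrix.mulVec_mulVec v ((nmat d F) ^ a), ← pow_add, hv, Matrix.mulVec_zero, map_zero, mul_zero]

include hd in
theorem bf_zero_left {X : Matrix (Idx d) (Idx d) F} (h : Inv d X) (a b : ℕ) (u v : Idx d → F)
    (hu : (nmat d F) ^ (a + b) *ᵥ u = 0) :
    Matrix.toBilin' X ((nmat d F) ^ a *ᵥ u) ((nmat d F) ^ b *ᵥ v) = 0 := by
  rw [← bf_transpose]
  exact bf_zero_right hd h.transpose b a v u (by rwa [add_comm] at hu)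

include hd in
theorem ji_fix {v : Idx d → F} (hv : nmat d F *ᵥ v = 0) (a : ℕ) : (ji d F) ^ a *ᵥ v = v := by
  have h1 : Cfsg.jordanTypeMatrix d F *ᵥ v = v := by
    rw [nmat, Matrix.sub_mulVec, Matrix.one_mulVec, sub_eq_zero] at hv
    exact hv
  induction a with
  | zero => simp
  | succ a ih =>
    rw [pow_succ, ← Matrix.mulVec_mulVec]
    nth_rw 1 [← h1]
    rw [Matrix.mulVec_mulVec v (ji d F), ji_jordan hd, Matrix.one_mulVec, ih]

include hd in
theorem ji_head (a : ℕ) (v : Idx d → F) (l : Fin t) (i : Fin (d l)) (hi : (i : ℕ) = 0) :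
    ((ji d F) ^ a *ᵥ v) ⟨l, i⟩ = v ⟨l, i⟩ := by
  induction a generalizing v with
  | zero => simp
  | succ a ih =>
    rw [pow_succ, ← Matrix.mulVec_mulVec, ih]
    have h1 : (nmat d F *ᵥ (ji d F *ᵥ v)) ⟨l, i⟩ = 0 := by rw [nmat_mulVec, dif_pos hi]
    rw [Matrix.mulVec_mulVec, nmat, Matrix.sub_mul, jordan_ji hd, one_mul, Matrix.sub_mulVec, Matrix.one_mulVec,
      Pi.sub_apply, sub_eq_zero] at h1
    exact h1.symm

variable (d)

/-- The form on the leading space of the blocks of size `i`. -/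
noncomputable def bm (X : Matrix (Idx d) (Idx d) F) (i : UCent.Rng d) :
    Matrix (Fin (mult d i)) (Fin (mult d i)) F :=
  Matrix.of fun a b => Matrix.toBilin' X ((nmat d F) ^ ((i : ℕ) - 1) *ᵥ top d F (UCent.enum d i a).1)
    (top d F (UCent.enum d i b).1)

include hd in
/-- Equivariance of the leading forms. -/
theorem bm_comp {X : Matrix (Idx d) (Idx d) F} (h : Inv d X) (c c' : Par d → F) (i : UCent.Rng d) :
    bm d ((cmat d c)ᵀ * X * cmat d c') i = UCent.lead d c i * bm d X i * (UCent.lead d c' i)ᵀ := by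
  ext a b
  set k := (UCent.enum d i a).1 with hk
  set l := (UCent.enum d i b).1 with hl
  have hdk : d k = i := (UCent.enum d i a).2
  have hdl : d l = i := (UCent.enum d i b).2
  have hcol : ∀ (e : Par d → F) (k : Fin t) (x : Idx d), (cmat d e *ᵥ top d F k) x = cext d e k x := by
    intro e k x
    obtain ⟨y, j⟩ := x
    rw [Matrix.mulVec, dotProduct, Finset.sum_eq_single (⟨k, ⟨0, hd k⟩⟩ : Idx d)]
    · simp [cmat, top]
    · rintro ⟨z, s⟩ _ hne
      simp only [top]
      rw [if_neg, mul_zero]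
      rintro ⟨rfl, hs⟩
      exact hne (Sigma.ext rfl (heq_of_eq (Fin.ext hs)))
    · simp
  have hN : Commute ((nmat d F) ^ ((i : ℕ) - 1)) (cmat d c) :=
    ((show Commute (cmat d c) (nmat d F) from cmat_commute d c).pow_right _).symm
  let T : Idx d → Idx d → F := fun x y => cext d c k x * cext d c' l y *
    Matrix.toBilin' X ((nmat d F) ^ ((i : ℕ) - 1 + (x.2 : ℕ)) *ᵥ top d F x.1) ((nmat d F) ^ (y.2 : ℕ) *ᵥ top d F y.1)
  have h1 : bm d ((cmat d c)ᵀ * X * cmat d c') i a b = ∑ x, ∑ y, T x y := by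
    show Matrix.toBilin' ((cmat d c)ᵀ * X * cmat d c') ((nmat d F) ^ ((i : ℕ) - 1) *ᵥ top d F k) (top d F l) = _
    rw [bf_comp, Matrix.mulVec_mulVec, ← hN.eq, ← Matrix.mulVec_mulVec, col_eq (cmat d c), col_eq (cmat d c')]
    simp only [Matrix.mulVec_sum, Matrix.mulVec_smul, map_sum, map_smul, LinearMap.sum_apply,
      LinearMap.smul_apply, smul_eq_mul, hcol, Matrix.mulVec_mulVec, ← pow_add, T]
    rw [Finset.sum_comm]
    exact Finset.sum_congr rfl fun x _ => by
      rw [Finset.mul_sum]; exact Finset.sum_congr rfl fun y _ => by ring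
  let ε : Fin (mult d i) → Idx d := fun a => ⟨(UCent.enum d i a).1, ⟨0, hd _⟩⟩
  have hε : Function.Injective ε := fun a b hab =>
    (UCent.enum d i).injective (Subtype.ext (congrArg Sigma.fst hab))
  have hzero : ∀ x y, T x y ≠ 0 → (x.2 : ℕ) = 0 ∧ d x.1 = i ∧ (y.2 : ℕ) = 0 ∧ d y.1 = i := by
    rintro ⟨x, s⟩ ⟨y, r⟩ hne
    simp only [T] at hne
    have hs : d x ≤ (s : ℕ) + i := by
      by_contra hs
      rw [show cext d c k ⟨x, s⟩ = 0 by rw [cext, dif_neg]; simp only; omega] at hne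
      simp at hne
    have hr : d y ≤ (r : ℕ) + i := by
      by_contra hr
      rw [show cext d c' l ⟨y, r⟩ = 0 by rw [cext, dif_neg]; simp only; omega] at hne
      simp at hne
    have hi1 : 1 ≤ (i : ℕ) := hdk ▸ hd k
    have hX : (i : ℕ) - 1 + (s : ℕ) + (r : ℕ) < d x := by
      by_contra hc
      rw [bf_zero_left hd h _ _ _ _ (npow_top_eq_zero x (by omega))] at hne
      simp at hne
    have hY : (i : ℕ) - 1 + (s : ℕ) + (r : ℕ) < d y := by
      by_contra hc
      rw [bf_zero_right hd h _ _ _ _ (npow_top_eq_zero y (by omega))] at hne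
      simp at hne
    exact ⟨by simp only; omega, by simp only; omega, by simp only; omega, by simp only; omega⟩
  have houtside : ∀ x : Idx d, x ∉ Set.range ε → ¬ ((x.2 : ℕ) = 0 ∧ d x.1 = i) := by
    rintro ⟨x, s⟩ hx ⟨h1, h2⟩
    refine hx ⟨(UCent.enum d i).symm ⟨x, h2⟩, ?_⟩
    simp only [ε]
    rw [Equiv.apply_symm_apply]
    exact Sigma.ext rfl (heq_of_eq (Fin.ext h1.symm))
  have h2 : ∑ x, ∑ y, T x y = ∑ a', ∑ b', T (ε a') (ε b') := by
    refine (Fintype.sum_of_injective ε hε (fun a' => ∑ b', T (ε a') (ε b')) (fun x => ∑ y, T x y) ?_ ?_).symm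
    · intro x hx
      refine Finset.sum_eq_zero fun y _ => ?_
      by_contra hne
      exact houtside x hx ⟨(hzero x y hne).1, (hzero x y hne).2.1⟩
    · intro a'
      refine Fintype.sum_of_injective ε hε _ _ (fun y hy => ?_) (fun b' => rfl)
      by_contra hne
      exact houtside y hy ⟨(hzero _ y hne).2.2.1, (hzero _ y hne).2.2.2⟩
  have hlead : ∀ (e : Par d → F) (a a' : Fin (mult d i)),
      cext d e (UCent.enum d i a).1 (ε a') = UCent.lead d e i a a' := by
    intro e a a'
    show _ = mlead d e _ _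
    have ha := (UCent.enum d i a).2
    have ha' := (UCent.enum d i a').2
    simp only [mlead, Matrix.of_apply]
    rw [dif_pos ⟨by omega, hd _⟩]
    exact congrArg _ (Sigma.ext rfl (heq_of_eq (Fin.ext (by simp [ε]; omega))))
  rw [h1, h2, Matrix.mul_apply]
  simp only [Matrix.mul_apply, Finset.sum_mul, Matrix.transpose_apply]
  rw [Finset.sum_comm]
  refine Finset.sum_congr rfl fun b' _ => Finset.sum_congr rfl fun a' _ => ?_
  simp only [T]
  rw [hk, hl, hlead, hlead]
  simp only [ε, bm, Matrix.of_apply, add_zero, pow_zero, Matrix.one_mulVec]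
  ring

include hd in
theorem bm_transpose {X : Matrix (Idx d) (Idx d) F} (h : Inv d X) (i : UCent.Rng d) :
    bm d Xᵀ i = (-1 : F) ^ ((i : ℕ) - 1) • (bm d X i)ᵀ := by
  ext a b
  show Matrix.toBilin' Xᵀ ((nmat d F) ^ ((i : ℕ) - 1) *ᵥ top d F (UCent.enum d i a).1) (top d F (UCent.enum d i b).1) =
    (-1 : F) ^ ((i : ℕ) - 1) * Matrix.toBilin' X ((nmat d F) ^ ((i : ℕ) - 1) *ᵥ top d F (UCent.enum d i b).1)
      (top d F (UCent.enum d i a).1)
  have ha := (UCent.enum d i a).2
  have := hd (UCent.enum d i a).1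
  rw [bf_transpose, bf_npow hd h, ← mul_assoc, ← mul_pow, neg_mul_neg, one_mul, one_pow, one_mul, ji_fix hd]
  rw [Matrix.mulVec_mulVec, ← pow_succ']
  exact npow_top_eq_zero _ (by omega)

theorem bm_add (X Y : Matrix (Idx d) (Idx d) F) (i : UCent.Rng d) : bm d (X + Y) i = bm d X i + bm d Y i := by
  ext a b; simp [bm, map_add]

theorem bm_smul (c : F) (X : Matrix (Idx d) (Idx d) F) (i : UCent.Rng d) : bm d (c • X) i = c • bm d X i := by
  ext a b; simp [bm, map_smul]

theorem bm_neg (X : Matrix (Idx d) (Idx d) F) (i : UCent.Rng d) : bm d (-X) i = -bm d X i := by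
  rw [← neg_one_smul F X, bm_smul, neg_one_smul]

include hd in
/-- A nondegenerate invariant form has nondegenerate leading forms. -/
theorem bm_det {X : Matrix (Idx d) (Idx d) F} (h : Inv d X) (hX : X.det ≠ 0) (i : UCent.Rng d) :
    (bm d X i).det ≠ 0 := by
  intro h0
  obtain ⟨v, hv, hv0⟩ := Matrix.exists_vecMul_eq_zero_iff.mpr h0
  set w : Idx d → F := ∑ a, v a • ((nmat d F) ^ ((i : ℕ) - 1) *ᵥ top d F (UCent.enum d i a).1) with hw
  let f : Fin t → F := fun l => Matrix.toBilin' X w (top d F l)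
  have hwt : ∀ (l : Fin t) (s : ℕ), (1 ≤ s ∨ d l ≤ i) → Matrix.toBilin' X w ((nmat d F) ^ s *ᵥ top d F l) = 0 := by
    intro l s hs
    rw [hw, map_sum, LinearMap.sum_apply]
    by_cases hcase : 1 ≤ s
    · refine Finset.sum_eq_zero fun a _ => ?_
      have := (UCent.enum d i a).2
      rw [map_smul, LinearMap.smul_apply, bf_zero_left hd h _ _ _ _ (npow_top_eq_zero _ (by omega)), smul_zero]
    · obtain rfl : s = 0 := by omega
      rcases lt_or_eq_of_le (hs.resolve_left hcase) with hlt | heq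
      · refine Finset.sum_eq_zero fun a _ => ?_
        rw [map_smul, LinearMap.smul_apply, bf_zero_right hd h _ _ _ _ (npow_top_eq_zero _ (by omega)), smul_zero]
      · have := congrFun hv0 ((UCent.enum d i).symm ⟨l, heq⟩)
        simp only [Matrix.vecMul, dotProduct, bm, Matrix.of_apply, Equiv.apply_symm_apply, Pi.zero_apply] at this
        simpa [map_smul, LinearMap.smul_apply, Matrix.one_mulVec] using this
  let f0 : Idx d → F := fun x => if (i : ℕ) < d x.1 ∧ (x.2 : ℕ) = i then (-1) ^ (i : ℕ) * f x.1 else 0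
  set z0 := f0 ᵥ* X⁻¹ with hz0
  have hz : ∀ y, Matrix.toBilin' X z0 y = f0 ⬝ᵥ y := by
    intro y
    rw [Matrix.toBilin'_apply', hz0, Matrix.dotProduct_mulVec, Matrix.vecMul_vecMul,
      Matrix.nonsing_inv_mul _ (isUnit_iff_ne_zero.mpr hX), Matrix.vecMul_one]
  have hkey : ∀ (l : Fin t) (s : Fin (d l)),
      Matrix.toBilin' X ((nmat d F) ^ (i : ℕ) *ᵥ z0) ((nmat d F) ^ (s : ℕ) *ᵥ top d F l) =
      Matrix.toBilin' X w ((nmat d F) ^ (s : ℕ) *ᵥ top d F l) := by
    intro l s
    have hcomm : (ji d F) ^ (i : ℕ) * (nmat d F) ^ ((i : ℕ) + s) = (nmat d F) ^ ((i : ℕ) + s) * (ji d F) ^ (i : ℕ) :=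
      ((commute_ji hd).pow_pow _ _).symm.eq
    rw [bf_npow hd h, hz, Matrix.mulVec_mulVec (top d F l), ← pow_add, Matrix.mulVec_mulVec, hcomm,
      ← Matrix.mulVec_mulVec]
    by_cases hs : (s : ℕ) = 0 ∧ (i : ℕ) < d l
    · rw [dotProduct, Finset.sum_eq_single (⟨l, ⟨i, hs.2⟩⟩ : Idx d)]
      · rw [npow_mulVec, if_pos (by simp [hs.1]), ji_head hd _ _ _ _ (by simp [hs.1])]
        simp only [f0, top]
        rw [if_pos ⟨hs.2, trivial⟩, if_pos ⟨trivial, by simp [hs.1]⟩, mul_one, ← mul_assoc, ← mul_pow, neg_mul_neg,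
          one_mul, one_pow, one_mul, hs.1, pow_zero, Matrix.one_mulVec]
      · rintro ⟨x, r⟩ _ hne
        simp only [f0]
        split_ifs with hc
        · rw [npow_mulVec, if_pos (by omega), ji_head hd _ _ _ _ (by simp; omega)]
          simp only [top]
          rw [if_neg, mul_zero]
          rintro ⟨rfl, -⟩
          exact hne (Sigma.ext rfl (heq_of_eq (Fin.ext hc.2)))
        · rw [zero_mul]
      · simp
    · rw [hwt l s (by omega), dotProduct, Finset.sum_eq_zero, mul_zero]
      rintro ⟨x, r⟩ _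
      simp only [f0]
      split_ifs with hc
      · by_cases hs0 : (s : ℕ) = 0
        · rw [npow_mulVec, if_pos (by omega), ji_head hd _ _ _ _ (by simp; omega)]
          simp only [top]
          rw [if_neg, mul_zero]
          rintro ⟨rfl, -⟩
          exact hs ⟨hs0, hc.1⟩
        · rw [npow_mulVec, if_neg (by omega), mul_zero]
      · rw [zero_mul]
  have heq : (nmat d F) ^ (i : ℕ) *ᵥ z0 = w := by
    refine sub_eq_zero.mp (AutPSL.bilin_nondeg hX fun y => ?_)
    rw [pi_eq_sum_univ' y, map_sum]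
    refine Finset.sum_eq_zero fun x _ => ?_
    obtain ⟨l, s⟩ := x
    rw [map_smul, map_sub, LinearMap.sub_apply, single_eq, hkey, sub_self, smul_zero]
  refine hv (funext fun a => ?_)
  have ha := (UCent.enum d i a).2
  have hk1 := hd (UCent.enum d i a).1
  have h3 := congrFun heq ⟨(UCent.enum d i a).1, ⟨(i : ℕ) - 1, by omega⟩⟩
  rw [npow_mulVec, if_neg (by simp; omega), hw, Finset.sum_apply, Finset.sum_eq_single a] at h3
  · rw [Pi.smul_apply, npow_mulVec, if_pos le_rfl] at h3
    simpa [top] using h3.symm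
  · intro b _ hb
    rw [Pi.smul_apply, npow_mulVec, if_pos le_rfl]
    simp only [top]
    rw [if_neg, smul_zero]
    rintro ⟨e, -⟩
    exact hb ((UCent.enum d i).injective (Subtype.ext e.symm))
  · simp

/-! ### Congruence under the centraliser -/

theorem Inv.mul {X : Matrix (Idx d) (Idx d) F} (h : Inv d X) (A B : Matrix (Idx d) (Idx d) F)
    (hA : Commute A (Cfsg.jordanTypeMatrix d F)) (hB : Commute B (Cfsg.jordanTypeMatrix d F)) :
    Inv d (Aᵀ * X * B) := by
  show _ = _
  calc (Cfsg.jordanTypeMatrix d F)ᵀ * (Aᵀ * X * B) * Cfsg.jordanTypeMatrix d F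
      = (A * Cfsg.jordanTypeMatrix d F)ᵀ * X * (B * Cfsg.jordanTypeMatrix d F) := by
        rw [Matrix.transpose_mul]; simp only [mul_assoc]
    _ = Aᵀ * ((Cfsg.jordanTypeMatrix d F)ᵀ * X * Cfsg.jordanTypeMatrix d F) * B := by
        rw [hA.eq, hB.eq, Matrix.transpose_mul]; simp only [mul_assoc]
    _ = _ := by rw [(h : _ * _ * _ = X)]

theorem commute_jordan (c : Par d → F) : Commute (cmat d c) (Cfsg.jordanTypeMatrix d F) := by
  have := (Commute.one_right (cmat d c)).add_right (cmat_commute d c : Commute (cmat d c) (nmat d F))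
  rwa [nmat, add_sub_cancel] at this

theorem exists_par {A : Matrix (Idx d) (Idx d) F} (hA : Commute A (Cfsg.jordanTypeMatrix d F)) :
    ∃ c, cmat d c = A := by
  have h : A * nmat d F = nmat d F * A := (hA.sub_right (Commute.one_right A)).eq
  exact ⟨(commEquiv d).symm ⟨A, h⟩, congrArg Subtype.val ((commEquiv d).apply_symm_apply ⟨A, h⟩)⟩

theorem cmat_injective : Function.Injective (cmat (F := F) d) :=
  fun a b h => (commEquiv d).injective (Subtype.ext h)

include hd in
/-- The quotient of two invariant forms commutes with the Jordan matrix. -/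
theorem exists_quot {X Y : Matrix (Idx d) (Idx d) F} (hX : Inv d X) (hY : Inv d Y) (hd0 : X.det ≠ 0) :
    ∃ c, X * cmat d c = Y := by
  have hXu : IsUnit X.det := isUnit_iff_ne_zero.mpr hd0
  have hA : Commute (X⁻¹ * Y) (Cfsg.jordanTypeMatrix d F) := by
    have key : ∀ Z, Inv d Z → Z * Cfsg.jordanTypeMatrix d F = (ji d F)ᵀ * Z := fun Z hZ => by
      calc Z * Cfsg.jordanTypeMatrix d F
          = (Cfsg.jordanTypeMatrix d F * ji d F)ᵀ * Z * Cfsg.jordanTypeMatrix d F := by
            rw [jordan_ji hd, Matrix.transpose_one, one_mul]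
        _ = (ji d F)ᵀ * ((Cfsg.jordanTypeMatrix d F)ᵀ * Z * Cfsg.jordanTypeMatrix d F) := by
            rw [Matrix.transpose_mul]; simp only [mul_assoc]
        _ = _ := by rw [(hZ : _ * _ * _ = Z)]
    show _ * _ = _ * _
    calc X⁻¹ * Y * Cfsg.jordanTypeMatrix d F = X⁻¹ * ((ji d F)ᵀ * X) * (X⁻¹ * Y) := by
          rw [mul_assoc X⁻¹ Y, key Y hY]
          simp only [mul_assoc, Matrix.mul_nonsing_inv_cancel_left _ _ hXu]
      _ = X⁻¹ * (X * Cfsg.jordanTypeMatrix d F) * (X⁻¹ * Y) := by rw [key X hX]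
      _ = _ := by rw [Matrix.nonsing_inv_mul_cancel_left _ _ hXu]
  obtain ⟨c, hc⟩ := exists_par d hA
  exact ⟨c, by rw [hc, Matrix.mul_nonsing_inv_cancel_left _ _ hXu]⟩

include hd in
theorem bm_mul_right {X : Matrix (Idx d) (Idx d) F} (h : Inv d X) (c : Par d → F) (i : UCent.Rng d) :
    bm d (X * cmat d c) i = bm d X i * (UCent.lead d c i)ᵀ := by
  obtain ⟨o, ho⟩ := exists_par d (Commute.one_left (Cfsg.jordanTypeMatrix d F))
  have h1 : X * cmat d c = (cmat d o)ᵀ * X * cmat d c := by rw [ho, Matrix.transpose_one, one_mul]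
  have h2 : UCent.lead d o i = 1 := by
    ext a b
    show mlead d o _ _ = _
    obtain ⟨k, hk⟩ : ∃ k, k = UCent.enum d i a := ⟨_, rfl⟩
    obtain ⟨l, hl⟩ : ∃ l, l = UCent.enum d i b := ⟨_, rfl⟩
    rw [← hk, ← hl]
    have e : d l.1 = d k.1 := l.2.trans k.2.symm
    rw [← UCent.cmat_diag d o l.1 k.1 e ⟨0, hd _⟩ ⟨0, hd _⟩ rfl, ho, Matrix.one_apply, Matrix.one_apply]
    by_cases hab : a = b
    · subst hab
      obtain rfl : k = l := hk.trans hl.symm
      rw [if_pos rfl, if_pos rfl]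
    · rw [if_neg hab, if_neg]
      intro hc
      have : l.1 = k.1 := congrArg Sigma.fst hc
      exact hab ((UCent.enum d i).injective (hk.symm.trans ((Subtype.ext this.symm : k = l).trans hl)))
  rw [h1, bm_comp d hd h, h2, one_mul]

include hd in
/-- Forms with equal leading parts are congruent. -/
theorem congr_of_bm_eq (p : ℕ) [Fact p.Prime] [CharP F p] (hp : p ≠ 2) {X Y : Matrix (Idx d) (Idx d) F}
    (hXs : Xᵀ = -X) (hYs : Yᵀ = -Y) (hX : Inv d X) (hY : Inv d Y) (hd0 : X.det ≠ 0)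
    (hb : ∀ i, bm d X i = bm d Y i) :
    ∃ A : Matrix (Idx d) (Idx d) F, Commute A (Cfsg.jordanTypeMatrix d F) ∧ IsUnit A ∧ Aᵀ * X * A = Y := by
  classical
  obtain ⟨h, rfl⟩ := exists_quot d hd hX hY hd0
  have hlead : ∀ i, UCent.lead d h i = 1 := by
    intro i
    have h1 := bm_mul_right d hd hX h i
    rw [← hb] at h1
    have h2 : bm d X i * 1 = bm d X i * (UCent.lead d h i)ᵀ := by rw [mul_one]; exact h1
    have h3 := ((Matrix.isUnit_iff_isUnit_det _).mpr (isUnit_iff_ne_zero.mpr (bm_det d hd hX hd0 i))).mul_left_cancel h2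
    rw [← Matrix.transpose_transpose (UCent.lead d h i), ← h3, Matrix.transpose_one]
  -- the group of elements of the commutant with trivial leading part
  have hmul : ∀ a b : Par d → F, ∀ c, cmat d c = cmat d a * cmat d b → ∀ i,
      UCent.lead d c i = UCent.lead d b i * UCent.lead d a i := by
    intro a b c hc i
    have h1 := bm_mul_right d hd hX c i
    have hXa : Inv d (X * cmat d a) := by
      have := hX.mul d 1 (cmat d a) (Commute.one_left _) (commute_jordan d a)
      rwa [Matrix.transpose_one, one_mul] at this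
    rw [hc, ← mul_assoc, bm_mul_right d hd hXa, bm_mul_right d hd hX, mul_assoc, ← Matrix.transpose_mul] at h1
    have h3 := ((Matrix.isUnit_iff_isUnit_det _).mpr (isUnit_iff_ne_zero.mpr (bm_det d hd hX hd0 i))).mul_left_cancel h1
    exact (Matrix.transpose_injective h3).symm
  let U : Submonoid (GL (Idx d) F) :=
    { carrier := {g | ∃ c, cmat d c = (g : Matrix (Idx d) (Idx d) F) ∧ ∀ i, UCent.lead d c i = 1}
      one_mem' := by
        obtain ⟨o, ho⟩ := exists_par d (Commute.one_left (Cfsg.jordanTypeMatrix d F))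
        refine ⟨o, ho, fun i => ?_⟩
        have h1 := bm_mul_right d hd hX o i
        rw [ho, mul_one] at h1
        have h2 : bm d X i * 1 = bm d X i * (UCent.lead d o i)ᵀ := by rw [mul_one]; exact h1
        have h3 := ((Matrix.isUnit_iff_isUnit_det _).mpr (isUnit_iff_ne_zero.mpr (bm_det d hd hX hd0 i))).mul_left_cancel h2
        rw [← Matrix.transpose_transpose (UCent.lead d o i), ← h3, Matrix.transpose_one]
      mul_mem' := by
        rintro g g' ⟨a, ha, ha'⟩ ⟨b, hb', hb''⟩
        obtain ⟨c, hc⟩ := exists_par d ((commute_jordan d a).mul_left (commute_jordan d b))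
        refine ⟨c, by rw [hc, ha, hb', Units.val_mul], fun i => ?_⟩
        rw [hmul a b c hc, ha', hb'', one_mul] }
  let H : Subgroup (GL (Idx d) F) :=
    { U with
      inv_mem' := fun {g} hg => by
        obtain ⟨n, hn⟩ := (isOfFinOrder_of_finite g).mem_powers_iff_mem_zpowers.mpr (inv_mem (Subgroup.mem_zpowers g))
        show g⁻¹ ∈ U
        rw [← show g ^ n = g⁻¹ from hn]
        exact pow_mem hg n }
  have hcard : Nat.card H = Nat.card (UCent.lead (K := F) d).ker := by
    obtain ⟨o, ho, ho'⟩ := U.one_mem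
    have hunit : ∀ c, (∀ i, UCent.lead d c i = 1) → IsUnit (cmat (F := F) d c) := fun c hc =>
      (UCent.isUnit_iff_lead d hd c).mpr fun i => by rw [hc, Matrix.det_one]; exact one_ne_zero
    symm
    refine Nat.card_eq_of_bijective (fun c => ⟨(hunit (c.1 + o) fun i => by
        rw [map_add, Pi.add_apply, show UCent.lead d c.1 = 0 from c.2, Pi.zero_apply, zero_add, ho']).unit,
      c.1 + o, rfl, fun i => by
        rw [map_add, Pi.add_apply, show UCent.lead d c.1 = 0 from c.2, Pi.zero_apply, zero_add, ho']⟩) ⟨?_, ?_⟩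
    · intro a b hab
      have e := congrArg (fun x : H => ((x : GL (Idx d) F) : Matrix (Idx d) (Idx d) F)) hab
      exact Subtype.ext (add_right_cancel (cmat_injective d e))
    · rintro ⟨g, c, hc, hc'⟩
      refine ⟨⟨c - o, ?_⟩, Subtype.ext (Units.ext ?_)⟩
      · rw [AddMonoidHom.mem_ker, map_sub]
        funext i
        rw [Pi.sub_apply, hc', ho', sub_self, Pi.zero_apply]
      · show cmat d (c - o + o) = _
        rw [sub_add_cancel]; exact hc
  have hodd : Odd (Nat.card H) := by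
    obtain ⟨f, -, hf⟩ := FiniteField.card F p
    have h1 : Nat.card (UCent.lead (K := F) d).ker ∣ p ^ ((f : ℕ) * Fintype.card (Par d)) := by
      rw [pow_mul, ← hf]
      have := (UCent.lead (K := F) d).ker.card_addSubgroup_dvd_card
      rwa [Nat.card_fun, Nat.card_eq_fintype_card (α := F), Nat.card_eq_fintype_card (α := Par d)] at this
    rw [← hcard] at h1
    obtain ⟨j, -, hj⟩ := (Nat.dvd_prime_pow Fact.out).mp h1
    rw [hj]
    exact ((Fact.out : p.Prime).odd_of_ne_two hp).pow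
  obtain ⟨hu, hhu⟩ : IsUnit (cmat d h) := (UCent.isUnit_iff_lead d hd h).mpr fun i => by
    rw [hlead, Matrix.det_one]; exact one_ne_zero
  have hhH : hu ∈ H := ⟨h, hhu.symm, hlead⟩
  obtain ⟨r, hr⟩ := hodd
  have hpow : hu ^ (2 * r + 1) = 1 := by
    rw [← hr]
    exact congrArg Subtype.val (pow_card_eq_one' (x := (⟨hu, hhH⟩ : H)))
  set s : Matrix (Idx d) (Idx d) F := (cmat d h) ^ (r + 1) with hs
  have hss : s * s = cmat d h := by
    rw [hs, ← hhu, ← Units.val_pow_eq_pow_val, ← Units.val_mul, ← pow_add,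
      show r + 1 + (r + 1) = 2 * r + 1 + 1 by omega, pow_succ, hpow, one_mul]
  have hsym : SemiconjBy X (cmat d h) (cmat d h)ᵀ := by
    show X * cmat d h = (cmat d h)ᵀ * X
    have := hYs
    rw [Matrix.transpose_mul, hXs, mul_neg, neg_inj] at this
    exact this.symm
  refine ⟨s, (commute_jordan d h).pow_left _, by rw [hs, ← hhu]; exact hu.isUnit.pow _, ?_⟩
  have h2 := (hsym.pow_right (r + 1)).eq
  rw [← Matrix.transpose_pow, ← hs] at h2
  rw [← h2, mul_assoc, hss]

include hd in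
/-- Every family of forms of the right symmetry is realised, given one invariant form. -/
theorem exists_lift (h2 : (2 : F) ≠ 0) {X0 : Matrix (Idx d) (Idx d) F} (hX0 : Inv d X0) (hd0 : X0.det ≠ 0)
    (M : (i : UCent.Rng d) → Matrix (Fin (mult d i)) (Fin (mult d i)) F) (hMd : ∀ i, (M i).det ≠ 0)
    (hM : ∀ i, (M i)ᵀ = (-1 : F) ^ (i : ℕ) • M i) :
    ∃ X, Inv d X ∧ Xᵀ = -X ∧ X.det ≠ 0 ∧ ∀ i, bm d X i = M i := by
  obtain ⟨c, hc⟩ := UCent.lead_surjective (K := F) d hd (fun i => ((bm d X0 i)⁻¹ * M i)ᵀ)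
  set Y := X0 * cmat d c with hYdef
  have hY : Inv d Y := by
    have := hX0.mul d 1 (cmat d c) (Commute.one_left _) (commute_jordan d c)
    rwa [Matrix.transpose_one, one_mul] at this
  have hbY : ∀ i, bm d Y i = M i := fun i => by
    rw [hYdef, bm_mul_right d hd hX0, hc]
    rw [Matrix.transpose_transpose, ← mul_assoc,
      Matrix.mul_nonsing_inv _ (isUnit_iff_ne_zero.mpr (bm_det d hd hX0 hd0 i)), one_mul]
  have hbT : ∀ i : UCent.Rng d, bm d Yᵀ i = -M i := fun i => by
    rw [bm_transpose d hd hY, hbY, hM, smul_smul]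
    rcases Nat.eq_zero_or_pos (i : ℕ) with h0 | h0
    · ext a b
      have := (UCent.enum d i a).2
      have := hd (UCent.enum d i a).1
      omega
    · rw [← pow_add, show (i : ℕ) - 1 + (i : ℕ) = 2 * ((i : ℕ) - 1) + 1 by omega, pow_succ, pow_mul, neg_one_sq, one_pow,
        one_mul, neg_one_smul]
  set X := (2 : F)⁻¹ • (Y + -Yᵀ) with hXdef
  have hXi : Inv d X := by
    show _ * _ * _ = _
    rw [hXdef, Matrix.mul_smul, Matrix.smul_mul, Matrix.mul_add, Matrix.add_mul, Matrix.mul_neg, Matrix.neg_mul,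
      (hY : _ * _ * _ = Y), (hY.transpose : _ * _ * _ = Yᵀ)]
  have hbX : ∀ i, bm d X i = M i := fun i => by
    rw [hXdef, bm_smul, bm_add, bm_neg, hbY, hbT, neg_neg, ← two_smul F (M i), smul_smul, inv_mul_cancel₀ h2, one_smul]
  refine ⟨X, hXi, ?_, ?_, hbX⟩
  · rw [hXdef, Matrix.transpose_smul, Matrix.transpose_add, Matrix.transpose_neg, Matrix.transpose_transpose,
      ← smul_neg, neg_add, neg_neg, add_comm]
  · obtain ⟨c', hc'⟩ := exists_quot d hd hX0 hXi hd0
    rw [← hc', Matrix.det_mul]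
    refine mul_ne_zero hd0 (((Matrix.isUnit_iff_isUnit_det _).mp ((UCent.isUnit_iff_lead d hd c').mpr fun i => ?_)).ne_zero)
    have h1 := bm_mul_right d hd hX0 c' i
    rw [hc', hbX] at h1
    have h3 := hMd i
    rw [h1, Matrix.det_mul, Matrix.det_transpose] at h3
    exact right_ne_zero_of_mul h3

include hd in
theorem bm_symm {X : Matrix (Idx d) (Idx d) F} (h : Inv d X) (hXs : Xᵀ = -X) (i : UCent.Rng d) :
    (bm d X i)ᵀ = (-1 : F) ^ (i : ℕ) • bm d X i := by
  rcases Nat.eq_zero_or_pos (i : ℕ) with h0 | h0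
  · ext a b
    have := (UCent.enum d i a).2
    have := hd (UCent.enum d i a).1
    omega
  · have h1 := bm_transpose d hd h i
    rw [hXs, bm_neg] at h1
    have e : (-1 : F) ^ (i : ℕ) = (-1 : F) ^ ((i : ℕ) - 1) * (-1) := by
      rw [← pow_succ, Nat.sub_add_cancel h0]
    rw [e, mul_smul, neg_one_smul, h1, smul_smul, ← mul_pow, neg_mul_neg, one_mul, one_pow, one_smul]

include hd in
/-- The classification of the forms up to the centraliser. -/
theorem congr_iff (p : ℕ) [Fact p.Prime] [CharP F p] (hp : p ≠ 2) {X Y : Matrix (Idx d) (Idx d) F}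
    (hXs : Xᵀ = -X) (hYs : Yᵀ = -Y) (hX : Inv d X) (hY : Inv d Y) (hdX : X.det ≠ 0) (hdY : Y.det ≠ 0) :
    (∃ A : Matrix (Idx d) (Idx d) F, Commute A (Cfsg.jordanTypeMatrix d F) ∧ IsUnit A ∧ Aᵀ * X * A = Y) ↔
      ∀ i : UCent.Rng d, Even (i : ℕ) → IsSquare ((bm d X i).det * (bm d Y i).det) := by
  have h2 : (2 : F) ≠ 0 := Ring.two_ne_zero (by rw [ringChar.eq F p]; exact hp)
  constructor
  · rintro ⟨A, hA, -, rfl⟩ i -
    obtain ⟨c, rfl⟩ := exists_par d hA
    rw [bm_comp d hd hX, Matrix.det_mul, Matrix.det_mul, Matrix.det_transpose]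
    exact ⟨(bm d X i).det * (UCent.lead d c i).det, by ring⟩
  · intro hsq
    have hP : ∀ i : UCent.Rng d, AutPSL.Congr (bm d X i) (bm d Y i) := by
      intro i
      rcases Nat.even_or_odd (i : ℕ) with he | ho
      · refine AutPSL.congr_symm h2 ?_ ?_ (bm_det d hd hX hdX i) (bm_det d hd hY hdY i) (hsq i he)
        · rw [bm_symm d hd hX hXs, he.neg_one_pow, one_smul]
        · rw [bm_symm d hd hY hYs, he.neg_one_pow, one_smul]
      · have halt : ∀ {M : Matrix (Fin (mult d i)) (Fin (mult d i)) F}, Mᵀ = (-1 : F) ^ (i : ℕ) • M →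
            ∀ x, Matrix.toBilin' M x x = 0 := by
          intro M hM x
          have h := AutPSL.bilin_flip hM x x
          rw [ho.neg_one_pow, neg_one_mul, eq_neg_iff_add_eq_zero, ← two_mul] at h
          exact (mul_eq_zero.mp h).resolve_left h2
        exact AutPSL.congr_alt (bm_det d hd hX hdX i) (bm_det d hd hY hdY i) (halt (bm_symm d hd hX hXs i))
          (halt (bm_symm d hd hY hYs i))
    choose P hP using hP
    obtain ⟨c, hc⟩ := UCent.lead_surjective (K := F) d hd (fun i => (P i : Matrix _ _ F)ᵀ)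
    have hcu : IsUnit (cmat d c) := (UCent.isUnit_iff_lead d hd c).mpr fun i => by
      rw [hc, Matrix.det_transpose]; exact Matrix.GeneralLinearGroup.det_ne_zero _
    set Z := (cmat d c)ᵀ * X * cmat d c with hZ
    have hZi : Inv d Z := hX.mul d _ _ (commute_jordan d c) (commute_jordan d c)
    have hZs : Zᵀ = -Z := by
      rw [hZ, Matrix.transpose_mul, Matrix.transpose_mul, Matrix.transpose_transpose, hXs]
      simp [mul_assoc]
    have hZd : Z.det ≠ 0 := by
      rw [hZ, Matrix.det_mul, Matrix.det_mul, Matrix.det_transpose]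
      have := ((Matrix.isUnit_iff_isUnit_det _).mp hcu).ne_zero
      exact mul_ne_zero (mul_ne_zero this hdX) this
    obtain ⟨A, hA, hAu, hAZ⟩ := congr_of_bm_eq d hd p hp hZs hYs hZi hY hZd (fun i => by
      rw [hZ, bm_comp d hd hX, hc, Matrix.transpose_transpose]; exact hP i)
    exact ⟨cmat d c * A, (commute_jordan d c).mul_left hA, hcu.mul hAu, by
      rw [← hAZ, hZ, Matrix.transpose_mul]; simp only [mul_assoc]⟩

end Cfsg.Agent.Lib.Jordan.SpC
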