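import Cfsg.Agent.Lib.Forms.SympTI

/-! Involutions of symplectic groups in characteristic two as frames with a symmetric matrix. -/

set_option autoImplicit false
set_option linter.unusedSectionVars false

namespace Cfsg.Agent.Lib.Jordan.SympInvol

open Matrix Cfsg.Agent.Lib.Forms

variable {F : Type*} [Field F]

section LeftInv

variable {ι σ : Type*} [Fintype ι] [DecidableEq ι] [Fintype σ] [DecidableEq σ]

theorem exists_leftInv {U : Matrix ι σ F} (h : Function.Injective U.mulVec) : ∃ V : Matrix σ ι F, V * U = 1 := by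
  obtain ⟨g, hg⟩ := LinearMap.exists_leftInverse_of_injective (Matrix.toLin' U)
    (LinearMap.ker_eq_bot.mpr fun x y e => h (by simpa using e))
  refine ⟨LinearMap.toMatrix' g, ?_⟩
  rw [← LinearMap.toMatrix'_toLin' U, ← LinearMap.toMatrix'_comp, hg, LinearMap.toMatrix'_id]

theorem injective_of_leftInv {U : Matrix ι σ F} {V : Matrix σ ι F} (h : V * U = 1) :
    Function.Injective U.mulVec := fun x y e => by
  have := congrArg V.mulVec e
  simpa [Matrix.mulVec_mulVec, h] using this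

theorem cancel_left {α : Type*} [Fintype α] {U : Matrix ι σ F} {V : Matrix σ ι F} (h : V * U = 1)
    {A B : Matrix σ α F} (e : U * A = U * B) : A = B := by
  have := congrArg (V * ·) e
  simpa [← Matrix.mul_assoc, h] using this

end LeftInv

theorem two_zero [CharP F 2] {ι κ : Type*} (M : Matrix ι κ F) : M + M = 0 := by
  ext i j; exact CharTwo.add_self_eq_zero _

theorem neg_eq_self [CharP F 2] {ι κ : Type*} (M : Matrix ι κ F) : -M = M :=
  neg_eq_of_add_eq_zero_left (two_zero M)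

variable {m : ℕ} {σ : Type*} [Fintype σ] [DecidableEq σ]

local notation "nn" => (Fin m ⊕ Fin m)
local notation "JJ" => Matrix.J (Fin m) F
local notation "Sp" => Matrix.symplecticGroup (Fin m) F

/-- Isotropic independent columns. -/
def Frame (U : Matrix (Fin m ⊕ Fin m) σ F) : Prop :=
  Uᵀ * Matrix.J (Fin m) F * U = 0 ∧ ∃ V : Matrix σ (Fin m ⊕ Fin m) F, V * U = 1

/-- The element attached to a frame and a symmetric matrix. -/
def elt (U : Matrix (Fin m ⊕ Fin m) σ F) (S : Matrix σ σ F) :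
    Matrix (Fin m ⊕ Fin m) (Fin m ⊕ Fin m) F :=
  1 + U * S * Uᵀ * Matrix.J (Fin m) F

variable [CharP F 2]

theorem J_symm : (JJ)ᵀ = JJ := by rw [Matrix.J_transpose, neg_eq_self]

theorem J_mul_J : JJ * JJ = 1 := by rw [Matrix.J_squared, neg_eq_self]

theorem sp_inv_eq (g : Sp) : ((g⁻¹ : Sp) : Matrix nn nn F) = JJ * (g : Matrix nn nn F)ᵀ * JJ := by
  rw [SymplecticGroup.coe_inv, Matrix.neg_mul, Matrix.neg_mul, neg_eq_self]

theorem frame_mul (g : Sp) {U : Matrix nn σ F} (hU : Frame U) : Frame ((g : Matrix nn nn F) * U) := by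
  obtain ⟨h1, V, hV⟩ := hU
  refine ⟨?_, V * ((g⁻¹ : Sp) : Matrix nn nn F), ?_⟩
  · calc ((g : Matrix nn nn F) * U)ᵀ * JJ * ((g : Matrix nn nn F) * U)
        = Uᵀ * ((g : Matrix nn nn F)ᵀ * JJ * (g : Matrix nn nn F)) * U := by
          simp only [Matrix.transpose_mul, Matrix.mul_assoc]
      _ = 0 := by rw [SymplecticGroup.mem_iff'.mp g.2, h1]
  · rw [Matrix.mul_assoc, ← Matrix.mul_assoc ((g⁻¹ : Sp) : Matrix nn nn F),
      ← Submonoid.coe_mul, inv_mul_cancel, Submonoid.coe_one, Matrix.one_mul, hV]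

theorem elt_mul (g : Sp) (U : Matrix nn σ F) (S : Matrix σ σ F) :
    elt ((g : Matrix nn nn F) * U) S * (g : Matrix nn nn F) = (g : Matrix nn nn F) * elt U S := by
  rw [elt, elt, Matrix.add_mul, Matrix.mul_add, Matrix.one_mul, Matrix.mul_one, Matrix.transpose_mul]
  congr 1
  calc (g : Matrix nn nn F) * U * S * (Uᵀ * (g : Matrix nn nn F)ᵀ) * JJ * (g : Matrix nn nn F)
      = (g : Matrix nn nn F) * U * S * Uᵀ * ((g : Matrix nn nn F)ᵀ * JJ * (g : Matrix nn nn F)) := by
        simp only [Matrix.mul_assoc]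
    _ = (g : Matrix nn nn F) * (U * S * Uᵀ * JJ) := by
        rw [SymplecticGroup.mem_iff'.mp g.2]; simp only [Matrix.mul_assoc]

theorem elt_mem {U : Matrix nn σ F} (hU : Frame U) {S : Matrix σ σ F} (hS : Sᵀ = S) :
    elt U S ∈ Sp ∧ elt U S * elt U S = 1 := by
  set N := U * S * Uᵀ * JJ with hN
  have h0 : N * N = 0 := by
    rw [hN]
    calc U * S * Uᵀ * JJ * (U * S * Uᵀ * JJ) = U * S * (Uᵀ * JJ * U) * (S * Uᵀ * JJ) := by
          simp only [Matrix.mul_assoc]
      _ = 0 := by rw [hU.1, Matrix.mul_zero, Matrix.zero_mul]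
  have h1 : Nᵀ * JJ = JJ * N := by
    rw [hN]
    simp only [Matrix.transpose_mul, Matrix.transpose_transpose, J_symm, hS, Matrix.mul_assoc]
  refine ⟨SymplecticGroup.mem_iff'.mpr ?_, ?_⟩
  · rw [elt, ← hN, Matrix.transpose_add, Matrix.transpose_one, Matrix.add_mul, Matrix.one_mul, h1,
      Matrix.mul_add, Matrix.mul_one, Matrix.add_mul, Matrix.mul_assoc, h0, Matrix.mul_zero, add_zero,
      add_assoc, two_zero, add_zero]
  · rw [elt, ← hN, Matrix.add_mul, Matrix.one_mul, Matrix.mul_add, h0, add_zero, Matrix.mul_one, add_assoc,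
      two_zero, add_zero]

theorem elt_facts {U : Matrix nn σ F} (hU : Frame U) {S : Matrix σ σ F} (hS : IsUnit S.det) :
    (elt U S - 1).rank = Fintype.card σ ∧
      ((∀ v, v ⬝ᵥ JJ *ᵥ (elt U S *ᵥ v) = 0) ↔ ∀ u, u ⬝ᵥ S *ᵥ u = 0) := by
  obtain ⟨-, V, hV⟩ := hU
  have e : elt U S - 1 = U * S * Uᵀ * JJ := by rw [elt, add_sub_cancel_left]
  have hJ : IsUnit (JJ).det := Matrix.isUnit_det_J (Fin m) F
  have hVt : Uᵀ * Vᵀ = 1 := by rw [← Matrix.transpose_mul, hV, Matrix.transpose_one]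
  refine ⟨?_, ?_⟩
  · rw [e, Matrix.rank_mul_eq_left_of_isUnit_det _ _ hJ]
    refine le_antisymm ((Matrix.rank_mul_le_left _ _).trans (Matrix.rank_le_card_width _)) ?_
    have h1 : V * (U * S * Uᵀ) * Vᵀ = S := by
      calc V * (U * S * Uᵀ) * Vᵀ = (V * U) * S * (Uᵀ * Vᵀ) := by simp only [Matrix.mul_assoc]
        _ = S := by rw [hV, hVt, Matrix.one_mul, Matrix.mul_one]
    rw [← Matrix.rank_of_isUnit S ((Matrix.isUnit_iff_isUnit_det S).mpr hS)]
    conv_lhs => rw [← h1]
    exact (Matrix.rank_mul_le_left _ _).trans (Matrix.rank_mul_le_right _ _)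
  · have key : ∀ v, v ⬝ᵥ JJ *ᵥ (elt U S *ᵥ v) = (Uᵀ * JJ) *ᵥ v ⬝ᵥ S *ᵥ ((Uᵀ * JJ) *ᵥ v) := fun v => by
      rw [elt, Matrix.add_mulVec, Matrix.one_mulVec, Matrix.mulVec_add, dotProduct_add]
      rw [show v ⬝ᵥ JJ *ᵥ v = 0 by
        simp [Matrix.J, Matrix.fromBlocks_mulVec, Matrix.neg_mulVec, dotProduct, Fintype.sum_sum_type, mul_comm],
        zero_add]
      simp only [← Matrix.mulVec_mulVec]
      rw [Matrix.dotProduct_mulVec, ← Matrix.mulVec_transpose, J_symm, Matrix.dotProduct_mulVec _ U,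
        ← Matrix.mulVec_transpose]
    constructor
    · intro h u
      have := key (JJ *ᵥ (Vᵀ *ᵥ u))
      rwa [h, Matrix.mulVec_mulVec, Matrix.mulVec_mulVec, Matrix.mul_assoc Uᵀ, J_mul_J,
        Matrix.mul_one, hVt, Matrix.one_mulVec, eq_comm] at this
    · intro h v; rw [key]; exact h _

/-- Frames of the same shape are conjugate. -/
theorem exists_sp_map {U U' : Matrix nn σ F} (hU : Frame U) (hU' : Frame U') :
    ∃ g : Sp, (g : Matrix nn nn F) * U = U' := by
  classical
  let e := (Fintype.equivFin σ).symm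
  have mk : ∀ {W : Matrix nn σ F}, Frame W → ∃ u : TIFrame (Cfsg.sympForm m F) (Fintype.card σ),
      ∀ i, u.1 i = fun a => W a (e i) := by
    intro W hW
    obtain ⟨h1, V, hV⟩ := hW
    refine ⟨⟨fun i a => W a (e i), ?_, fun i j => ?_⟩, fun i => rfl⟩
    · exact ((Matrix.mulVec_injective_iff.mp (injective_of_leftInv hV)).comp e e.injective)
    · have := congrFun (congrFun h1 (e i)) (e j)
      rw [Matrix.zero_apply, Matrix.mul_assoc, Matrix.mul_apply'] at this
      exact this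
  obtain ⟨u, hu⟩ := mk hU
  obtain ⟨v, hv⟩ := mk hU'
  obtain ⟨g, hg⟩ := exists_sp_frame u v
  refine ⟨g, ?_⟩
  ext a s
  have := congrFun (hg (e.symm s)) a
  rw [hu, hv, Equiv.apply_symm_apply] at this
  exact this

theorem card_frame [Fintype F] :
    Nat.card {U : Matrix nn σ F // Frame U} =
      ∏ i ∈ Finset.range (Fintype.card σ), (Fintype.card F ^ (2 * m - i) - Fintype.card F ^ i) := by
  classical
  rw [← card_symp_frame (F := F) (m := m) (Fintype.card σ)]
  let e := (Fintype.equivFin σ).symm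
  refine Nat.card_congr
    { toFun := fun U => ⟨fun i a => U.1 a (e i), ?_, fun i j => ?_⟩
      invFun := fun u => ⟨Matrix.of fun a s => u.1 (e.symm s) a, ?_, ?_⟩
      left_inv := fun U => Subtype.ext (by ext a s; simp)
      right_inv := fun u => Subtype.ext (by funext i a; simp) }
  · obtain ⟨-, V, hV⟩ := U.2
    exact (Matrix.mulVec_injective_iff.mp (injective_of_leftInv hV)).comp e e.injective
  · have := congrFun (congrFun U.2.1 (e i)) (e j)
    rw [Matrix.zero_apply, Matrix.mul_assoc, Matrix.mul_apply'] at this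
    exact this
  · ext r s
    rw [Matrix.mul_assoc, Matrix.mul_apply']
    exact u.2.2 (e.symm r) (e.symm s)
  · refine exists_leftInv (Matrix.mulVec_injective_iff.mpr ?_)
    exact u.2.1.comp e.symm e.symm.injective

/-- The frames giving one element correspond to the isometries of the shape. -/
theorem card_fibre {U : Matrix nn σ F} (hU' : Frame U) {S : Matrix σ σ F} (hS : IsUnit S.det) :
    Nat.card {A : Matrix σ σ F // A * S * Aᵀ = S} =
      Nat.card ↥{W : Matrix nn σ F | Frame W ∧ elt W S = elt U S} := by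
  classical
  obtain ⟨hUJ, V, hV⟩ := id hU'
  have hunit : ∀ A : Matrix σ σ F, A * S * Aᵀ = S → IsUnit A.det := by
    intro A hA
    have hd := congrArg Matrix.det hA
    rw [Matrix.det_mul, Matrix.det_mul] at hd
    exact isUnit_of_mul_isUnit_left (isUnit_of_mul_isUnit_left (hd ▸ hS))
  refine Nat.card_eq_of_bijective (fun A => ⟨U * A.1, ⟨⟨?_, ?_⟩, ?_⟩⟩) ⟨?_, ?_⟩
  · calc (U * A.1)ᵀ * JJ * (U * A.1) = A.1ᵀ * (Uᵀ * JJ * U) * A.1 := by
          simp only [Matrix.transpose_mul, Matrix.mul_assoc]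
      _ = 0 := by rw [hU'.1, Matrix.mul_zero, Matrix.zero_mul]
  · refine ⟨A.1⁻¹ * V, ?_⟩
    rw [Matrix.mul_assoc, ← Matrix.mul_assoc V, hV, Matrix.one_mul, Matrix.nonsing_inv_mul _ (hunit A.1 A.2)]
  · rw [elt, elt, Matrix.transpose_mul]
    congr 1
    calc U * A.1 * S * (A.1ᵀ * Uᵀ) * JJ = U * (A.1 * S * A.1ᵀ) * Uᵀ * JJ := by simp only [Matrix.mul_assoc]
      _ = U * S * Uᵀ * JJ := by rw [A.2]
  · intro A B h
    exact Subtype.ext (cancel_left hV (congrArg Subtype.val h))
  · rintro ⟨W, ⟨hW, hWe⟩⟩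
    obtain ⟨-, V', hV'⟩ := id hW
    rw [elt, elt, add_right_inj] at hWe
    have h3 : W * S * Wᵀ = U * S * Uᵀ := by
      have := congrArg (· * JJ) hWe
      simpa [Matrix.mul_assoc, J_mul_J] using this
    have hVt' : Wᵀ * V'ᵀ = 1 := by rw [← Matrix.transpose_mul, hV', Matrix.transpose_one]
    set A := S * (Uᵀ * V'ᵀ) * S⁻¹ with hA
    have hWA : W = U * A := by
      have h4 := congrArg (fun M => M * V'ᵀ * S⁻¹) h3
      simp only [Matrix.mul_assoc W S, ← Matrix.mul_assoc _ Wᵀ] at h4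
      calc W = W * (S * (Wᵀ * V'ᵀ) * S⁻¹) := by
            rw [hVt', Matrix.mul_one, Matrix.mul_nonsing_inv _ hS, Matrix.mul_one]
        _ = (W * S * Wᵀ) * V'ᵀ * S⁻¹ := by simp only [Matrix.mul_assoc]
        _ = U * A := by rw [h3, hA]; simp only [Matrix.mul_assoc]
    refine ⟨⟨A, ?_⟩, Subtype.ext hWA.symm⟩
    refine cancel_left hV (A := A * S * Aᵀ) ?_
    rw [hWA, Matrix.transpose_mul] at h3
    have hVt : Uᵀ * Vᵀ = 1 := by rw [← Matrix.transpose_mul, hV, Matrix.transpose_one]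
    have := congrArg (· * Vᵀ) h3
    simpa [Matrix.mul_assoc, hVt] using this

/-- The orbit-stabiliser count for the centraliser. -/
theorem card_centralizer [Fintype F] {U : Matrix nn σ F} (hU : Frame U) {S : Matrix σ σ F} (hS : IsUnit S.det)
    (t : Sp) (ht : (t : Matrix nn nn F) = elt U S) :
    Nat.card (Subgroup.centralizer ({t} : Set Sp)) * Nat.card {W : Matrix nn σ F // Frame W} =
      Nat.card Sp * Nat.card {A : Matrix σ σ F // A * S * Aᵀ = S} := by
  classical
  letI act : MulAction Sp (Matrix nn σ F) :=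
    { smul := fun g W => (g : Matrix nn nn F) * W
      one_smul := fun W => Matrix.one_mul W
      mul_smul := fun g h W => Matrix.mul_assoc _ _ W }
  have horbit : MulAction.orbit Sp U = {W | Frame W} := by
    ext W
    refine ⟨?_, fun hW => exists_sp_map hU hW⟩
    rintro ⟨g, rfl⟩
    exact frame_mul g hU
  set C := Subgroup.centralizer ({t} : Set Sp) with hC
  have hCmem : ∀ g : Sp, g ∈ C ↔ elt ((g : Matrix nn nn F) * U) S = elt U S := by
    intro g
    rw [hC, Subgroup.mem_centralizer_singleton_iff, Subtype.ext_iff, Submonoid.coe_mul, Submonoid.coe_mul, ht,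
      ← elt_mul g U S]
    refine ⟨fun h => ?_, fun h => by rw [h]⟩
    have := congrArg (· * ((g⁻¹ : Sp) : Matrix nn nn F)) h
    simp only [Matrix.mul_assoc, ← Submonoid.coe_mul, mul_inv_cancel, Submonoid.coe_one, Matrix.mul_one] at this
    exact this
  have hstab : MulAction.stabilizer Sp U ≤ C := fun g hg => (hCmem g).mpr (by
    rw [show (g : Matrix nn nn F) * U = U from hg])
  have horbC : MulAction.orbit C U = {W | Frame W ∧ elt W S = elt U S} := by
    ext W
    refine ⟨?_, fun ⟨hW, hWe⟩ => ?_⟩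
    · rintro ⟨g, rfl⟩
      exact ⟨frame_mul g.1 hU, (hCmem g.1).mp g.2⟩
    · obtain ⟨g, hg⟩ := exists_sp_map hU hW
      exact ⟨⟨g, (hCmem g).mpr (by rw [hg]; exact hWe)⟩, hg⟩
  have hstabC : MulAction.stabilizer C U = (MulAction.stabilizer Sp U).subgroupOf C := rfl
  have h1 := (MulAction.stabilizer Sp U).card_mul_index
  have h2 := (MulAction.stabilizer C U).card_mul_index
  rw [MulAction.index_stabilizer, horbit, ← Nat.card_coe_set_eq] at h1
  rw [MulAction.index_stabilizer, horbC, hstabC,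
    Nat.card_congr (Subgroup.subgroupOfEquivOfLe hstab).toEquiv, ← Nat.card_coe_set_eq] at h2
  have hiso := card_fibre hU hS
  rw [hiso, ← h1, ← h2]
  simp only [Set.coe_setOf]
  ring

end Cfsg.Agent.Lib.Jordan.SympInvol
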