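import Cfsg.Agent.Lib.Jordan.SympInvol
import Cfsg.Agent.Lib.Jordan.SymmTwo

/-! Classification and centraliser orders of involutions of symplectic groups in characteristic two. -/

set_option autoImplicit false
set_option linter.unusedSectionVars false

namespace Cfsg.Agent.Lib.Jordan.SympInvol

open Matrix SymmTwo

variable {F : Type*} [Field F] [CharP F 2] {m : ℕ}

local notation "nn" => (Fin m ⊕ Fin m)
local notation "JJ" => Matrix.J (Fin m) F
local notation "Sp" => Matrix.symplecticGroup (Fin m) F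

/-- Elements of order at most two have one of three shapes. -/
theorem exists_shape [Finite F] (t : Sp) (ht : t * t = 1) :
    ∃ r : ℕ, (∃ U : Matrix nn (Fin r ⊕ Fin r) F, Frame U ∧ (t : Matrix nn nn F) = elt U (SA F r)) ∨
      (∃ U : Matrix nn (Unit ⊕ (Fin r ⊕ Fin r)) F, Frame U ∧ (t : Matrix nn nn F) = elt U (SO F r)) ∨
      (∃ U : Matrix nn ((Unit ⊕ Unit) ⊕ (Fin r ⊕ Fin r)) F, Frame U ∧
        (t : Matrix nn nn F) = elt U (SE F r)) := by
  classical
  set T := (t : Matrix nn nn F) with hT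
  have h2 : T * T = 1 := by rw [hT, ← Submonoid.coe_mul, ht, Submonoid.coe_one]
  set M := JJ * (T - 1) with hM
  have hMs : Mᵀ = M := by
    have h1 : Tᵀ * JJ * T = JJ := SymplecticGroup.mem_iff'.mp t.2
    have h3 : Tᵀ * JJ = JJ * T := by
      calc Tᵀ * JJ = Tᵀ * JJ * (T * T) := by rw [h2, Matrix.mul_one]
        _ = JJ * T := by rw [← Matrix.mul_assoc, h1]
    rw [hM, Matrix.transpose_mul, Matrix.transpose_sub, Matrix.transpose_one, J_symm, Matrix.sub_mul,
      Matrix.one_mul, h3, Matrix.mul_sub, Matrix.mul_one]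
  have hN2 : (T - 1) * (T - 1) = 0 := by
    rw [Matrix.sub_mul, Matrix.mul_sub, Matrix.mul_one, Matrix.one_mul, h2]
    rw [show (1 - T - (T - 1) : Matrix nn nn F) = (1 + 1) - (T + T) by abel, two_zero, two_zero, sub_zero]
  have key : ∀ {σ : Type} [Fintype σ] [DecidableEq σ] (S : Matrix σ σ F) (W : Matrix nn σ F)
      (V : Matrix σ nn F), IsUnit S.det → V * W = 1 → M = W * S * Wᵀ →
      Frame (JJ * W) ∧ T = elt (JJ * W) S := by
    intro σ _ _ S W V hS hV hMW
    have hN : T - 1 = (JJ * W) * S * (JJ * W)ᵀ * JJ := by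
      calc T - 1 = JJ * M := by rw [hM, ← Matrix.mul_assoc, J_mul_J, Matrix.one_mul]
        _ = JJ * W * S * Wᵀ := by rw [hMW]; simp only [Matrix.mul_assoc]
        _ = _ := by
          rw [Matrix.transpose_mul, J_symm, Matrix.mul_assoc (JJ * W * S), Matrix.mul_assoc Wᵀ, J_mul_J,
            Matrix.mul_one]
    refine ⟨⟨?_, V * JJ, ?_⟩, ?_⟩
    · set U := JJ * W with hU
      have hVU : V * JJ * U = 1 := by rw [hU, Matrix.mul_assoc V, ← Matrix.mul_assoc JJ, J_mul_J, Matrix.one_mul, hV]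
      have hVUt : Uᵀ * (V * JJ)ᵀ = 1 := by rw [← Matrix.transpose_mul, hVU, Matrix.transpose_one]
      have e : (V * JJ) * ((T - 1) * (T - 1)) * (JJ * (V * JJ)ᵀ) = S * (Uᵀ * JJ * U) * S := by
        rw [hN]
        calc (V * JJ) * (U * S * Uᵀ * JJ * (U * S * Uᵀ * JJ)) * (JJ * (V * JJ)ᵀ)
            = (V * JJ * U) * S * (Uᵀ * JJ * U) * S * (Uᵀ * (JJ * JJ) * (V * JJ)ᵀ) := by
              simp only [Matrix.mul_assoc]
          _ = S * (Uᵀ * JJ * U) * S := by rw [hVU, J_mul_J, Matrix.mul_one, hVUt, Matrix.one_mul, Matrix.mul_one]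
      rw [hN2, Matrix.mul_zero, Matrix.zero_mul] at e
      have := congrArg (fun Z => S⁻¹ * Z * S⁻¹) e
      rw [Matrix.mul_zero, Matrix.zero_mul, Matrix.mul_assoc S, ← Matrix.mul_assoc S⁻¹,
        Matrix.nonsing_inv_mul _ hS, Matrix.one_mul, Matrix.mul_assoc _ S, Matrix.mul_nonsing_inv _ hS,
        Matrix.mul_one] at this
      exact this.symm
    · rw [Matrix.mul_assoc V, ← Matrix.mul_assoc JJ, J_mul_J, Matrix.one_mul, hV]
    · rw [elt, ← hN, add_sub_cancel]
  obtain ⟨r, ⟨W, ⟨V, hV⟩, hW⟩ | ⟨W, ⟨V, hV⟩, hW⟩ | ⟨W, ⟨V, hV⟩, hW⟩⟩ := normal_form hMs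
  · exact ⟨r, Or.inl ⟨_, key _ W V (SA_det r) hV hW⟩⟩
  · exact ⟨r, Or.inr (Or.inl ⟨_, key _ W V (SO_det r) hV hW⟩)⟩
  · exact ⟨r, Or.inr (Or.inr ⟨_, key _ W V (SE_det r) hV hW⟩)⟩

theorem card_le_of_frame [Fintype F] {σ : Type} [Fintype σ] [DecidableEq σ] {U : Matrix nn σ F} (hU : Frame U) :
    Fintype.card σ ≤ m := by
  by_contra h
  haveI : Nonempty {W : Matrix nn σ F // Frame W} := ⟨⟨U, hU⟩⟩
  have h1 := Nat.card_pos (α := {W : Matrix nn σ F // Frame W})
  rw [card_frame, Finset.prod_eq_zero (Finset.mem_range.mpr (Nat.lt_of_not_le h))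
    (by rw [show 2 * m - m = m by omega, Nat.sub_self])] at h1
  exact lt_irrefl 0 h1

theorem sp_order_split (q m s : ℕ) (hs : s ≤ m) :
    q ^ (m ^ 2) * ∏ i ∈ Finset.range m, (q ^ (2 * (i + 1)) - 1) =
      q ^ (2 * m * s - (3 * s ^ 2 - s) / 2) *
        ((q : ℕ) ^ ((m - s) ^ 2) * ∏ i : Fin (m - s), (q ^ (2 * ((i : ℕ) + 1)) - 1)) *
        ∏ i ∈ Finset.range s, (q ^ (2 * m - i) - q ^ i) := by
  obtain ⟨d, rfl⟩ : ∃ d, m = d + s := ⟨m - s, by omega⟩
  rw [Nat.add_sub_cancel, Fin.prod_univ_eq_prod_range (fun i => q ^ (2 * (i + 1)) - 1)]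
  have hP : ∏ i ∈ Finset.range s, (q ^ (2 * (d + s) - i) - q ^ i) =
      q ^ (∑ i ∈ Finset.range s, i) * ∏ i ∈ Finset.range s, (q ^ (2 * (d + i + 1)) - 1) := by
    rw [← Finset.prod_pow_eq_pow_sum, ← Finset.prod_range_reflect (fun i => q ^ (2 * (d + i + 1)) - 1) s,
      ← Finset.prod_mul_distrib]
    refine Finset.prod_congr rfl fun i hi => ?_
    rw [Finset.mem_range] at hi
    rw [Nat.mul_sub, mul_one, ← pow_add, show i + 2 * (d + (s - 1 - i) + 1) = 2 * (d + s) - i by omega]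
  rw [hP, Finset.prod_range_add]
  have hsum := Finset.sum_range_id_mul_two s
  set S := ∑ i ∈ Finset.range s, i with hS
  have h1 : (3 * s ^ 2 - s) / 2 = s ^ 2 + S := by
    have : 3 * s ^ 2 - s = 2 * (s ^ 2 + S) := by
      rcases s with _ | s
      · simp at hsum ⊢; omega
      · rw [Nat.add_sub_cancel] at hsum
        have : (s + 1) ^ 2 = (s + 1) * s + (s + 1) := by ring
        omega
    omega
  have hexp : (d + s) ^ 2 = (2 * (d + s) * s - (3 * s ^ 2 - s) / 2) + d ^ 2 + S := by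
    rw [h1]
    have e1 : (d + s) ^ 2 = d ^ 2 + 2 * (d * s) + s ^ 2 := by ring
    have e2 : 2 * (d + s) * s = 2 * (d * s) + 2 * s ^ 2 := by ring
    have e3 : S ≤ s ^ 2 := by
      rw [sq]
      have : s * (s - 1) ≤ s * s := Nat.mul_le_mul le_rfl (Nat.sub_le s 1)
      omega
    omega
  rw [hexp, pow_add, pow_add]
  simp only [show ∀ i, d + i + 1 = d + (i + 1) from fun i => add_assoc d i 1]
  ring

/-- The centraliser order from the number of isometries of the shape. -/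
theorem centralizer_formula [Fintype F] {σ : Type} [Fintype σ] [DecidableEq σ] {U : Matrix nn σ F}
    (hU : Frame U) {S : Matrix σ σ F} (hS : IsUnit S.det) (t : Sp) (ht : (t : Matrix nn nn F) = elt U S) :
    Nat.card (Subgroup.centralizer ({t} : Set Sp)) =
      Fintype.card F ^ (2 * m * Fintype.card σ - (3 * Fintype.card σ ^ 2 - Fintype.card σ) / 2) *
        Nat.card {A : Matrix σ σ F // A * S * Aᵀ = S} *
        ((Fintype.card F : ℕ) ^ ((m - Fintype.card σ) ^ 2) *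
          ∏ i : Fin (m - Fintype.card σ), (Fintype.card F ^ (2 * ((i : ℕ) + 1)) - 1)) := by
  classical
  haveI : Nonempty {W : Matrix nn σ F // Frame W} := ⟨⟨U, hU⟩⟩
  have hpos := Nat.card_pos (α := {W : Matrix nn σ F // Frame W})
  refine Nat.eq_of_mul_eq_mul_right hpos ?_
  rw [card_centralizer hU hS t ht, Cfsg.Agent.Lib.Classical.card_symplecticGroup, card_frame,
    sp_order_split _ m _ (card_le_of_frame hU)]
  ring

theorem sp_card_fin [Fintype F] (r : ℕ) :
    Nat.card (Matrix.symplecticGroup (Fin r) F) =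
      (Fintype.card F : ℕ) ^ (r ^ 2) * ∏ i : Fin r, (Fintype.card F ^ (2 * ((i : ℕ) + 1)) - 1) := by
  rw [Cfsg.Agent.Lib.Classical.card_symplecticGroup,
    Fin.prod_univ_eq_prod_range (fun i => Fintype.card F ^ (2 * (i + 1)) - 1)]

/-- The rank and whether the form is alternating. -/
theorem shape_cases [Fintype F] (t : Sp) (ht : t * t = 1) :
    ∃ s r : ℕ, ((t : Matrix nn nn F) - 1).rank = s ∧ s ≤ m ∧
      ((s = 2 * r ∧ (∀ v, v ⬝ᵥ JJ *ᵥ ((t : Matrix nn nn F) *ᵥ v) = 0) ∧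
          Nat.card (Subgroup.centralizer ({t} : Set Sp)) =
            Fintype.card F ^ (2 * m * s - (3 * s ^ 2 - s) / 2) *
              ((Fintype.card F : ℕ) ^ (r ^ 2) * ∏ i : Fin r, (Fintype.card F ^ (2 * ((i : ℕ) + 1)) - 1)) *
              ((Fintype.card F : ℕ) ^ ((m - s) ^ 2) *
                ∏ i : Fin (m - s), (Fintype.card F ^ (2 * ((i : ℕ) + 1)) - 1))) ∨
        (s = 2 * r + 1 ∧ (¬ ∀ v, v ⬝ᵥ JJ *ᵥ ((t : Matrix nn nn F) *ᵥ v) = 0) ∧
          Nat.card (Subgroup.centralizer ({t} : Set Sp)) =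
            Fintype.card F ^ (2 * m * s - (3 * s ^ 2 - s) / 2) *
              ((Fintype.card F : ℕ) ^ (r ^ 2) * ∏ i : Fin r, (Fintype.card F ^ (2 * ((i : ℕ) + 1)) - 1)) *
              ((Fintype.card F : ℕ) ^ ((m - s) ^ 2) *
                ∏ i : Fin (m - s), (Fintype.card F ^ (2 * ((i : ℕ) + 1)) - 1))) ∨
        (s = 2 * r + 2 ∧ (¬ ∀ v, v ⬝ᵥ JJ *ᵥ ((t : Matrix nn nn F) *ᵥ v) = 0) ∧
          Nat.card (Subgroup.centralizer ({t} : Set Sp)) =
            Fintype.card F ^ (2 * m * s - (3 * s ^ 2 - 3 * s) / 2 - 1) *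
              ((Fintype.card F : ℕ) ^ (r ^ 2) * ∏ i : Fin r, (Fintype.card F ^ (2 * ((i : ℕ) + 1)) - 1)) *
              ((Fintype.card F : ℕ) ^ ((m - s) ^ 2) *
                ∏ i : Fin (m - s), (Fintype.card F ^ (2 * ((i : ℕ) + 1)) - 1)))) := by
  classical
  obtain ⟨r, ⟨U, hU, he⟩ | ⟨U, hU, he⟩ | ⟨U, hU, he⟩⟩ := exists_shape t ht
  · have hf := elt_facts hU (SA_det (F := F) r)
    have hc := centralizer_formula hU (SA_det (F := F) r) t he
    rw [card_isom_SA, sp_card_fin] at hc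
    rw [show Fintype.card (Fin r ⊕ Fin r) = 2 * r by simp; omega, ← he] at hf
    rw [show Fintype.card (Fin r ⊕ Fin r) = 2 * r by simp; omega] at hc
    refine ⟨2 * r, r, hf.1, ?_, Or.inl ⟨rfl, hf.2.mpr (SA_alt r), hc⟩⟩
    have := card_le_of_frame hU
    simp at this; omega
  · have hf := elt_facts hU (SO_det (F := F) r)
    have hc := centralizer_formula hU (SO_det (F := F) r) t he
    rw [card_isom_SO, sp_card_fin] at hc
    have hcard : Fintype.card (Unit ⊕ (Fin r ⊕ Fin r)) = 2 * r + 1 := by simp; omega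
    rw [hcard, ← he] at hf
    rw [hcard] at hc
    refine ⟨2 * r + 1, r, hf.1, ?_, Or.inr (Or.inl ⟨rfl, fun h => SO_not_alt r (hf.2.mp h), hc⟩)⟩
    have := card_le_of_frame hU
    omega
  · have hf := elt_facts hU (SE_det (F := F) r)
    have hc := centralizer_formula hU (SE_det (F := F) r) t he
    rw [card_isom_SE, sp_card_fin] at hc
    have hcard : Fintype.card ((Unit ⊕ Unit) ⊕ (Fin r ⊕ Fin r)) = 2 * r + 2 := by simp; omega
    rw [hcard, ← he] at hf
    rw [hcard] at hc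
    have hle : 2 * r + 2 ≤ m := hcard ▸ card_le_of_frame hU
    refine ⟨2 * r + 2, r, hf.1, hle, Or.inr (Or.inr ⟨rfl, fun h => SE_not_alt r (hf.2.mp h), ?_⟩)⟩
    rw [hc, ← mul_assoc (Fintype.card F ^ _) (Fintype.card F ^ (2 * r + 1)), ← pow_add]
    congr 3
    have e1 : 3 * (2 * r + 2) ^ 2 - (2 * r + 2) = 2 * (6 * (r * r) + 11 * r + 5) := by
      have : 3 * (2 * r + 2) ^ 2 = 12 * (r * r) + 24 * r + 12 := by ring
      omega
    have e2 : 3 * (2 * r + 2) ^ 2 - 3 * (2 * r + 2) = 2 * (6 * (r * r) + 9 * r + 3) := by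
      have : 3 * (2 * r + 2) ^ 2 = 12 * (r * r) + 24 * r + 12 := by ring
      omega
    rw [e1, e2, Nat.mul_div_cancel_left _ two_pos, Nat.mul_div_cancel_left _ two_pos]
    have : (2 * r + 2) * (2 * r + 2) ≤ m * (2 * r + 2) := Nat.mul_le_mul hle le_rfl
    have e3 : (2 * r + 2) * (2 * r + 2) = 4 * (r * r) + 8 * r + 4 := by ring
    have e4 : 2 * m * (2 * r + 2) = 2 * (m * (2 * r + 2)) := by ring
    omega

/-- Conjugacy by the rank and the alternating property. -/
theorem isConj_of_same [Fintype F] (a b : Sp) (ha : a * a = 1) (hb : b * b = 1)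
    (hr : ((a : Matrix nn nn F) - 1).rank = ((b : Matrix nn nn F) - 1).rank)
    (halt : (∀ v, v ⬝ᵥ JJ *ᵥ ((a : Matrix nn nn F) *ᵥ v) = 0) ↔
      (∀ v, v ⬝ᵥ JJ *ᵥ ((b : Matrix nn nn F) *ᵥ v) = 0)) : IsConj a b := by
  classical
  have key : ∀ {σ : Type} [Fintype σ] [DecidableEq σ] (S : Matrix σ σ F) (U U' : Matrix nn σ F),
      Frame U → Frame U' → (a : Matrix nn nn F) = elt U S → (b : Matrix nn nn F) = elt U' S → IsConj a b := by
    intro σ _ _ S U U' hU hU' e e'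
    obtain ⟨g, hg⟩ := exists_sp_map hU hU'
    refine isConj_iff.mpr ⟨g, mul_inv_eq_iff_eq_mul.mpr (Subtype.ext ?_)⟩
    rw [Submonoid.coe_mul, Submonoid.coe_mul, e, e', ← hg, elt_mul]
  obtain ⟨r, hA⟩ := exists_shape a ha
  obtain ⟨r', hB⟩ := exists_shape b hb
  rcases hA with ⟨U, hU, e⟩ | ⟨U, hU, e⟩ | ⟨U, hU, e⟩ <;>
    rcases hB with ⟨U', hU', e'⟩ | ⟨U', hU', e'⟩ | ⟨U', hU', e'⟩ <;>
    rw [e, e'] at hr halt
  · rw [(elt_facts hU (SA_det r)).1, (elt_facts hU' (SA_det r')).1] at hr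
    simp at hr
    obtain rfl : r = r' := by omega
    exact key _ U U' hU hU' e e'
  · exact absurd ((elt_facts hU' (SO_det r')).2.mp (halt.mp ((elt_facts hU (SA_det r)).2.mpr (SA_alt r))))
      (SO_not_alt r')
  · exact absurd ((elt_facts hU' (SE_det r')).2.mp (halt.mp ((elt_facts hU (SA_det r)).2.mpr (SA_alt r))))
      (SE_not_alt r')
  · exact absurd ((elt_facts hU (SO_det r)).2.mp (halt.mpr ((elt_facts hU' (SA_det r')).2.mpr (SA_alt r'))))
      (SO_not_alt r)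
  · rw [(elt_facts hU (SO_det r)).1, (elt_facts hU' (SO_det r')).1] at hr
    simp at hr
    obtain rfl : r = r' := by omega
    exact key _ U U' hU hU' e e'
  · rw [(elt_facts hU (SO_det r)).1, (elt_facts hU' (SE_det r')).1] at hr
    simp at hr
    omega
  · exact absurd ((elt_facts hU (SE_det r)).2.mp (halt.mpr ((elt_facts hU' (SA_det r')).2.mpr (SA_alt r'))))
      (SE_not_alt r)
  · rw [(elt_facts hU (SE_det r)).1, (elt_facts hU' (SO_det r')).1] at hr
    simp at hr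
    omega
  · rw [(elt_facts hU (SE_det r)).1, (elt_facts hU' (SE_det r')).1] at hr
    simp at hr
    obtain rfl : r = r' := by omega
    exact key _ U U' hU hU' e e'

/-- Every admissible shape occurs. -/
theorem exists_elt {σ : Type} [Fintype σ] [DecidableEq σ] (hσ : Fintype.card σ ≤ m) :
    ∃ U : Matrix nn σ F, Frame U := by
  obtain ⟨f⟩ : Nonempty (σ ↪ Fin m) := Function.Embedding.nonempty_of_card_le (by rw [Fintype.card_fin]; exact hσ)
  refine ⟨Matrix.of fun a s => if a = Sum.inl (f s) then 1 else 0, ?_,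
    Matrix.of fun s a => if a = Sum.inl (f s) then 1 else 0, ?_⟩
  · ext s s'
    simp [Matrix.mul_apply, Fintype.sum_sum_type, Matrix.J, Matrix.transpose_apply]
  · ext s s'
    simp [Matrix.mul_apply, Matrix.one_apply, f.injective.eq_iff, eq_comm]

end Cfsg.Agent.Lib.Jordan.SympInvol
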