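import Cfsg.Agent.Lib.Jordan.Centralizer
import Cfsg.Agent.Lib.Jordan.Unitary
import Cfsg.Agent.Lib.Classical.Unitary

/-!
The centraliser of a unipotent element of `GU_n(q)`.

The commutant `C` of a unipotent `u` is stable under the conjugate transpose and every Hermitian unit of
`C` is `c* c` with `c ∈ C`, so `|C^×| = |C_GU(u)| · #(Hermitian units of C)`. For a suitable representative
the conjugate transpose acts on the leading blocks of `C` as the conjugate transpose, so both sides can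
be counted block by block.
-/

set_option autoImplicit false
set_option linter.unusedSectionVars false

namespace Cfsg.Agent.Lib.Jordan.UCent

open Matrix UnitaryConj Cfsg.Agent.Lib.Jordan

/-! ### Generic counting -/

theorem card_fibre {A B : Type*} [AddCommGroup A] [AddCommGroup B] (f : A →+ B)
    (hf : Function.Surjective f) (T : B → Prop) :
    Nat.card {a : A // T (f a)} = Nat.card f.ker * Nat.card {b : B // T b} := by
  choose s hs using hf
  rw [← Nat.card_prod]
  refine Nat.card_congr ⟨fun a => (⟨a.1 - s (f a.1), by rw [AddMonoidHom.mem_ker, map_sub, hs, sub_self]⟩, ⟨f a.1, a.2⟩),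
    fun z => ⟨z.1.1 + s z.2.1, by rw [map_add, z.1.2, zero_add, hs]; exact z.2.2⟩, fun a => ?_, fun z => ?_⟩
  · exact Subtype.ext (sub_add_cancel _ _)
  · have e : f (z.1.1 + s z.2.1) = z.2.1 := by rw [map_add, z.1.2, zero_add, hs]
    refine Prod.ext (Subtype.ext ?_) (Subtype.ext e)
    show z.1.1 + s z.2.1 - s (f (z.1.1 + s z.2.1)) = z.1.1
    rw [e, add_sub_cancel_right]

variable {K : Type*} [Field K] [Fintype K] {q : ℕ}

theorem exists_trace_one (hK : Fintype.card K = q ^ 2) : ∃ a : K, a + qHom hK a = 1 := by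
  obtain ⟨x, hx⟩ : ∃ x : K, x + qHom hK x ≠ 0 := by
    by_contra h
    push Not at h
    obtain ⟨θ, hθ⟩ := exists_moved hK
    have h1 := h 1
    rw [map_one] at h1
    exact hθ (by linear_combination h θ - θ * h1)
  refine ⟨x * (x + qHom hK x)⁻¹, ?_⟩
  rw [map_mul, map_inv₀, map_add, qHom_qHom, add_comm (qHom hK x) x, ← add_mul, mul_inv_cancel₀ hx]

/-- A semilinear involution fixes a set whose square has the size of the space. -/
theorem card_eq_fixed_sq (hK : Fintype.card K = q ^ 2) {V : Type*} [AddCommGroup V] [Module K V]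
    (W : Submodule K V) (σ : V → V) (hadd : ∀ x y, σ (x + y) = σ x + σ y)
    (hsmul : ∀ (c : K) x, σ (c • x) = qHom hK c • σ x) (hσσ : ∀ x, σ (σ x) = x) (hW : ∀ x ∈ W, σ x ∈ W) :
    Nat.card W = Nat.card {x : V // x ∈ W ∧ σ x = x} ^ 2 := by
  obtain ⟨θ, hθ⟩ := exists_moved hK
  have hθ' : θ - qHom hK θ ≠ 0 := sub_ne_zero.mpr (Ne.symm hθ)
  set δ := (θ - qHom hK θ)⁻¹ with hδ
  have hsub : ∀ x y, σ (x - y) = σ x - σ y := by
    intro x y
    rw [eq_sub_iff_add_eq, ← hadd, sub_add_cancel]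
  have hδc : qHom hK δ = -δ := by
    rw [hδ, map_inv₀, map_sub, qHom_qHom, ← inv_neg, neg_sub]
  let Y : V → V := fun z => δ • (z - σ z)
  have hY : ∀ z, σ (Y z) = Y z := by
    intro z
    simp only [Y]
    rw [hsmul, hsub, hσσ, hδc, neg_smul, ← smul_neg, neg_sub]
  rw [sq, ← Nat.card_prod]
  symm
  refine Nat.card_congr ⟨fun p => ⟨p.1.1 + θ • p.2.1, W.add_mem p.1.2.1 (W.smul_mem _ p.2.2.1)⟩,
    fun z => (⟨z.1 - θ • Y z.1, W.sub_mem z.2 (W.smul_mem _ (W.smul_mem _ (W.sub_mem z.2 (hW _ z.2)))), ?_⟩,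
      ⟨Y z.1, W.smul_mem _ (W.sub_mem z.2 (hW _ z.2)), hY _⟩), fun p => ?_, fun z => ?_⟩
  · rw [hsub, hsmul, hY]
    have e : (θ - qHom hK θ) • Y z.1 = z.1 - σ z.1 := by
      simp only [Y, hδ]
      rw [smul_smul, mul_inv_cancel₀ hθ', one_smul]
    rw [sub_smul] at e
    linear_combination (norm := module) e
  · obtain ⟨⟨x, hx, hxs⟩, ⟨y, hy, hys⟩⟩ := p
    have e : Y (x + θ • y) = y := by
      simp only [Y]
      rw [hadd, hsmul, hxs, hys, show x + θ • y - (x + qHom hK θ • y) = (θ - qHom hK θ) • y by rw [sub_smul]; abel,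
        smul_smul, hδ, inv_mul_cancel₀ hθ', one_smul]
    refine Prod.ext (Subtype.ext ?_) (Subtype.ext e)
    show x + θ • y - θ • Y (x + θ • y) = x
    rw [e, add_sub_cancel_right]
  · exact Subtype.ext (sub_add_cancel _ _)

/-- Units of the commutant of a unitary element: unitary units times Hermitian units. -/
theorem card_unitary_split (hK : Fintype.card K = q ^ 2) {n : ℕ} (u0 : GL (Fin n) K) (hu0 : u0 ∈ Cfsg.GU n K q) :
    Nat.card {g : GL (Fin n) K // g * u0 = u0 * g} =
      Nat.card {g : GL (Fin n) K // g * u0 = u0 * g ∧ g ∈ Cfsg.GU n K q} *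
      Nat.card {g : GL (Fin n) K // g * u0 = u0 * g ∧ tstar hK (g : Matrix (Fin n) (Fin n) K) = g} := by
  have hsq : ∀ g : {g : GL (Fin n) K // g * u0 = u0 * g},
      ∃ h : GL (Fin n) K, (h : Matrix (Fin n) (Fin n) K) = tstar hK (g.1 : Matrix (Fin n) (Fin n) K) * g.1 ∧
        h * u0 = u0 * h := by
    intro g
    let h : GL (Fin n) K := ((UnitaryUnipotent.isUnit_tstar hK g.1.isUnit).mul g.1.isUnit).unit
    refine ⟨h, rfl, Units.ext ?_⟩
    show tstar hK (g.1 : Matrix (Fin n) (Fin n) K) * g.1 * u0 = u0 * (tstar hK (g.1 : Matrix (Fin n) (Fin n) K) * g.1)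
    have hu := (mem_GU_iff hK u0).mp hu0
    have hu' : (u0 : Matrix (Fin n) (Fin n) K) * tstar hK (u0 : Matrix (Fin n) (Fin n) K) = 1 := mul_eq_one_comm.1 hu
    have hg : (g.1 : Matrix (Fin n) (Fin n) K) * u0 = u0 * g.1 := congrArg Units.val g.2
    have e := congrArg (tstar hK) hg
    rw [tstar_mul, tstar_mul] at e
    rw [mul_assoc, hg, ← mul_assoc, ← mul_assoc]
    congr 1
    calc tstar hK (g.1 : Matrix (Fin n) (Fin n) K) * u0
        = (u0 * tstar hK (u0 : Matrix (Fin n) (Fin n) K)) * tstar hK (g.1 : Matrix (Fin n) (Fin n) K) * u0 := by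
          rw [hu', one_mul]
      _ = u0 * tstar hK (g.1 : Matrix (Fin n) (Fin n) K) * (tstar hK (u0 : Matrix (Fin n) (Fin n) K) * u0) := by
          rw [mul_assoc (u0 : Matrix (Fin n) (Fin n) K), e]
          simp only [mul_assoc]
      _ = _ := by rw [hu, mul_one]
  choose φ hφ hφc using hsq
  have hφh : ∀ g, tstar hK (φ g : Matrix (Fin n) (Fin n) K) = φ g := by
    intro g; rw [hφ, tstar_mul, tstar_tstar]
  have hroot : ∀ h : {g : GL (Fin n) K // g * u0 = u0 * g ∧ tstar hK (g : Matrix (Fin n) (Fin n) K) = g},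
      ∃ c : GL (Fin n) K, c * u0 = u0 * c ∧ tstar hK (c : Matrix (Fin n) (Fin n) K) * c = h.1 := by
    intro h
    obtain ⟨c, hc, hcom⟩ := exists_sqrt hK h.1 h.2.2
    exact ⟨c, Units.ext (hcom _ (congrArg Units.val h.2.1.symm)).eq.symm, hc⟩
  choose r hrc hr using hroot
  rw [← Nat.card_prod]
  let H' : {g : GL (Fin n) K // g * u0 = u0 * g} →
      {g : GL (Fin n) K // g * u0 = u0 * g ∧ tstar hK (g : Matrix (Fin n) (Fin n) K) = g} :=
    fun g => ⟨φ g, hφc g, hφh g⟩
  refine Nat.card_congr ⟨fun g => (⟨g.1 * (r (H' g))⁻¹, ?_, ?_⟩, H' g),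
    fun z => ⟨z.1.1 * r z.2, ?_⟩, fun g => ?_, fun z => ?_⟩
  · exact (Commute.mul_left g.2 (Commute.inv_left (hrc (H' g)))).eq
  · rw [mem_GU_iff hK, Units.val_mul, tstar_mul]
    calc tstar hK (((r (H' g))⁻¹ : GL (Fin n) K) : Matrix (Fin n) (Fin n) K) * tstar hK (g.1 : Matrix (Fin n) (Fin n) K) *
          ((g.1 : Matrix (Fin n) (Fin n) K) * (((r (H' g))⁻¹ : GL (Fin n) K) : Matrix (Fin n) (Fin n) K))
        = tstar hK (((r (H' g))⁻¹ : GL (Fin n) K) : Matrix (Fin n) (Fin n) K) * (φ g : Matrix (Fin n) (Fin n) K) *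
          (((r (H' g))⁻¹ : GL (Fin n) K) : Matrix (Fin n) (Fin n) K) := by rw [hφ]; simp only [mul_assoc]
      _ = tstar hK ((r (H' g) : Matrix (Fin n) (Fin n) K) * (((r (H' g))⁻¹ : GL (Fin n) K) : Matrix (Fin n) (Fin n) K)) *
          ((r (H' g) : Matrix (Fin n) (Fin n) K) * (((r (H' g))⁻¹ : GL (Fin n) K) : Matrix (Fin n) (Fin n) K)) := by
          rw [show (φ g : Matrix (Fin n) (Fin n) K) = _ from (hr (H' g)).symm, tstar_mul]
          simp only [mul_assoc]
      _ = 1 := by rw [Units.mul_inv, tstar_one, mul_one]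
  · exact (Commute.mul_left z.1.2.1 (hrc z.2)).eq
  · exact Subtype.ext (inv_mul_cancel_right _ _)
  · have e : H' ⟨z.1.1 * r z.2, (Commute.mul_left z.1.2.1 (hrc z.2)).eq⟩ = z.2 := by
      refine Subtype.ext (Units.ext ?_)
      show (φ _ : Matrix (Fin n) (Fin n) K) = _
      rw [hφ, ← hr z.2, Units.val_mul, tstar_mul]
      have := (mem_GU_iff hK z.1.1).mp z.1.2.2
      calc _ = tstar hK (r z.2 : Matrix (Fin n) (Fin n) K) *
            (tstar hK (z.1.1 : Matrix (Fin n) (Fin n) K) * z.1.1) * r z.2 := by simp only [mul_assoc]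
        _ = _ := by rw [this, mul_one]
    refine Prod.ext (Subtype.ext ?_) e
    show z.1.1 * r z.2 * (r (H' _))⁻¹ = z.1.1
    rw [e, mul_inv_cancel_right]

/-- Hermitian units of the full matrix algebra. -/
theorem card_GL_split (hK : Fintype.card K = q ^ 2) (a : ℕ) :
    Nat.card (GL (Fin a) K) = Nat.card ↥(Cfsg.GU a K q) *
      Nat.card {g : GL (Fin a) K // tstar hK (g : Matrix (Fin a) (Fin a) K) = g} := by
  have := card_unitary_split hK (1 : GL (Fin a) K) (one_mem _)
  simp only [mul_one, one_mul, true_and] at this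
  rw [← this]
  exact (Nat.card_congr (Equiv.subtypeUnivEquiv (fun _ => trivial))).symm

/-! ### The block structure -/

variable {t : ℕ} (d : Fin t → ℕ)

/-- Block sizes. -/
abbrev Rng : Type := {i // i ∈ Finset.range (Finset.univ.sup d + 1)}

theorem mem_rng (k : Fin t) : d k ∈ Finset.range (Finset.univ.sup d + 1) :=
  Finset.mem_range.mpr (Nat.lt_succ_of_le (Finset.le_sup (Finset.mem_univ k)))

/-- An enumeration of the blocks of a given size. -/
noncomputable def enum (i : ℕ) : Fin (mult d i) ≃ {k : Fin t // d k = i} :=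
  (Fintype.equivFinOfCardEq (Fintype.card_subtype _)).symm

/-- Leading blocks. -/
noncomputable def lead : (Par d → K) →+ ((i : Rng d) → Matrix (Fin (mult d i)) (Fin (mult d i)) K) where
  toFun c i := Matrix.of fun a b => mlead d c (enum d i a).1 (enum d i b).1
  map_zero' := by
    funext i
    ext a b
    simp only [mlead, cext, Matrix.of_apply, Pi.zero_apply, Matrix.zero_apply]
    split_ifs <;> rfl
  map_add' c c' := by
    funext i
    ext a b
    simp only [mlead, cext, Matrix.of_apply, Pi.add_apply, Matrix.add_apply]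
    split_ifs <;> simp

theorem lead_smul (x : K) (c : Par d → K) : lead d (x • c) = x • lead d c := by
  funext i
  ext a b
  show mlead d (x • c) _ _ = x * mlead d c _ _
  simp only [mlead, cext, Matrix.of_apply, Pi.smul_apply, smul_eq_mul]
  split_ifs <;> simp

theorem lead_surjective (hd : ∀ k, 1 ≤ d k) : Function.Surjective (lead (K := K) d) := by
  intro M
  let F : Fin t → Fin t → K := fun k l => if h : d l = d k then
    M ⟨d k, mem_rng d k⟩ ((enum d (d k)).symm ⟨k, rfl⟩) ((enum d (d k)).symm ⟨l, h⟩) else 0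
  refine ⟨fun z => if d z.1.2.1 = d z.1.1 ∧ (z.1.2.2 : ℕ) = 0 then F z.1.1 z.1.2.1 else 0, ?_⟩
  funext i
  ext a b
  obtain ⟨i, hi⟩ := i
  obtain ⟨x, rfl⟩ := (enum d i).symm.surjective a
  obtain ⟨y, rfl⟩ := (enum d i).symm.surjective b
  obtain ⟨k, rfl⟩ := x
  obtain ⟨l, hl⟩ := y
  show mlead d _ _ _ = _
  rw [Equiv.apply_symm_apply, Equiv.apply_symm_apply]
  simp only [mlead, Matrix.of_apply]
  have := hd k
  rw [dif_pos ⟨by omega, this⟩, cext, dif_pos (by simp; omega), if_pos ⟨hl, by simp; omega⟩]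
  simp only [F]
  rw [dif_pos hl]

theorem isUnit_iff_lead (hd : ∀ k, 1 ≤ d k) (c : Par d → K) :
    IsUnit (cmat d c) ↔ ∀ i : Rng d, (lead d c i).det ≠ 0 := by
  classical
  have htri : (mlead d c).BlockTriangular d := fun k l h => by
    simp only [mlead, Matrix.of_apply]
    rw [dif_neg (by omega)]
  have hblk : ∀ i : Rng d, (lead d c i).det = ((mlead d c).toSquareBlock d i).det := fun i => by
    show (((mlead d c).toSquareBlock d i).submatrix (enum d i) (enum d i)).det = _
    exact Matrix.det_submatrix_equiv_self _ _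
  rw [isUnit_cmat_iff d hd, htri.det, Finset.prod_ne_zero_iff]
  constructor
  · intro h i
    rw [hblk]
    by_cases hex : (i : ℕ) ∈ Finset.univ.image d
    · exact h i hex
    · haveI : IsEmpty {k : Fin t // d k = (i : ℕ)} := ⟨fun k => hex (Finset.mem_image.mpr ⟨k, Finset.mem_univ _, k.2⟩)⟩
      rw [Matrix.det_isEmpty]; exact one_ne_zero
  · intro h i hi
    obtain ⟨k, -, rfl⟩ := Finset.mem_image.mp hi
    rw [← hblk ⟨d k, mem_rng d k⟩]
    exact h _

theorem cmat_diag (c : Par d → K) (k l : Fin t) (h : d k = d l) (i : Fin (d k)) (j : Fin (d l))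
    (hij : (i : ℕ) = j) : cmat d c ⟨k, i⟩ ⟨l, j⟩ = mlead d c l k := by
  have := j.2
  simp only [cmat, Matrix.of_apply, mlead]
  rw [if_pos hij.ge, dif_pos ⟨by omega, by omega⟩]
  congr 3
  omega

theorem cmat_upper (c : Par d → K) (k l : Fin t) (i : Fin (d k)) (j : Fin (d l))
    (hij : (i : ℕ) < j) : cmat d c ⟨k, i⟩ ⟨l, j⟩ = 0 := by
  simp only [cmat, Matrix.of_apply]
  rw [if_neg (by omega)]

/-- The diagonal of a triangular matrix conjugate to the conjugate transpose of a triangular matrix. -/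
theorem diag_conj (hK : Fintype.card K = q ^ 2) {a b : ℕ} (hab : a = b) (ha : 1 ≤ a)
    (X Y : (i : ℕ) → Matrix (Fin i) (Fin i) K) (hXY : ∀ i, 1 ≤ i → Y i * X i = 1)
    (M : Matrix (Fin b) (Fin a) K) (N : Matrix (Fin a) (Fin b) K) (m m' : K)
    (hM : ∀ (i : Fin b) (j : Fin a), (i : ℕ) < j → M i j = 0) (hMd : ∀ (i : Fin b) (j : Fin a), (i : ℕ) = j → M i j = m)
    (hN : ∀ (i : Fin a) (j : Fin b), (i : ℕ) < j → N i j = 0) (hNd : ∀ (i : Fin a) (j : Fin b), (i : ℕ) = j → N i j = m')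
    (h : N = Y a * (M.map (qHom hK))ᵀ * X b) : m' = qHom hK m := by
  subst hab
  have hl : ∀ (P : Matrix (Fin a) (Fin a) K), (∀ i j : Fin a, (i : ℕ) < j → P i j = 0) → ∀ z : K,
      (∀ i, P i i = z) → ∀ w : K, (P - w • (1 : Matrix (Fin a) (Fin a) K)).det = (z - w) ^ a := by
    intro P hP z hz w
    rw [Matrix.det_of_lowerTriangular]
    · simp [hz]
    · intro i j hij
      have hne : i ≠ j := fun e => by subst e; simp at hij
      simp [Matrix.one_apply_ne hne, hP i j (by simpa using hij)]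
  have e : N - qHom hK m • (1 : Matrix (Fin a) (Fin a) K) =
      Y a * tstar hK (M - m • (1 : Matrix (Fin a) (Fin a) K)) * X a := by
    rw [UnitaryUnipotent.tstar_sub, tstar_smul, tstar_one, Matrix.mul_sub, Matrix.sub_mul, Matrix.mul_smul,
      Matrix.smul_mul, mul_one, hXY a ha, h]
    rfl
  have h0 : (tstar hK (M - m • (1 : Matrix (Fin a) (Fin a) K))).det = 0 := by
    rw [tstar, Matrix.det_transpose, ← RingHom.mapMatrix_apply, ← RingHom.map_det,
      hl M hM m (fun i => hMd i i rfl), sub_self, zero_pow (by omega), map_zero]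
  have h1 : (N - qHom hK m • (1 : Matrix (Fin a) (Fin a) K)).det = 0 := by
    rw [e, Matrix.det_mul, Matrix.det_mul, h0, mul_zero, zero_mul]
  rw [hl N hN m' (fun i => hNd i i rfl), pow_eq_zero_iff (by omega), sub_eq_zero] at h1
  exact h1

theorem block_mul_mul (f g : (k : Fin t) → Matrix (Fin (d k)) (Fin (d k)) K) (M : Matrix (Idx d) (Idx d) K)
    (k l : Fin t) : (Matrix.blockDiagonal' f * M * Matrix.blockDiagonal' g).submatrix (Sigma.mk (β := fun k => Fin (d k)) k) (Sigma.mk (β := fun k => Fin (d k)) l) =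
      f k * M.submatrix (Sigma.mk (β := fun k => Fin (d k)) k) (Sigma.mk (β := fun k => Fin (d k)) l) * g l := by
  classical
  ext i j
  simp only [Matrix.submatrix_apply, Matrix.mul_apply, Fintype.sum_sigma]
  rw [Finset.sum_eq_single l]
  · refine Finset.sum_congr rfl fun s _ => ?_
    rw [Matrix.blockDiagonal'_apply_eq, Finset.sum_eq_single k]
    · simp [Matrix.blockDiagonal'_apply_eq]
    · intro x _ hx
      refine Finset.sum_eq_zero fun y _ => ?_
      rw [Matrix.blockDiagonal'_apply_ne _ _ _ (Ne.symm hx), zero_mul]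
    · simp
  · intro x _ hx
    refine Finset.sum_eq_zero fun y _ => ?_
    rw [Matrix.blockDiagonal'_apply_ne _ _ _ hx, mul_zero]
  · simp

/-- A unitary representative with well-behaved leading blocks. -/
theorem exists_model (hK : Fintype.card K = q ^ 2) (hd : ∀ k, 1 ≤ d k) {n : ℕ} (e : Idx d ≃ Fin n) :
    ∃ (u0 G : GL (Fin n) K) (σ : (Par d → K) → Par d → K), u0 ∈ Cfsg.GU n K q ∧
      (G : Matrix (Fin n) (Fin n) K) * Matrix.reindex e e (Cfsg.jordanTypeMatrix d K) = u0 * G ∧
      (∀ c, tstar hK ((G : Matrix (Fin n) (Fin n) K) * Matrix.reindex e e (cmat d c) * ((G⁻¹ : GL (Fin n) K) : Matrix (Fin n) (Fin n) K)) =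
        (G : Matrix (Fin n) (Fin n) K) * Matrix.reindex e e (cmat d (σ c)) * ((G⁻¹ : GL (Fin n) K) : Matrix (Fin n) (Fin n) K)) ∧
      ∀ c i, lead d (σ c) i = tstar hK (lead d c i) := by
  classical
  have hex : ∀ i : ℕ, ∃ g u : GL (Fin i) K, 1 ≤ i → u ∈ Cfsg.GU i K q ∧
      (g : Matrix (Fin i) (Fin i) K) * Cfsg.jordanBlock i K = u * g := by
    intro i
    by_cases hi : 1 ≤ i
    · obtain ⟨u, huG, hu1, hu2⟩ := UnitaryUnipotent.exists_regular (K := K) hK hi
      haveI : Nonempty (Fin i) := ⟨⟨0, hi⟩⟩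
      obtain ⟨g, hg⟩ := UnipDet.exists_conj (Cfsg.jordanBlock i K) (u : Matrix (Fin i) (Fin i) K) i
        (by rw [jordanBlock_sub_one, ← Matrix.transpose_pow, GLOrders.shiftMat_pow_eq_zero _ _ hi, Matrix.transpose_zero])
        (by rw [jordanBlock_sub_one, Matrix.rank_transpose, UnipDet.shift_rank hi, Fintype.card_fin])
        hu1 (by simpa using hu2)
      exact ⟨g, u, fun _ => ⟨huG, hg⟩⟩
    · exact ⟨1, 1, fun h => absurd h hi⟩
  choose g u hgu using hex
  let R : Matrix (Idx d) (Idx d) K ≃ₐ[K] Matrix (Fin n) (Fin n) K := Matrix.reindexAlgEquiv K K e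
  let φ : ((k : Fin t) → Matrix (Fin (d k)) (Fin (d k)) K) →+* Matrix (Idx d) (Idx d) K :=
    Matrix.blockDiagonal'RingHom (fun k => Fin (d k)) K
  have hR : ∀ M, tstar hK (R M) = R ((M.map (qHom hK))ᵀ) := fun M => rfl
  have hφ : ∀ f, ((φ f).map (qHom hK))ᵀ = φ fun k => tstar hK (f k) := by
    intro f
    show ((Matrix.blockDiagonal' f).map (qHom hK))ᵀ = _
    rw [Matrix.blockDiagonal'_map _ _ (map_zero _), Matrix.blockDiagonal'_transpose]
    rfl
  let gm : (k : Fin t) → Matrix (Fin (d k)) (Fin (d k)) K := fun k => (g (d k) : Matrix _ _ K)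
  let gi : (k : Fin t) → Matrix (Fin (d k)) (Fin (d k)) K := fun k => ((g (d k))⁻¹ : GL (Fin (d k)) K)
  let um : (k : Fin t) → Matrix (Fin (d k)) (Fin (d k)) K := fun k => (u (d k) : Matrix _ _ K)
  have hgi : gm * gi = 1 := funext fun k => Units.mul_inv _
  have hig : gi * gm = 1 := funext fun k => Units.inv_mul _
  let G : GL (Fin n) K := ⟨R (φ gm), R (φ gi), by rw [← map_mul, ← map_mul, hgi, map_one, map_one],
    by rw [← map_mul, ← map_mul, hig, map_one, map_one]⟩
  have hu : tstar hK (R (φ um)) * R (φ um) = 1 := by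
    rw [hR, hφ, ← map_mul, ← map_mul,
      show (fun k => tstar hK (um k)) * um = 1 from funext fun k => (mem_GU_iff hK _).mp (hgu _ (hd k)).1,
      map_one, map_one]
  let u0 : GL (Fin n) K := ⟨R (φ um), tstar hK (R (φ um)), mul_eq_one_comm.1 hu, hu⟩
  let A' : (Par d → K) → Matrix (Idx d) (Idx d) K := fun c =>
    φ (fun k => gi k * tstar hK (gi k)) * ((cmat d c).map (qHom hK))ᵀ * φ (fun k => tstar hK (gm k) * gm k)
  have hJ : (G : Matrix (Fin n) (Fin n) K) * R (Cfsg.jordanTypeMatrix d K) = u0 * G := by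
    show R (φ gm) * R (φ fun k => Cfsg.jordanBlock (d k) K) = R (φ um) * R (φ gm)
    rw [← map_mul, ← map_mul, ← map_mul, ← map_mul]
    congr 2
    funext k
    exact (hgu _ (hd k)).2
  have hT : ∀ c, tstar hK ((G : Matrix (Fin n) (Fin n) K) * R (cmat d c) * ((G⁻¹ : GL (Fin n) K) : Matrix (Fin n) (Fin n) K)) =
      (G : Matrix (Fin n) (Fin n) K) * R (A' c) * ((G⁻¹ : GL (Fin n) K) : Matrix (Fin n) (Fin n) K) := by
    intro c
    show tstar hK (R (φ gm) * R (cmat d c) * R (φ gi)) = R (φ gm) * R (A' c) * R (φ gi)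
    rw [tstar_mul, tstar_mul, hR, hR, hR, hφ, hφ, ← map_mul, ← map_mul, ← map_mul, ← map_mul]
    congr 1
    simp only [A']
    rw [show (fun k => gi k * tstar hK (gi k)) = gi * fun k => tstar hK (gi k) from rfl,
      show (fun k => tstar hK (gm k) * gm k) = (fun k => tstar hK (gm k)) * gm from rfl, map_mul, map_mul]
    calc φ (fun k => tstar hK (gi k)) * (((cmat d c).map (qHom hK))ᵀ * φ fun k => tstar hK (gm k))
        = φ (gm * gi) * φ (fun k => tstar hK (gi k)) * ((cmat d c).map (qHom hK))ᵀ *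
            φ (fun k => tstar hK (gm k)) * φ (gm * gi) := by
          rw [hgi, map_one, one_mul, mul_one, mul_assoc]
      _ = _ := by rw [map_mul]; simp only [mul_assoc]
  have hcomm : ∀ c, A' c * nmat d K = nmat d K * A' c := by
    intro c
    have hA : Commute ((G : Matrix (Fin n) (Fin n) K) * R (cmat d c) * ((G⁻¹ : GL (Fin n) K) : Matrix (Fin n) (Fin n) K)) (u0 : Matrix (Fin n) (Fin n) K) := by
      have h1 : Commute (cmat d c) (Cfsg.jordanTypeMatrix d K) := by
        have := (Commute.one_right (cmat d c)).add_right (cmat_commute d c : Commute (cmat d c) (nmat d K))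
        rwa [nmat, add_sub_cancel] at this
      have h2 : Commute (R (cmat d c)) (R (Cfsg.jordanTypeMatrix d K)) := h1.map R
      have e0 : (u0 : Matrix (Fin n) (Fin n) K) = G * R (Cfsg.jordanTypeMatrix d K) * ((G⁻¹ : GL (Fin n) K) : Matrix (Fin n) (Fin n) K) := by
        rw [hJ, mul_assoc, Units.mul_inv, mul_one]
      show _ * _ = _ * _
      rw [e0]
      simp only [mul_assoc, Units.inv_mul_cancel_left]
      rw [← mul_assoc (R (cmat d c)), h2.eq, mul_assoc]
    have hB : Commute (tstar hK ((G : Matrix (Fin n) (Fin n) K) * R (cmat d c) * ((G⁻¹ : GL (Fin n) K) : Matrix (Fin n) (Fin n) K))) (u0 : Matrix (Fin n) (Fin n) K) := by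
      have h3 : Commute (tstar hK ((G : Matrix (Fin n) (Fin n) K) * R (cmat d c) * ((G⁻¹ : GL (Fin n) K) : Matrix (Fin n) (Fin n) K))) ((u0⁻¹ : GL (Fin n) K) : Matrix (Fin n) (Fin n) K) := by
        show _ * tstar hK (R (φ um)) = tstar hK (R (φ um)) * _
        rw [← tstar_mul, ← tstar_mul]
        exact congrArg _ hA.eq.symm
      exact h3.units_inv_right
    rw [hT] at hB
    have h4 : R (A' c) * R (Cfsg.jordanTypeMatrix d K) = R (Cfsg.jordanTypeMatrix d K) * R (A' c) := by
      have := congrArg (fun M => ((G⁻¹ : GL (Fin n) K) : Matrix (Fin n) (Fin n) K) * M * (G : Matrix (Fin n) (Fin n) K)) hB.eq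
      have e0 : ((G⁻¹ : GL (Fin n) K) : Matrix (Fin n) (Fin n) K) * u0 * G = R (Cfsg.jordanTypeMatrix d K) := by
        rw [mul_assoc, ← hJ, Units.inv_mul_cancel_left]
      calc R (A' c) * R (Cfsg.jordanTypeMatrix d K) = _ := by rw [← e0]
        _ = ((G⁻¹ : GL (Fin n) K) : Matrix (Fin n) (Fin n) K) * ((G : Matrix (Fin n) (Fin n) K) * R (A' c) * ((G⁻¹ : GL (Fin n) K) : Matrix (Fin n) (Fin n) K) * u0) * G := by
            simp only [mul_assoc, Units.inv_mul_cancel_left]
        _ = _ := this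
        _ = _ := by rw [← e0]; simp only [mul_assoc, Units.inv_mul, mul_one]
    rw [← map_mul, ← map_mul] at h4
    have h5 := R.injective h4
    rw [nmat, Matrix.mul_sub, Matrix.sub_mul, h5, Matrix.mul_one, Matrix.one_mul]
  let σ : (Par d → K) → Par d → K := fun c => (commEquiv d).symm ⟨A' c, hcomm c⟩
  have hσ : ∀ c, cmat d (σ c) = A' c := fun c =>
    congrArg Subtype.val ((commEquiv d).apply_symm_apply ⟨A' c, hcomm c⟩)
  refine ⟨u0, G, σ, (mem_GU_iff hK u0).mpr hu, hJ, fun c => by rw [hσ]; exact hT c, fun c i => ?_⟩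
  ext a b
  show mlead d (σ c) (enum d i a).1 (enum d i b).1 = qHom hK (mlead d c (enum d i b).1 (enum d i a).1)
  generalize enum d i a = x
  generalize enum d i b = y
  obtain ⟨l, hl⟩ := x
  obtain ⟨k, hk⟩ := y
  have hkl : d k = d l := hk.trans hl.symm
  refine diag_conj hK hkl (hd k)
    (fun i => tstar hK (g i : Matrix (Fin i) (Fin i) K) * g i)
    (fun i => (((g i)⁻¹ : GL (Fin i) K) : Matrix (Fin i) (Fin i) K) * tstar hK (((g i)⁻¹ : GL (Fin i) K) : Matrix (Fin i) (Fin i) K))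
    (fun i _ => ?_) ((cmat d c).submatrix (Sigma.mk (β := fun k => Fin (d k)) l) (Sigma.mk (β := fun k => Fin (d k)) k)) ((cmat d (σ c)).submatrix (Sigma.mk (β := fun k => Fin (d k)) k) (Sigma.mk (β := fun k => Fin (d k)) l))
    _ _ (fun i j h => cmat_upper d c l k i j h) (fun i j h => cmat_diag d c l k hkl.symm i j h)
    (fun i j h => cmat_upper d (σ c) k l i j h) (fun i j h => cmat_diag d (σ c) k l hkl i j h) ?_
  · rw [mul_assoc, ← mul_assoc (tstar hK (((g i)⁻¹ : GL (Fin i) K) : Matrix (Fin i) (Fin i) K)), ← tstar_mul, Units.mul_inv, tstar_one, one_mul,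
      Units.inv_mul]
  · rw [hσ]
    refine (block_mul_mul d (fun k => gi k * tstar hK (gi k)) (fun k => tstar hK (gm k) * gm k)
      ((cmat d c).map (qHom hK))ᵀ k l).trans ?_
    rw [← Matrix.transpose_submatrix, Matrix.submatrix_map]

/-- The order of the centraliser. -/
theorem card_centralizer_GU (hK : Fintype.card K = q ^ 2) (hd : ∀ k, 1 ≤ d k) {n : ℕ} (e : Idx d ≃ Fin n)
    (u : ↥(Cfsg.GU n K q))
    (hu : IsConj (Matrix.reindex e e (Cfsg.jordanTypeMatrix d K)) ((u : GL (Fin n) K) : Matrix (Fin n) (Fin n) K)) :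
    Nat.card ↥(Subgroup.centralizer ({u} : Set ↥(Cfsg.GU n K q))) =
      q ^ (2 * (∑ i ∈ Finset.range (Finset.univ.sup d + 1), ∑ j ∈ Finset.range (Finset.univ.sup d + 1),
          if i < j then i * mult d i * mult d j else 0) +
        ∑ i ∈ Finset.range (Finset.univ.sup d + 1), (i - 1) * mult d i ^ 2) *
      ∏ i : Rng d, Nat.card ↥(Cfsg.GU (mult d i) K q) := by
  classical
  obtain ⟨u0, G, σ, hu0, hJ, hT, hlead⟩ := exists_model d hK hd e
  let Ψ : (Par d → K) → Matrix (Fin n) (Fin n) K := fun c =>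
    (G : Matrix (Fin n) (Fin n) K) * Matrix.reindex e e (cmat d c) * ((G⁻¹ : GL (Fin n) K) : Matrix (Fin n) (Fin n) K)
  have hΨinj : Function.Injective Ψ := by
    intro a b h
    have h1 : Matrix.reindex e e (cmat d a) = Matrix.reindex e e (cmat d b) :=
      G.isUnit.mul_left_cancel ((G⁻¹).isUnit.mul_right_cancel h)
    exact (commEquiv d).injective (Subtype.ext ((Matrix.reindex e e).injective h1))
  have hΨadd : ∀ a b, Ψ (a + b) = Ψ a + Ψ b := by
    intro a b
    have : cmat d (a + b) = cmat d a + cmat d b := by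
      ext x y
      simp only [cmat, cext, Matrix.of_apply, Matrix.add_apply, Pi.add_apply]
      split_ifs <;> simp
    simp only [Ψ, this, Matrix.reindex_apply, Matrix.submatrix_add, Pi.add_apply, Matrix.mul_add, Matrix.add_mul]
  have hΨsmul : ∀ (x : K) a, Ψ (x • a) = x • Ψ a := by
    intro x a
    have : cmat d (x • a) = x • cmat d a := by
      ext i j
      simp only [cmat, cext, Matrix.of_apply, Matrix.smul_apply, Pi.smul_apply, smul_eq_mul]
      split_ifs <;> simp
    simp only [Ψ, this, Matrix.reindex_apply, Matrix.submatrix_smul, Pi.smul_apply, Matrix.mul_smul, Matrix.smul_mul]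
  have hΨσ : ∀ c, Ψ (σ c) = tstar hK (Ψ c) := fun c => (hT c).symm
  have hσadd : ∀ a b, σ (a + b) = σ a + σ b := fun a b => hΨinj (by rw [hΨσ, hΨadd, hΨadd, hΨσ, hΨσ, tstar_add])
  have hσsmul : ∀ (x : K) a, σ (x • a) = qHom hK x • σ a := fun x a =>
    hΨinj (by rw [hΨσ, hΨsmul, hΨsmul, hΨσ, tstar_smul])
  have hσσ : ∀ a, σ (σ a) = a := fun a => hΨinj (by rw [hΨσ, hΨσ, tstar_tstar])
  have hσ0 : σ 0 = 0 := by
    have := hσsmul 0 0
    simpa using this
  have hu0' : (u0 : Matrix (Fin n) (Fin n) K) =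
      G * Matrix.reindex e e (Cfsg.jordanTypeMatrix d K) * ((G⁻¹ : GL (Fin n) K) : Matrix (Fin n) (Fin n) K) := by
    rw [hJ, mul_assoc, Units.mul_inv, mul_one]
  have hnmat : ∀ A : Matrix (Idx d) (Idx d) K,
      A * Cfsg.jordanTypeMatrix d K = Cfsg.jordanTypeMatrix d K * A ↔ A * nmat d K = nmat d K * A := fun A => by
    rw [nmat, Matrix.mul_sub, Matrix.sub_mul, Matrix.mul_one, Matrix.one_mul, sub_left_inj]
  have hΨcomm : ∀ c, Commute (Ψ c) (u0 : Matrix (Fin n) (Fin n) K) := by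
    intro c
    have h1 := (hnmat _).mpr (cmat_commute d c)
    show _ * _ = _ * _
    simp only [Ψ, hu0', mul_assoc, Units.inv_mul_cancel_left]
    rw [← mul_assoc (Matrix.reindex e e (cmat d c)), ← mul_assoc (Matrix.reindex e e (Cfsg.jordanTypeMatrix d K))]
    congr 2
    simp only [Matrix.reindex_apply, Matrix.submatrix_mul_equiv, h1]
  have hΨsurj : ∀ M : Matrix (Fin n) (Fin n) K, Commute M u0 → ∃ c, Ψ c = M := by
    intro M hM
    let A := (Matrix.reindexAlgEquiv K K e).symm (((G⁻¹ : GL (Fin n) K) : Matrix (Fin n) (Fin n) K) * M * G)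
    have hRA : Matrix.reindex e e A = ((G⁻¹ : GL (Fin n) K) : Matrix (Fin n) (Fin n) K) * M * G :=
      (Matrix.reindexAlgEquiv K K e).apply_symm_apply _
    have hAc : A * nmat d K = nmat d K * A := by
      refine (hnmat A).mp ((Matrix.reindexAlgEquiv K K e).injective ?_)
      rw [map_mul, map_mul]
      show Matrix.reindex e e A * Matrix.reindex e e _ = Matrix.reindex e e _ * Matrix.reindex e e A
      rw [hRA]
      have hM' := congrArg (fun X => ((G⁻¹ : GL (Fin n) K) : Matrix (Fin n) (Fin n) K) * X * (G : Matrix (Fin n) (Fin n) K)) hM.eq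
      simp only [hu0', mul_assoc, Units.inv_mul, mul_one, Units.inv_mul_cancel_left] at hM'
      simpa only [mul_assoc] using hM'
    refine ⟨(commEquiv d).symm ⟨A, hAc⟩, ?_⟩
    have h := congrArg Subtype.val ((commEquiv d).apply_symm_apply ⟨A, hAc⟩)
    show (G : Matrix (Fin n) (Fin n) K) * Matrix.reindex e e (cmat d _) * _ = M
    rw [show cmat d ((commEquiv d).symm ⟨A, hAc⟩) = A from h, hRA]
    simp only [mul_assoc, Units.mul_inv, mul_one, Units.mul_inv_cancel_left]
  have hΨunit : ∀ c, IsUnit (Ψ c) ↔ ∀ i : Rng d, (lead d c i).det ≠ 0 := by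
    intro c
    rw [← isUnit_iff_lead d hd c]
    simp only [Ψ]
    rw [Units.isUnit_mul_units, Units.isUnit_units_mul]
    exact isUnit_map_iff (Matrix.reindexAlgEquiv K K e) _
  -- units of the commutant
  have hD : Nat.card {g : GL (Fin n) K // g * u0 = u0 * g} =
      Nat.card {c : Par d → K // ∀ i : Rng d, (lead d c i).det ≠ 0} := by
    symm
    refine Nat.card_eq_of_bijective (fun c => ⟨((hΨunit c.1).mpr c.2).unit, Units.ext (hΨcomm c.1).eq⟩) ⟨?_, ?_⟩
    · intro a b h
      exact Subtype.ext (hΨinj (congrArg (fun x : {g : GL (Fin n) K // g * u0 = u0 * g} => ((x.1 : GL (Fin n) K) : Matrix (Fin n) (Fin n) K)) h))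
    · rintro ⟨g, hg⟩
      obtain ⟨c, hc⟩ := hΨsurj _ (congrArg Units.val hg)
      exact ⟨⟨c, (hΨunit c).mp (hc ▸ g.isUnit)⟩, Subtype.ext (Units.ext hc)⟩
  have hH : Nat.card {g : GL (Fin n) K // g * u0 = u0 * g ∧ tstar hK (g : Matrix (Fin n) (Fin n) K) = g} =
      Nat.card {c : Par d → K // σ c = c ∧ ∀ i : Rng d, (lead d c i).det ≠ 0} := by
    symm
    refine Nat.card_eq_of_bijective (fun c => ⟨((hΨunit c.1).mpr c.2.2).unit, Units.ext (hΨcomm c.1).eq,
      by rw [IsUnit.unit_spec, ← hΨσ, c.2.1]⟩) ⟨?_, ?_⟩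
    · intro a b h
      exact Subtype.ext (hΨinj (congrArg (fun x : {g : GL (Fin n) K // g * u0 = u0 * g ∧ tstar hK (g : Matrix (Fin n) (Fin n) K) = g} => ((x.1 : GL (Fin n) K) : Matrix (Fin n) (Fin n) K)) h))
    · rintro ⟨g, hg, hgh⟩
      obtain ⟨c, hc⟩ := hΨsurj _ (congrArg Units.val hg)
      refine ⟨⟨c, hΨinj ?_, (hΨunit c).mp (hc ▸ g.isUnit)⟩, Subtype.ext (Units.ext hc)⟩
      rw [hΨσ, hc, hgh]
  -- the kernel of the leading map
  let W : Submodule K (Par d → K) :=
    { carrier := {c | lead d c = 0}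
      add_mem' := fun {a b} ha hb => by
        show lead d (a + b) = 0
        rw [map_add, show lead d a = 0 from ha, show lead d b = 0 from hb, add_zero]
      zero_mem' := map_zero _
      smul_mem' := fun x a ha => by
        show lead d (x • a) = 0
        rw [lead_smul, show lead d a = 0 from ha, smul_zero] }
  let H0 : AddSubgroup (Par d → K) :=
    { carrier := {c | σ c = c}
      add_mem' := fun {a b} ha hb => by show σ (a + b) = a + b; rw [hσadd, ha, hb]
      zero_mem' := hσ0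
      neg_mem' := fun {a} ha => by
        show σ (-a) = -a
        rw [← neg_one_smul K a, hσsmul, ha, map_neg, map_one] }
  let Hm : AddSubgroup ((i : Rng d) → Matrix (Fin (mult d i)) (Fin (mult d i)) K) :=
    { carrier := {M | ∀ i, tstar hK (M i) = M i}
      add_mem' := fun {a b} ha hb i => by rw [Pi.add_apply, tstar_add, ha i, hb i]
      zero_mem' := fun i => UnitaryUnipotent.tstar_zero hK
      neg_mem' := fun {a} ha i => by
        rw [Pi.neg_apply, ← neg_one_smul K (a i), tstar_smul, ha i, map_neg, map_one] }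
  let f0 : H0 →+ Hm :=
    { toFun := fun c => ⟨lead d c.1, fun i => by rw [← hlead, show σ c.1 = c.1 from c.2]⟩
      map_zero' := Subtype.ext (map_zero (lead d))
      map_add' := fun a b => Subtype.ext (map_add (lead d) a.1 b.1) }
  have hf0 : Function.Surjective f0 := by
    intro M
    obtain ⟨c, hc⟩ := lead_surjective d hd M.1
    obtain ⟨a, ha⟩ := exists_trace_one hK
    refine ⟨⟨a • c + σ (a • c), ?_⟩, Subtype.ext ?_⟩
    · show σ (a • c + σ (a • c)) = a • c + σ (a • c)
      rw [hσadd, hσσ, add_comm]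
    · funext i
      show lead d (a • c + σ (a • c)) i = M.1 i
      rw [map_add, Pi.add_apply, hlead, lead_smul, Pi.smul_apply, hc, tstar_smul, M.2 i, ← add_smul, ha, one_smul]
  have hk : Nat.card (lead (K := K) d).ker = Nat.card f0.ker ^ 2 := by
    have h1 := card_eq_fixed_sq hK W σ hσadd hσsmul hσσ (fun c hc => by
      show lead d (σ c) = 0
      funext i
      rw [hlead, show lead d c = 0 from hc]
      exact UnitaryUnipotent.tstar_zero hK)
    refine h1.trans (congrArg (· ^ 2) (Nat.card_congr ⟨fun x => ⟨⟨x.1, x.2.2⟩, Subtype.ext x.2.1⟩,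
      fun x => ⟨x.1.1, congrArg Subtype.val x.2, x.1.2⟩, fun _ => rfl, fun _ => rfl⟩))
  have hA : Nat.card {c : Par d → K // ∀ i : Rng d, (lead d c i).det ≠ 0} =
      Nat.card (lead (K := K) d).ker * ∏ i : Rng d, Nat.card (GL (Fin (mult d i)) K) := by
    rw [card_fibre (lead (K := K) d) (lead_surjective d hd) (fun M : (i : Rng d) → Matrix (Fin (mult d i)) (Fin (mult d i)) K => ∀ i : Rng d, (M i).det ≠ 0), ← Nat.card_pi]
    congr 1
    exact Nat.card_congr ⟨fun M i => Matrix.GeneralLinearGroup.mkOfDetNeZero (M.1 i) (M.2 i),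
      fun M => ⟨fun i => (M i : Matrix _ _ K), fun i => Matrix.GeneralLinearGroup.det_ne_zero _⟩,
      fun M => rfl, fun M => funext fun i => Units.ext rfl⟩
  have hB : Nat.card {c : Par d → K // σ c = c ∧ ∀ i : Rng d, (lead d c i).det ≠ 0} =
      Nat.card f0.ker * ∏ i : Rng d,
        Nat.card {g : GL (Fin (mult d i)) K // tstar hK (g : Matrix (Fin (mult d i)) (Fin (mult d i)) K) = g} := by
    rw [Nat.card_congr (⟨fun c => ⟨⟨c.1, c.2.1⟩, c.2.2⟩, fun c => ⟨c.1.1, c.1.2, c.2⟩, fun _ => rfl, fun _ => rfl⟩ :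
        {c : Par d → K // σ c = c ∧ ∀ i : Rng d, (lead d c i).det ≠ 0} ≃
          {c : H0 // ∀ i : Rng d, ((f0 c).1 i).det ≠ 0}),
      card_fibre f0 hf0 (fun M => ∀ i : Rng d, (M.1 i).det ≠ 0), ← Nat.card_pi]
    congr 1
    exact Nat.card_congr ⟨fun M i => ⟨Matrix.GeneralLinearGroup.mkOfDetNeZero (M.1.1 i) (M.2 i), M.1.2 i⟩,
      fun M => ⟨⟨fun i => ((M i).1 : Matrix _ _ K), fun i => (M i).2⟩, fun i => Matrix.GeneralLinearGroup.det_ne_zero _⟩,
      fun M => rfl, fun M => funext fun i => Subtype.ext (Units.ext rfl)⟩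
  have hU : Nat.card {g : GL (Fin n) K // g * u0 = u0 * g ∧ g ∈ Cfsg.GU n K q} =
      Nat.card f0.ker * ∏ i : Rng d, Nat.card ↥(Cfsg.GU (mult d i) K q) := by
    have h1 := card_unitary_split hK u0 hu0
    have hGL : ∏ i : Rng d, Nat.card (GL (Fin (mult d i)) K) =
        (∏ i : Rng d, Nat.card ↥(Cfsg.GU (mult d i) K q)) * ∏ i : Rng d,
          Nat.card {g : GL (Fin (mult d i)) K // tstar hK (g : Matrix (Fin (mult d i)) (Fin (mult d i)) K) = g} := by
      rw [← Finset.prod_mul_distrib]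
      exact Finset.prod_congr rfl fun i _ => card_GL_split hK (mult d i)
    rw [hD, hH, hA, hB, hk, hGL] at h1
    have hpos : 0 < Nat.card f0.ker * ∏ i : Rng d,
        Nat.card {g : GL (Fin (mult d i)) K // tstar hK (g : Matrix (Fin (mult d i)) (Fin (mult d i)) K) = g} := by
      refine Nat.mul_pos Nat.card_pos (Finset.prod_pos fun i _ => ?_)
      haveI : Nonempty {g : GL (Fin (mult d i)) K // tstar hK (g : Matrix (Fin (mult d i)) (Fin (mult d i)) K) = g} :=
        ⟨⟨1, tstar_one hK⟩⟩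
      exact Nat.card_pos
    refine Nat.eq_of_mul_eq_mul_right hpos ?_
    rw [← h1]
    ring
  have hker : Nat.card f0.ker = q ^ (2 * (∑ i ∈ Finset.range (Finset.univ.sup d + 1),
      ∑ j ∈ Finset.range (Finset.univ.sup d + 1), if i < j then i * mult d i * mult d j else 0) +
      ∑ i ∈ Finset.range (Finset.univ.sup d + 1), (i - 1) * mult d i ^ 2) := by
    have h1 := card_fibre (lead (K := K) d) (lead_surjective d hd) (fun _ => True)
    rw [Nat.card_congr (Equiv.subtypeUnivEquiv fun _ => trivial),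
      Nat.card_congr (Equiv.subtypeUnivEquiv fun _ => trivial)] at h1
    have hc1 : Nat.card (Par d → K) = (q ^ 2) ^ Fintype.card (Par d) := by
      rw [Nat.card_fun, Nat.card_eq_fintype_card, Nat.card_eq_fintype_card, hK]
    have hc2 : ∀ a : ℕ, Nat.card (Matrix (Fin a) (Fin a) K) = (q ^ 2) ^ a ^ 2 := fun a => by
      show Nat.card (Fin a → Fin a → K) = _
      rw [Nat.card_fun, Nat.card_fun, Nat.card_fin, Nat.card_eq_fintype_card, hK, ← pow_mul, sq a]
    rw [hc1, Nat.card_pi] at h1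
    simp only [hc2, gamma_eq d hd] at h1
    rw [hk, Finset.prod_coe_sort (Finset.range (Finset.univ.sup d + 1)) (fun i => (q ^ 2) ^ mult d i ^ 2),
      Finset.prod_pow_eq_pow_sum, pow_add (q ^ 2)] at h1
    have hq : 0 < q := Nat.pos_of_ne_zero fun h => by subst h; simp at hK
    have h2 := Nat.eq_of_mul_eq_mul_right (pow_pos (pow_pos hq 2) _) h1
    rw [← pow_mul, mul_comm 2, pow_mul] at h2
    exact (Nat.pow_left_injective two_ne_zero h2).symm
  rw [← hker, ← hU]
  obtain ⟨c0, hc0⟩ := hu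
  let P : GL (Fin n) K := c0 * G⁻¹
  have hP : P * u0 = (u : GL (Fin n) K) * P := by
    refine Units.ext ?_
    show (c0 : Matrix (Fin n) (Fin n) K) * ((G⁻¹ : GL (Fin n) K) : Matrix (Fin n) (Fin n) K) * u0 = (u : GL (Fin n) K) * ((c0 : Matrix (Fin n) (Fin n) K) * ((G⁻¹ : GL (Fin n) K) : Matrix (Fin n) (Fin n) K))
    rw [hu0', ← mul_assoc]
    simp only [mul_assoc, Units.inv_mul_cancel_left]
    rw [← mul_assoc (c0 : Matrix (Fin n) (Fin n) K), hc0.eq, mul_assoc]
  obtain ⟨b, hb, hbu⟩ := UnitaryUnipotent.conj_in_GU hK u0 u P hu0 u.2 hP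
  refine Nat.card_congr ⟨fun g => ⟨b⁻¹ * (g.1 : GL (Fin n) K) * b, ?_, ?_⟩,
    fun g => ⟨⟨b * g.1 * b⁻¹, ?_⟩, ?_⟩, fun g => ?_, fun g => ?_⟩
  · have hg : (g.1 : GL (Fin n) K) * u = u * g.1 :=
      congrArg Subtype.val (Subgroup.mem_centralizer_singleton_iff.mp g.2)
    rw [show u0 = b⁻¹ * (u : GL (Fin n) K) * b by rw [mul_assoc, ← hbu, inv_mul_cancel_left]]
    calc b⁻¹ * (g.1 : GL (Fin n) K) * b * (b⁻¹ * (u : GL (Fin n) K) * b) = b⁻¹ * ((g.1 : GL (Fin n) K) * u) * b := by group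
      _ = b⁻¹ * ((u : GL (Fin n) K) * g.1) * b := by rw [hg]
      _ = _ := by group
  · exact mul_mem (mul_mem (inv_mem hb) g.1.2) hb
  · exact mul_mem (mul_mem hb g.2.2) (inv_mem hb)
  · rw [Subgroup.mem_centralizer_singleton_iff]
    refine Subtype.ext ?_
    show b * g.1 * b⁻¹ * (u : GL (Fin n) K) = (u : GL (Fin n) K) * (b * g.1 * b⁻¹)
    rw [show (u : GL (Fin n) K) = b * u0 * b⁻¹ by rw [hbu, mul_inv_cancel_right]]
    calc b * g.1 * b⁻¹ * (b * u0 * b⁻¹) = b * (g.1 * u0) * b⁻¹ := by group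
      _ = b * (u0 * g.1) * b⁻¹ := by rw [g.2.1]
      _ = _ := by group
  · exact Subtype.ext (Subtype.ext (by group))
  · exact Subtype.ext (by group)

end Cfsg.Agent.Lib.Jordan.UCent
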